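import Mathlib
import Cfsg.Prelude.Def_Blocks
import Cfsg.Agent.H79.DefectDegree
import Cfsg.Agent.H79.CentralDefect
import Cfsg.Agent.H20.SubgroupIdem
import Cfsg.Agent.H20.DefectOrder
import Cfsg.Agent.H84.BlockDom
import Cfsg.Agent.H82.Irr
import Cfsg.Agent.H81.Reg
import Cfsg.Agent.S0169

/-!
# Reynolds' theorem on blocks with a normal defect group (helper79)

* `exists_linear_constituent_of_height_zero`: a character of height zero in a block has a linear
  constituent on a defect group.
* `commutator_le_ker_of_linear_constituent`: if `P` is normal and the restriction of `χ` to `P`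
  has a linear constituent, then `[P, P]` lies in the kernel of `χ`.
* `eq_one_of_pow_eq_one_of_ker`: a `p`-element in the kernel of every member of a block is
  trivial.
* `reynolds`: a normal defect group is abelian iff every member of the block has height zero.
-/

set_option autoImplicit false
set_option linter.unusedSectionVars false
set_option linter.style.haveILetI false

namespace Cfsg.Agent.H79

open Cfsg Cfsg.Agent.H20 Cfsg.Agent.H4
open scoped ComplexConjugate commutatorElement

universe u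

section

variable {G : Type u} [Group G]

/-- A character of height zero has a linear constituent on a defect group. -/
theorem exists_linear_constituent_of_height_zero [Finite G] {p : ℕ} {M : Ideal AlgInt}
    (hM : IsPModular p M) (χ₀ : IrrCharacter G) (g : G)
    (hg : IsDefectClass M (blockOf M (χ₀ : G → ℂ)) g) (D : Subgroup G) [Fintype D]
    (hDp : IsPGroup p D) (hDc : ∀ u ∈ D, u * g = g * u)
    (hcard : Nat.card D = p ^ (Nat.card (Subgroup.centralizer ({g} : Set G))).factorization p)
    (χ : IrrCharacter G) (hχ : χ ∈ blockOf M (χ₀ : G → ℂ))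
    (h0 : blockHeight p (blockOf M (χ₀ : G → ℂ)) (χ : G → ℂ) = 0) :
    ∃ μ' : IrrCharacter ↥D, μ'.1 1 = 1 ∧
      classInner (fun u : D => (χ : G → ℂ) u) μ'.1 ≠ 0 := by
  classical
  have hp : p.Prime := hM.1
  have hMp := isPrime_of_isPModular hM
  obtain ⟨ψ, hψB, hψnd⟩ := exists_degree_not_dvd_of_defectClass hM χ₀ g hg D hDp hDc hcard
  obtain ⟨c, hcdef⟩ : ∃ c : ℕ,
      c = (Subgroup.centralizer ({g} : Set G)).index.factorization p := ⟨_, rfl⟩
  rw [← hcdef] at hψnd
  have hψpos := Cfsg.Agent.H82.charDegree_pos ψ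
  have hχpos := Cfsg.Agent.H82.charDegree_pos χ
  have hψle : (charDegree (ψ : G → ℂ)).factorization p ≤ c := by
    by_contra hlt
    push Not at hlt
    exact hψnd ((hp.pow_dvd_iff_le_factorization hψpos.ne').mpr hlt)
  have hχle : (charDegree (χ : G → ℂ)).factorization p ≤ c := by
    unfold blockHeight at h0
    have h1 : sInf ((fun ψ : IrrCharacter G => (charDegree (ψ : G → ℂ)).factorization p) ''
        blockOf M (χ₀ : G → ℂ)) ≤ (charDegree (ψ : G → ℂ)).factorization p :=
      Nat.sInf_le (Set.mem_image_of_mem _ hψB)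
    omega
  by_contra hno
  push Not at hno
  have hV := char_div_p_memLocalRing_of_no_linear hM D hDp g hDc
    (isCharacter_of_isIrrCharacter χ.2) hno
  apply hg.2.2 χ hχ
  obtain ⟨ν, hν⟩ : ∃ ν : ℕ, ν = (charDegree (χ : G → ℂ)).factorization p := ⟨_, rfl⟩
  rw [← hν] at hχle
  obtain ⟨m', hm'⟩ : ∃ m' : ℕ, m' = charDegree (χ : G → ℂ) / p ^ ν := ⟨_, rfl⟩
  obtain ⟨k', hk'⟩ : ∃ k' : ℕ,
      k' = (Subgroup.centralizer ({g} : Set G)).index / p ^ c := ⟨_, rfl⟩
  have hIne : (Subgroup.centralizer ({g} : Set G)).index ≠ 0 :=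
    Subgroup.index_ne_zero_of_finite
  have hm'p : ¬ p ∣ m' := by rw [hm', hν]; exact Nat.not_dvd_ordCompl hp hχpos.ne'
  have hdeg : charDegree (χ : G → ℂ) = p ^ ν * m' := by
    rw [hm', hν, Nat.ordProj_mul_ordCompl_eq_self]
  have hidx : (Subgroup.centralizer ({g} : Set G)).index = p ^ c * k' := by
    rw [hk', hcdef, Nat.ordProj_mul_ordCompl_eq_self]
  obtain ⟨e, he⟩ : ∃ e : ℕ, c = ν + e := ⟨c - ν, by omega⟩
  have hm0 : (m' : ℂ) ≠ 0 := by
    have : m' ≠ 0 := fun h0 => hm'p (by rw [h0]; exact dvd_zero p)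
    exact_mod_cast this
  have hp0 : (p : ℂ) ≠ 0 := by exact_mod_cast hp.ne_zero
  have h1 : centralChar (χ : G → ℂ) g = (p : ℂ) * ((((p ^ e * k' : ℕ) : ℂ) * (m' : ℂ)⁻¹)
      * ((χ : G → ℂ) g / (p : ℂ))) := by
    unfold centralChar
    rw [Cfsg.Agent.H82.irr_one_eq_charDegree χ, hdeg, hidx, he]
    push_cast
    field_simp
    ring
  rw [h1]
  exact memLocalIdeal_mul_right hMp (memLocalIdeal_natCast_self hM)
    (memLocalRing_mul hMp (memLocalRing_mul hMp (memLocalRing_natCast hMp _)
      (memLocalRing_inv_natCast hM hm'p)) hV)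

/-- If `P` is normal in `G` and the restriction of the irreducible character `χ` to `P` has a
linear constituent, then `[P, P]` lies in the kernel of `χ`. -/
theorem commutator_le_ker_of_linear_constituent [Fintype G] (P : Subgroup G) [P.Normal]
    [Fintype P] (χ : IrrCharacter G) (μ : IrrCharacter P) (hμ1 : μ.1 1 = 1)
    (hne : classInner (fun u : P => (χ : G → ℂ) u) μ.1 ≠ 0) :
    ∀ n ∈ ⁅P, P⁆, (χ : G → ℂ) n = (χ : G → ℂ) 1 := by
  classical
  obtain ⟨N, hNdef⟩ : ∃ N : Subgroup G, N = ⁅P, P⁆ := ⟨_, rfl⟩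
  rw [← hNdef]
  haveI hNn : N.Normal := by
    rw [hNdef]
    infer_instance
  have hNP : N ≤ P := by
    rw [hNdef]
    exact Subgroup.commutator_le_self P
  have hχ1 : (χ : G → ℂ) 1 ≠ 0 := Cfsg.Agent.H4.irr_one_ne_zero χ
  have hN0 : (Nat.card N : ℂ) ≠ 0 := by exact_mod_cast (Nat.card_pos (α := N)).ne'
  rcases omega_subgroupAvg_eq_zero_or_one χ N with h0 | h1
  · exfalso
    apply hne
    have hI : ∀ x₀ : G,
        ∑ h : G, (if h ∈ N then (χ : G → ℂ) (h * x₀) else 0) = 0 := by
      intro x₀
      have h2 := omega_mul χ (isCF_subgroupAvg N) (MonoidAlgebra.single x₀ (1 : ℂ))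
      rw [h0, zero_mul] at h2
      unfold omega at h2
      have h3 : ∑ g : G, (subgroupAvg N * MonoidAlgebra.single x₀ (1 : ℂ)).coeff g
          * (χ : G → ℂ) g = 0 := by
        rcases div_eq_zero_iff.mp h2 with h | h
        · exact h
        · exact absurd h hχ1
      have hc : ∀ g : G, (subgroupAvg N * MonoidAlgebra.single x₀ (1 : ℂ)).coeff g
          = (subgroupAvg N).coeff (g * x₀⁻¹) := by
        intro g
        rw [coeff_mul_fintype, Finset.sum_eq_single (g * x₀⁻¹)]
        · rw [MonoidAlgebra.coeff_single, Finsupp.single_apply, if_pos (by group), mul_one]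
        · intro b _ hb
          rw [MonoidAlgebra.coeff_single, Finsupp.single_apply, if_neg, mul_zero]
          intro h
          apply hb
          rw [h]
          group
        · intro h
          exact absurd (Finset.mem_univ _) h
      rw [Finset.sum_congr rfl (fun g _ => by rw [hc g])] at h3
      rw [← Equiv.sum_comp (Equiv.mulRight x₀)] at h3
      simp only [Equiv.coe_mulRight, mul_inv_cancel_right] at h3
      have h4 : ∑ h : G, (subgroupAvg N).coeff h * (χ : G → ℂ) (h * x₀)
          = (Nat.card N : ℂ)⁻¹ * ∑ h : G, (if h ∈ N then (χ : G → ℂ) (h * x₀) else 0) := by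
        rw [Finset.mul_sum]
        apply Finset.sum_congr rfl
        intro h _
        rw [coeff_subgroupAvg]
        split_ifs <;> simp
      rw [h4] at h3
      rcases mul_eq_zero.mp h3 with h | h
      · exact absurd (inv_eq_zero.mp h) hN0
      · exact h
    -- the linear character is trivial on `N`
    have hμN : ∀ (h : G) (hh : h ∈ N) (x : P), μ.1 (⟨h, hNP hh⟩ * x) = μ.1 x := by
      intro h hh x
      have hh' := hh
      rw [hNdef, ← Subgroup.map_subtype_commutator] at hh'
      obtain ⟨h', hh'c, hh'e⟩ := hh'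
      have h5 : Cfsg.Agent.H82.irrLinearHom μ hμ1 h' = 1 :=
        MonoidHom.mem_ker.mp (Abelianization.commutator_subset_ker _ hh'c)
      have h6 : μ.1 h' = 1 := by
        rw [← Cfsg.Agent.H82.irrLinearHom_apply μ hμ1 h', h5]
        rfl
      have h7 : (⟨h, hNP hh⟩ : P) = h' := Subtype.ext hh'e.symm
      rw [Cfsg.Agent.H82.irr_linear_mul μ hμ1, h7, h6, one_mul]
    obtain ⟨S, hS⟩ : ∃ S : ℂ, S = ∑ x : P, (χ : G → ℂ) x * conj (μ.1 x) := ⟨_, rfl⟩
    have hSh : ∀ h : G, h ∈ N → ∑ x : P, (χ : G → ℂ) (h * (x : G)) * conj (μ.1 x) = S := by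
      intro h hh
      rw [hS, ← Equiv.sum_comp (Equiv.mulLeft (⟨h, hNP hh⟩ : P))
        (fun x : P => (χ : G → ℂ) x * conj (μ.1 x))]
      apply Finset.sum_congr rfl
      intro x _
      simp only [Equiv.coe_mulLeft]
      rw [hμN h hh x]
      rfl
    have hT : ∑ h : G, (if h ∈ N then ∑ x : P, (χ : G → ℂ) (h * (x : G)) * conj (μ.1 x) else 0)
        = 0 := by
      have e1 : ∀ h : G,
          (if h ∈ N then ∑ x : P, (χ : G → ℂ) (h * (x : G)) * conj (μ.1 x) else 0)
          = ∑ x : P, conj (μ.1 x) * (if h ∈ N then (χ : G → ℂ) (h * (x : G)) else 0) := by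
        intro h
        split_ifs
        · apply Finset.sum_congr rfl
          intro x _
          ring
        · simp
      rw [Finset.sum_congr rfl (fun h _ => e1 h), Finset.sum_comm]
      apply Finset.sum_eq_zero
      intro x _
      rw [← Finset.mul_sum, hI (x : G), mul_zero]
    have hT2 : ∑ h : G, (if h ∈ N then ∑ x : P, (χ : G → ℂ) (h * (x : G)) * conj (μ.1 x) else 0)
        = (Nat.card N : ℂ) * S := by
      rw [← sum_ite_mem_subgroup N S]
      apply Finset.sum_congr rfl
      intro h _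
      split_ifs with hh
      · exact hSh h hh
      · rfl
    rw [hT2] at hT
    have hS0 : S = 0 := by
      rcases mul_eq_zero.mp hT with h | h
      · exact absurd h hN0
      · exact h
    unfold classInner
    rw [← hS, hS0, mul_zero]
  · exact (omega_subgroupAvg_eq_one_iff χ N).mp h1

/-- A `p`-element lying in the kernel of every member of a block is trivial. -/
theorem eq_one_of_pow_eq_one_of_ker [Finite G] {p : ℕ} {M : Ideal AlgInt} (hM : IsPModular p M)
    (χ₀ : IrrCharacter G) (k : G) (m : ℕ) (hk : k ^ (p ^ m) = 1)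
    (hker : ∀ χ ∈ blockOf M (χ₀ : G → ℂ), (χ : G → ℂ) k = (χ : G → ℂ) 1) : k = 1 := by
  classical
  have hfG : Fintype G := Fintype.ofFinite G
  have hp : p.Prime := hM.1
  have hMp := isPrime_of_isPModular hM
  by_contra hne
  obtain ⟨j, -, hj⟩ := (Nat.dvd_prime_pow hp).mp (orderOf_dvd_of_pow_eq_one hk)
  have hj0 : j ≠ 0 := by
    rintro rfl
    rw [pow_zero, orderOf_eq_one_iff] at hj
    exact hne hj
  have hsing : p ∣ orderOf k := by
    rw [hj]
    exact dvd_pow_self p hj0
  have h1 := Cfsg.Agent.H84.blockCoeff_eq_zero_of_singular hM χ₀ k hsing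
  have h2 : blockCoeff (blockOf M (χ₀ : G → ℂ)) k = blockCoeff (blockOf M (χ₀ : G → ℂ)) 1 := by
    rw [blockCoeff_eq, blockCoeff_eq]
    congr 1
    apply Finset.sum_congr rfl
    intro χ _
    split_ifs with hχ
    · rw [hker χ hχ]
    · rfl
  rw [h1] at h2
  exact Cfsg.Agent.H84.blockCoeff_one_ne_zero hMp χ₀ h2.symm

/-- **Reynolds' theorem.** A normal defect group of a block is abelian iff every member of the
block has height zero. -/
theorem reynolds [Finite G] {p : ℕ} {M : Ideal AlgInt} (hM : IsPModular p M)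
    (χ₀ : IrrCharacter G) (P : Subgroup G) [P.Normal]
    (hP : IsDefectGroup p M (blockOf M (χ₀ : G → ℂ)) P) :
    (∀ a ∈ P, ∀ c ∈ P, a * c = c * a) ↔
      ∀ χ ∈ blockOf M (χ₀ : G → ℂ), blockHeight p (blockOf M (χ₀ : G → ℂ)) (χ : G → ℂ) = 0 := by
  classical
  have hfG : Fintype G := Fintype.ofFinite G
  have hfP : Fintype P := Fintype.ofFinite P
  have hp : p.Prime := hM.1
  haveI hfact : Fact p.Prime := ⟨hp⟩
  have hMp := isPrime_of_isPModular hM
  constructor
  · intro hab χ hχ
    obtain ⟨-, hge⟩ := exists_height_zero_of_defectGroup hM χ₀ P hP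
    have hIne : P.index ≠ 0 := Subgroup.index_ne_zero_of_finite
    have hdvd : charDegree (χ : G → ℂ) ∣ P.index := by
      obtain ⟨n, ρ, hρ, hχρ⟩ := χ.2
      haveI := hρ
      have h1 := Cfsg.Agent.S0169.result ρ P hab
      have h2 : ((charDegree (χ : G → ℂ) : ℕ) : ℂ) = (Module.finrank ℂ (Fin n → ℂ) : ℂ) := by
        rw [← (Cfsg.Agent.H81.irr_charDegree χ).1, ← hχρ, Representation.char_one]
      have h3 : charDegree (χ : G → ℂ) = Module.finrank ℂ (Fin n → ℂ) := by exact_mod_cast h2
      rw [h3]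
      exact h1
    have hle : (charDegree (χ : G → ℂ)).factorization p ≤ P.index.factorization p :=
      (Nat.factorization_le_iff_dvd (Cfsg.Agent.H82.charDegree_pos χ).ne' hIne).mpr hdvd p
    have hinf : P.index.factorization p ≤
        sInf ((fun ψ : IrrCharacter G => (charDegree (ψ : G → ℂ)).factorization p) ''
          blockOf M (χ₀ : G → ℂ)) := by
      apply le_csInf
      · exact ⟨_, χ₀, Cfsg.Agent.H80.mem_blockOf_self hMp χ₀, rfl⟩
      · rintro _ ⟨ψ, hψ, rfl⟩
        exact hge ψ hψ
    unfold blockHeight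
    omega
  · intro hall a ha c hc
    obtain ⟨g, hg, S, hPdef⟩ := hP
    have hPp : IsPGroup p P := by
      rw [hPdef]
      exact S.2.map _
    have hPc : ∀ u ∈ P, u * g = g * u := by
      intro u hu
      rw [hPdef] at hu
      obtain ⟨x, -, rfl⟩ := Subgroup.mem_map.mp hu
      exact (Subgroup.mem_centralizer_iff.mp x.2 g (Set.mem_singleton g)).symm
    have hcard : Nat.card P
        = p ^ (Nat.card (Subgroup.centralizer ({g} : Set G))).factorization p := by
      rw [hPdef, Subgroup.card_map_of_injective (Subgroup.subtype_injective _),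
        Sylow.card_eq_multiplicity]
    have hkP : ⁅a, c⁆ ∈ P := by
      rw [commutatorElement_def]
      exact P.mul_mem (P.mul_mem (P.mul_mem ha hc) (P.inv_mem ha)) (P.inv_mem hc)
    obtain ⟨m, hm⟩ := hPp ⟨⁅a, c⁆, hkP⟩
    have hm' : ⁅a, c⁆ ^ (p ^ m) = 1 := by
      have := congrArg Subtype.val hm
      simpa using this
    have hker : ∀ χ ∈ blockOf M (χ₀ : G → ℂ), (χ : G → ℂ) ⁅a, c⁆ = (χ : G → ℂ) 1 := by
      intro χ hχ
      obtain ⟨μ, hμ1, hμne⟩ := exists_linear_constituent_of_height_zero hM χ₀ g hg P hPp hPc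
        hcard χ hχ (hall χ hχ)
      exact commutator_le_ker_of_linear_constituent P χ μ hμ1 hμne _
        (Subgroup.commutator_mem_commutator ha hc)
    have h1 := eq_one_of_pow_eq_one_of_ker hM χ₀ ⁅a, c⁆ m hm' hker
    exact commutatorElement_eq_one_iff_mul_comm.mp h1

end

end Cfsg.Agent.H79
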