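import Mathlib
import Cfsg.Prelude.Def_Characters
import Cfsg.Agent.H1.BTDefs

/-!
# S0997-B-INNER (helper79, for helper1)

Inner product with a class function supported on the `p`-singular elements, when a Sylow
`p`-subgroup `P` has prime order and is self-centralizing: the `p`-singular elements are the
disjoint union of the conjugates of `P \ 1`, each lying in exactly `|N(P)|` sets `h P h⁻¹`
(counted over `h`).
-/

set_option autoImplicit false

namespace Cfsg.Agent.H79.BT

open Cfsg Cfsg.Agent.H1.BT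
open scoped ComplexConjugate

universe u

/-- A nontrivial element of a subgroup of prime order generates it. -/
theorem gen_of_prime {G : Type u} [Group G] {p : ℕ} (hp : p.Prime) (P : Subgroup G)
    (hP : Nat.card P = p) {y : G} (hy : y ∈ P) (hy1 : y ≠ 1) {x : G} (hx : x ∈ P) :
    ∃ k : ℤ, y ^ k = x := by
  have : Fact p.Prime := ⟨hp⟩
  have h1 : (⟨y, hy⟩ : P) ≠ 1 := by
    intro h
    exact hy1 (congrArg Subtype.val h)
  have h2 : (⟨x, hx⟩ : P) ∈ Subgroup.zpowers (⟨y, hy⟩ : P) := mem_zpowers_of_prime_card hP h1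
  obtain ⟨k, hk⟩ := Subgroup.mem_zpowers_iff.mp h2
  exact ⟨k, by simpa using congrArg Subtype.val hk⟩

/-- A `p`-singular element is conjugate into the self-centralizing Sylow subgroup of order `p`. -/
theorem exists_conj_mem {G : Type u} [Group G] [Finite G] {p : ℕ} (hp : p.Prime) (P : Sylow p G)
    (hP : Nat.card (P : Subgroup G) = p)
    (hC : Subgroup.centralizer ((P : Subgroup G) : Set G) = (P : Subgroup G))
    (g : G) (hg : p ∣ orderOf g) : ∃ h : G, h⁻¹ * g * h ∈ (P : Subgroup G) := by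
  have : Fact p.Prime := ⟨hp⟩
  have ho : orderOf g ≠ 0 := (orderOf_pos g).ne'
  obtain ⟨z, hz⟩ : ∃ z : G, z = g ^ (orderOf g / p) := ⟨_, rfl⟩
  have hzo : orderOf z = p := by
    rw [hz]
    exact orderOf_pow_orderOf_div ho hg
  have hzP : IsPGroup p (Subgroup.zpowers z) := by
    apply IsPGroup.of_card (n := 1)
    rw [Nat.card_zpowers, hzo, pow_one]
  obtain ⟨Q, hQ⟩ := hzP.exists_le_sylow
  obtain ⟨h, hh⟩ := MulAction.exists_smul_eq G P Q
  have hzQ : z ∈ (Q : Subgroup G) := hQ (Subgroup.mem_zpowers z)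
  rw [← hh, Sylow.coe_subgroup_smul, Subgroup.mem_smul_pointwise_iff_exists] at hzQ
  obtain ⟨s, hs, hsz⟩ := hzQ
  have hsz' : h * s * h⁻¹ = z := hsz
  have hz' : h⁻¹ * z * h ∈ (P : Subgroup G) := by
    rw [← hsz']
    have : h⁻¹ * (h * s * h⁻¹) * h = s := by group
    rw [this]
    exact hs
  have hz1 : h⁻¹ * z * h ≠ 1 := by
    intro h1
    have h2 : z = 1 := by
      have : z = h * (h⁻¹ * z * h) * h⁻¹ := by group
      rw [this, h1]
      group
    rw [h2, orderOf_one] at hzo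
    exact hp.one_lt.ne hzo
  refine ⟨h, ?_⟩
  rw [← hC, Subgroup.mem_centralizer_iff]
  intro x hx
  obtain ⟨k, hk⟩ := gen_of_prime hp (P : Subgroup G) hP hz' hz1 hx
  rw [← hk]
  have h0 : z * g = g * z := by
    rw [hz]
    exact (Commute.pow_self g _).eq
  have hcomm : Commute (h⁻¹ * z * h) (h⁻¹ * g * h) := by
    show h⁻¹ * z * h * (h⁻¹ * g * h) = h⁻¹ * g * h * (h⁻¹ * z * h)
    calc h⁻¹ * z * h * (h⁻¹ * g * h) = h⁻¹ * (z * g) * h := by group
      _ = h⁻¹ * (g * z) * h := by rw [h0]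
      _ = h⁻¹ * g * h * (h⁻¹ * z * h) := by group
  exact (hcomm.zpow_left k).eq

/-- The number of `h` with `h⁻¹ g h ∈ P` is `|N(P)|`, for `g ≠ 1` conjugate into `P` of prime
order. -/
theorem card_conj_mem {G : Type u} [Group G] {p : ℕ} (hp : p.Prime) (P : Subgroup G)
    (hP : Nat.card P = p) (g h0 : G) (hg1 : g ≠ 1) (h0P : h0⁻¹ * g * h0 ∈ P) :
    Nat.card {h : G // h⁻¹ * g * h ∈ P} = Nat.card (Subgroup.normalizer (P : Set G)) := by
  have hy1 : h0⁻¹ * g * h0 ≠ 1 := by
    intro h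
    apply hg1
    have : g = h0 * (h0⁻¹ * g * h0) * h0⁻¹ := by group
    rw [this, h]
    group
  have key : ∀ n : G, n⁻¹ * (h0⁻¹ * g * h0) * n ∈ P ↔ n ∈ Subgroup.normalizer (P : Set G) := by
    intro n
    constructor
    · intro hn
      have hy2 : n⁻¹ * (h0⁻¹ * g * h0) * n ≠ 1 := by
        intro h
        apply hy1
        have : h0⁻¹ * g * h0 = n * (n⁻¹ * (h0⁻¹ * g * h0) * n) * n⁻¹ := by group
        rw [this, h]
        group
      have hc : n * (n⁻¹ * (h0⁻¹ * g * h0) * n) * n⁻¹ = h0⁻¹ * g * h0 := by group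
      rw [Subgroup.mem_normalizer_iff]
      intro x
      constructor
      · intro hx
        obtain ⟨k, hk⟩ := gen_of_prime hp P hP hn hy2 hx
        rw [← hk, ← conj_zpow, hc]
        exact P.zpow_mem h0P k
      · intro hx
        obtain ⟨k, hk⟩ := gen_of_prime hp P hP h0P hy1 hx
        have h2 : x = (n⁻¹ * (h0⁻¹ * g * h0) * n) ^ k := by
          have h3 : n * (n⁻¹ * (h0⁻¹ * g * h0) * n) ^ k * n⁻¹ = n * x * n⁻¹ := by
            rw [← conj_zpow, hc, hk]
          exact (mul_left_cancel (mul_right_cancel h3)).symm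
        rw [h2]
        exact P.zpow_mem hn k
    · intro hn
      have hn' : n⁻¹ ∈ Subgroup.normalizer (P : Set G) := inv_mem hn
      have h1 := (Subgroup.mem_normalizer_iff.mp hn' (h0⁻¹ * g * h0)).mp h0P
      rw [inv_inv] at h1
      exact h1
  apply Nat.card_congr
  refine ⟨fun h => ⟨h0⁻¹ * h.1, (key _).mp ?_⟩, fun n => ⟨h0 * n.1, ?_⟩, ?_, ?_⟩
  · have h1 := h.2
    have h2 : (h0⁻¹ * h.1)⁻¹ * (h0⁻¹ * g * h0) * (h0⁻¹ * h.1) = h.1⁻¹ * g * h.1 := by group
    rw [h2]
    exact h1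
  · have h1 := (key n.1).mpr n.2
    have h2 : (h0 * n.1)⁻¹ * g * (h0 * n.1) = n.1⁻¹ * (h0⁻¹ * g * h0) * n.1 := by group
    rw [h2]
    exact h1
  · intro h
    apply Subtype.ext
    show h0 * (h0⁻¹ * h.1) = h.1
    group
  · intro n
    apply Subtype.ext
    show h0⁻¹ * (h0 * n.1) = n.1
    group

/-- INNER. -/
theorem inner : StInner.{u} := by
  intro G _ _ p e hp P hP hC hN f ψ hf hψ hf0
  classical
  have : Fact p.Prime := ⟨hp⟩
  obtain ⟨F, hF⟩ : ∃ F : G → ℂ, ∀ g, F g = f g * conj (ψ g) := ⟨_, fun g => rfl⟩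
  have hFc : ∀ g h : G, F (h * g * h⁻¹) = F g := by
    intro g h
    rw [hF, hF, hf g h, hψ g h]
  have hF0 : ∀ g : G, ¬ p ∣ orderOf g → F g = 0 := by
    intro g hg
    rw [hF, hf0 g hg, zero_mul]
  have hcount : ∀ g : G, p ∣ orderOf g →
      ((Finset.univ.filter (fun h : G => h⁻¹ * g * h ∈ (P : Subgroup G))).card : ℂ)
        = (p : ℂ) * (e : ℂ) := by
    intro g hg
    obtain ⟨h0, h0P⟩ := exists_conj_mem hp P hP hC g hg
    have hg1 : g ≠ 1 := by
      rintro rfl
      rw [orderOf_one] at hg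
      exact hp.one_lt.ne' (Nat.dvd_one.mp hg)
    have h1 := card_conj_mem hp (P : Subgroup G) hP g h0 hg1 h0P
    rw [hN] at h1
    have h2 : (Finset.univ.filter (fun h : G => h⁻¹ * g * h ∈ (P : Subgroup G))).card = p * e := by
      rw [← Fintype.card_subtype, ← Nat.card_eq_fintype_card]
      exact h1
    rw [h2]
    push_cast
    rfl
  have hdouble : ∑ g : G, ∑ h : G, (if h⁻¹ * g * h ∈ (P : Subgroup G) then F g else 0)
      = (p : ℂ) * (e : ℂ) * ∑ g : G, F g := by
    rw [Finset.mul_sum]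
    apply Finset.sum_congr rfl
    intro g _
    rw [← Finset.sum_filter, Finset.sum_const, nsmul_eq_mul]
    by_cases hg : p ∣ orderOf g
    · rw [hcount g hg]
    · rw [hF0 g hg, mul_zero, mul_zero]
  have hh : ∀ h : G, ∑ g : G, (if h⁻¹ * g * h ∈ (P : Subgroup G) then F g else 0)
      = ∑ y : ↥(P : Subgroup G), F (y : G) := by
    intro h
    rw [← Equiv.sum_comp (MulAut.conj h).toEquiv]
    have h1 : ∀ g' : G,
        (if h⁻¹ * ((MulAut.conj h).toEquiv g') * h ∈ (P : Subgroup G)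
          then F ((MulAut.conj h).toEquiv g') else 0)
        = (if g' ∈ (P : Subgroup G) then F g' else 0) := by
      intro g'
      have e1 : h⁻¹ * ((MulAut.conj h).toEquiv g') * h = g' := by
        show h⁻¹ * (h * g' * h⁻¹) * h = g'
        group
      have e2 : F ((MulAut.conj h).toEquiv g') = F g' := hFc g' h
      rw [e1, e2]
    rw [Finset.sum_congr rfl (fun g' _ => h1 g'), ← Finset.sum_filter]
    exact Finset.sum_subtype (Finset.univ.filter (fun g : G => g ∈ (P : Subgroup G)))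
      (fun x => by simp) F
  have hdouble2 : ∑ g : G, ∑ h : G, (if h⁻¹ * g * h ∈ (P : Subgroup G) then F g else 0)
      = (Nat.card G : ℂ) * ∑ y : ↥(P : Subgroup G), F (y : G) := by
    rw [Finset.sum_comm, Finset.sum_congr rfl (fun h _ => hh h), Finset.sum_const,
      Finset.card_univ, nsmul_eq_mul, Nat.card_eq_fintype_card]
  have hpe : (p : ℂ) * (e : ℂ) ≠ 0 := by
    have h1 : p * e ≠ 0 := by
      rw [← hN]
      exact Nat.card_pos.ne'
    exact_mod_cast h1
  have hG : (Nat.card G : ℂ) ≠ 0 := by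
    have h1 : Nat.card G ≠ 0 := Nat.card_pos.ne'
    exact_mod_cast h1
  have hfin : ∑ᶠ y : ↥(P : Subgroup G), f (y : G) * conj (ψ (y : G))
      = ∑ y : ↥(P : Subgroup G), F (y : G) := by
    rw [finsum_eq_sum_of_fintype]
    apply Finset.sum_congr rfl
    intro y _
    rw [hF]
  have key := hdouble.symm.trans hdouble2
  have hS : ∑ g : G, F g
      = ((p : ℂ) * (e : ℂ))⁻¹ * ((Nat.card G : ℂ) * ∑ y : ↥(P : Subgroup G), F (y : G)) := by
    rw [← key, inv_mul_cancel_left₀ hpe]
  have hcl : classInner f ψ = (Nat.card G : ℂ)⁻¹ * ∑ g : G, F g := by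
    unfold classInner
    congr 1
    apply Finset.sum_congr rfl
    intro g _
    rw [hF]
  rw [hcl, hfin, hS, mul_left_comm, inv_mul_cancel_left₀ hG]

example : StInner.{u} := inner

end Cfsg.Agent.H79.BT
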