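import Mathlib
import Cfsg.Prelude.Def_Characters
import Cfsg.Agent.H4.Chars
import Cfsg.Agent.H99.AltSq
import Cfsg.Agent.H1.BTDefs

/-!
# S0997-B-SYM (helper79, for helper1)

The symmetric square of a character is a character: explicit matrices on the index set of
pairs `i ≤ j` (weight `1/2` on the diagonal), as in `H99.AltSq` for the exterior square.
-/

set_option autoImplicit false

open Matrix

namespace Cfsg.Agent.H79.BT

open Cfsg Cfsg.Agent.H1.BT

universe u

/-- The index set of the symmetric square: pairs `i ≤ j`. -/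
abbrev Ps (n : ℕ) : Type := {p : Fin n × Fin n // p.1 ≤ p.2}

/-- The weight of a pair: `1/2` on the diagonal, `1` off it. -/
noncomputable def wt {n : ℕ} (q : Ps n) : ℂ := if q.1.1 = q.1.2 then 1 / 2 else 1

/-- Summing a function of two indices over ordered pairs `a ≤ b`, with weights. -/
theorem sum_le_pairs {n : ℕ} (G : Fin n → Fin n → ℂ) :
    ∑ a, ∑ b, G a b = ∑ r : Ps n, wt r * (G r.1.1 r.1.2 + G r.1.2 r.1.1) := by
  classical
  have h1 : ∀ a b, G a b = (if a < b then G a b else 0) + (if b < a then G a b else 0)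
      + (if a = b then G a b else 0) := by
    intro a b
    rcases lt_trichotomy a b with h | h | h
    · rw [if_pos h, if_neg (not_lt.mpr h.le), if_neg h.ne, add_zero, add_zero]
    · subst h
      rw [if_neg (lt_irrefl a), if_pos rfl, add_zero, zero_add]
    · rw [if_neg (not_lt.mpr h.le), if_pos h, if_neg h.ne', zero_add, add_zero]
  have h2 : ∑ a, ∑ b, G a b
      = ∑ a, ∑ b, (if a < b then G a b else 0) + ∑ a, ∑ b, (if b < a then G a b else 0)
        + ∑ a, ∑ b, (if a = b then G a b else 0) := by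
    rw [← Finset.sum_add_distrib, ← Finset.sum_add_distrib]
    apply Finset.sum_congr rfl
    intro a _
    rw [← Finset.sum_add_distrib, ← Finset.sum_add_distrib]
    apply Finset.sum_congr rfl
    intro b _
    exact h1 a b
  have h3 : ∑ a, ∑ b, (if b < a then G a b else 0) = ∑ a, ∑ b, (if a < b then G b a else 0) :=
    Finset.sum_comm
  have h4 : ∑ r : Ps n, wt r * (G r.1.1 r.1.2 + G r.1.2 r.1.1)
      = ∑ p : Fin n × Fin n, (if p.1 ≤ p.2 then
          (if p.1 = p.2 then (1 / 2 : ℂ) else 1) * (G p.1 p.2 + G p.2 p.1) else 0) := by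
    rw [← Finset.sum_filter]
    exact (Finset.sum_subtype (Finset.univ.filter (fun p : Fin n × Fin n => p.1 ≤ p.2))
      (fun x => by simp)
      (fun p => (if p.1 = p.2 then (1 / 2 : ℂ) else 1) * (G p.1 p.2 + G p.2 p.1))).symm
  rw [h4, Fintype.sum_prod_type, h2, h3, ← Finset.sum_add_distrib, ← Finset.sum_add_distrib]
  apply Finset.sum_congr rfl
  intro a _
  rw [← Finset.sum_add_distrib, ← Finset.sum_add_distrib]
  apply Finset.sum_congr rfl
  intro b _
  show _ = (if a ≤ b then (if a = b then (1 / 2 : ℂ) else 1) * (G a b + G b a) else 0)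
  rcases lt_trichotomy a b with h | h | h
  · rw [if_pos h, if_pos h, if_neg h.ne, if_pos h.le, if_neg h.ne]
    ring
  · subst h
    rw [if_neg (lt_irrefl a), if_pos rfl, if_pos le_rfl, if_pos rfl]
    ring
  · rw [if_neg (not_lt.mpr h.le), if_neg (not_lt.mpr h.le), if_neg h.ne', if_neg (not_le.mpr h)]
    ring

/-- The symmetric square matrix. -/
noncomputable def sym2 {n : ℕ} (A : Matrix (Fin n) (Fin n) ℂ) : Matrix (Ps n) (Ps n) ℂ :=
  fun p q => (A p.1.1 q.1.1 * A p.1.2 q.1.2 + A p.1.1 q.1.2 * A p.1.2 q.1.1) * wt q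

theorem sym2_mul {n : ℕ} (A B : Matrix (Fin n) (Fin n) ℂ) :
    sym2 (A * B) = sym2 A * sym2 B := by
  ext p q
  rw [Matrix.mul_apply]
  show ((A * B) p.1.1 q.1.1 * (A * B) p.1.2 q.1.2 + (A * B) p.1.1 q.1.2 * (A * B) p.1.2 q.1.1)
      * wt q
    = ∑ r : Ps n, ((A p.1.1 r.1.1 * A p.1.2 r.1.2 + A p.1.1 r.1.2 * A p.1.2 r.1.1) * wt r)
        * ((B r.1.1 q.1.1 * B r.1.2 q.1.2 + B r.1.1 q.1.2 * B r.1.2 q.1.1) * wt q)
  have h := sum_le_pairs (fun a b => A p.1.1 a * A p.1.2 b
    * (B a q.1.1 * B b q.1.2 + B a q.1.2 * B b q.1.1) * wt q)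
  have e1 : ((A * B) p.1.1 q.1.1 * (A * B) p.1.2 q.1.2
        + (A * B) p.1.1 q.1.2 * (A * B) p.1.2 q.1.1) * wt q
      = ∑ a, ∑ b, A p.1.1 a * A p.1.2 b * (B a q.1.1 * B b q.1.2 + B a q.1.2 * B b q.1.1)
          * wt q := by
    rw [Matrix.mul_apply, Matrix.mul_apply, Matrix.mul_apply, Matrix.mul_apply,
      Finset.sum_mul_sum, Finset.sum_mul_sum, ← Finset.sum_add_distrib, Finset.sum_mul]
    apply Finset.sum_congr rfl
    intro a _
    rw [← Finset.sum_add_distrib, Finset.sum_mul]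
    apply Finset.sum_congr rfl
    intro b _
    ring
  rw [e1, h]
  apply Finset.sum_congr rfl
  intro r _
  ring

theorem sym2_one {n : ℕ} : sym2 (1 : Matrix (Fin n) (Fin n) ℂ) = 1 := by
  ext p q
  show ((1 : Matrix (Fin n) (Fin n) ℂ) p.1.1 q.1.1 * (1 : Matrix (Fin n) (Fin n) ℂ) p.1.2 q.1.2
    + (1 : Matrix (Fin n) (Fin n) ℂ) p.1.1 q.1.2 * (1 : Matrix (Fin n) (Fin n) ℂ) p.1.2 q.1.1)
      * wt q
    = (1 : Matrix (Ps n) (Ps n) ℂ) p q
  have hp := p.2
  have hq := q.2
  by_cases hpq : p = q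
  · subst hpq
    rw [Matrix.one_apply_eq, Matrix.one_apply_eq, Matrix.one_apply_eq]
    have hw : wt p = if p.1.1 = p.1.2 then 1 / 2 else 1 := rfl
    by_cases hd : p.1.1 = p.1.2
    · rw [hw, if_pos hd, Matrix.one_apply, Matrix.one_apply, if_pos hd, if_pos hd.symm]
      norm_num
    · rw [hw, if_neg hd, Matrix.one_apply_ne hd]
      ring
  · rw [Matrix.one_apply_ne hpq]
    have e1 : (1 : Matrix (Fin n) (Fin n) ℂ) p.1.1 q.1.1
        * (1 : Matrix (Fin n) (Fin n) ℂ) p.1.2 q.1.2 = 0 := by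
      by_cases h1 : p.1.1 = q.1.1
      · have h2 : p.1.2 ≠ q.1.2 := by
          intro h2
          exact hpq (Subtype.ext (Prod.ext h1 h2))
        rw [Matrix.one_apply_ne h2, mul_zero]
      · rw [Matrix.one_apply_ne h1, zero_mul]
    have e2 : (1 : Matrix (Fin n) (Fin n) ℂ) p.1.1 q.1.2
        * (1 : Matrix (Fin n) (Fin n) ℂ) p.1.2 q.1.1 = 0 := by
      by_cases h1 : p.1.1 = q.1.2
      · have h2 : p.1.2 ≠ q.1.1 := by
          intro h2
          have h3 : q.1.2 ≤ q.1.1 := by
            rw [← h1, ← h2]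
            exact hp
          have h4 : q.1.1 = q.1.2 := le_antisymm hq h3
          exact hpq (Subtype.ext (Prod.ext (by rw [h1, h4]) (by rw [h2, h4])))
        rw [Matrix.one_apply_ne h2, mul_zero]
      · rw [Matrix.one_apply_ne h1, zero_mul]
    rw [e1, e2, add_zero, zero_mul]

theorem trace_sym2 {n : ℕ} (A : Matrix (Fin n) (Fin n) ℂ) :
    (sym2 A).trace = (A.trace ^ 2 + (A * A).trace) / 2 := by
  have h := sum_le_pairs (fun a b => (A a a * A b b + A a b * A b a) / 2)
  have e1 : (A.trace ^ 2 + (A * A).trace) / 2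
      = ∑ a, ∑ b, (A a a * A b b + A a b * A b a) / 2 := by
    rw [Matrix.trace, Matrix.trace, pow_two, Finset.sum_mul_sum]
    simp only [Matrix.diag_apply, Matrix.mul_apply]
    rw [← Finset.sum_add_distrib, Finset.sum_div]
    apply Finset.sum_congr rfl
    intro a _
    rw [← Finset.sum_add_distrib, Finset.sum_div]
  rw [e1, h, Matrix.trace]
  apply Finset.sum_congr rfl
  intro r _
  show (A r.1.1 r.1.1 * A r.1.2 r.1.2 + A r.1.1 r.1.2 * A r.1.2 r.1.1) * wt r = _
  ring

/-- SYM: the symmetric square of a character is a character. -/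
theorem sym : StSym.{u} := by
  intro G _ χ hχ
  classical
  obtain ⟨n, ρ, rfl⟩ := hχ
  obtain ⟨A, hA⟩ : ∃ A : G → Matrix (Fin n) (Fin n) ℂ, ∀ g, A g = LinearMap.toMatrix' (ρ g) :=
    ⟨_, fun g => rfl⟩
  have hA1 : A 1 = 1 := by rw [hA, map_one, LinearMap.toMatrix'_one]
  have hAmul : ∀ g h, A (g * h) = A g * A h := by
    intro g h
    rw [hA, hA, hA, map_mul, LinearMap.toMatrix'_mul]
  have hchar : ∀ g, ρ.character g = (A g).trace := by
    intro g
    rw [hA, Representation.character, LinearMap.trace_eq_matrix_trace ℂ (Pi.basisFun ℂ (Fin n)),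
      LinearMap.toMatrix_eq_toMatrix']
  let σ : Representation ℂ G (Ps n → ℂ) :=
    { toFun := fun g => Matrix.toLin' (sym2 (A g))
      map_one' := by
        rw [hA1, sym2_one, Matrix.toLin'_one]
        rfl
      map_mul' := by
        intro g h
        rw [hAmul, sym2_mul, Matrix.toLin'_mul]
        rfl }
  have hσ : σ.character = fun g => (ρ.character g ^ 2 + ρ.character (g * g)) / 2 := by
    funext g
    show LinearMap.trace ℂ (Ps n → ℂ) (Matrix.toLin' (sym2 (A g))) = _
    rw [Cfsg.Agent.H99.AltSq.trace_toLin'_eq, trace_sym2, hchar, hchar, hAmul]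
  rw [← hσ]
  exact Cfsg.Agent.H4.isCharacter_of_rep σ

example : StSym.{u} := sym

end Cfsg.Agent.H79.BT
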