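import Mathlib

/-!
# The commutator subgroup of `A⟨x⟩` for `A` abelian normal

If `A` is an abelian normal subgroup of the finite group `G` and `G = A⟨x⟩`, then the
commutator subgroup of `G` is exactly the set of commutators `x a x⁻¹ a⁻¹`, `a ∈ A`.
-/

set_option autoImplicit false

namespace Cfsg.Agent.H79

open Subgroup
open scoped commutatorElement

/-- A subgroup of prime index together with any element outside it generates the group. -/
theorem sup_zpowers_eq_top_of_index_prime {G : Type*} [Group G] (N : Subgroup G) {p : ℕ}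
    (hp : p.Prime) (hN : N.index = p) (x : G) (hx : x ∉ N) : N ⊔ zpowers x = ⊤ := by
  have hle : N ≤ N ⊔ zpowers x := le_sup_left
  have hdvd : (N ⊔ zpowers x).index ∣ p := hN ▸ Subgroup.index_dvd_of_le hle
  rcases (Nat.dvd_prime hp).mp hdvd with h1 | h1
  · exact Subgroup.index_eq_one.mp h1
  · exfalso
    have h2 := Subgroup.relIndex_mul_index hle
    rw [h1, hN] at h2
    have h3 : N.relIndex (N ⊔ zpowers x) = 1 := by
      have hp0 : 0 < p := hp.pos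
      nlinarith [Nat.eq_of_mul_eq_mul_right hp0 (show N.relIndex (N ⊔ zpowers x) * p = 1 * p by
        rw [h2, one_mul])]
    have h4 : N ⊔ zpowers x ≤ N := Subgroup.relIndex_eq_one.mp h3
    exact hx (h4 (mem_sup_right (mem_zpowers x)))

/-- Conjugating an element of an abelian normal subgroup by powers of `x`: the commutators
`x ^ k * b * x ^ (-k) * b⁻¹` are products of commutators with `x`. -/
theorem pow_comm_mem_of_abelian {G : Type*} [Group G] (A : Subgroup G) [A.Normal]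
    (x : G) (R : Subgroup G) (hR : ∀ a ∈ A, x * a * x⁻¹ * a⁻¹ ∈ R) (k : ℕ) :
    ∀ b ∈ A, x ^ k * b * (x ^ k)⁻¹ * b⁻¹ ∈ R := by
  induction k with
  | zero => intro b _; simp [R.one_mem]
  | succ k ih =>
    intro b hb
    have hb' : x ^ k * b * (x ^ k)⁻¹ ∈ A := Normal.conj_mem inferInstance b hb _
    have h1 := hR _ hb'
    have h2 := ih b hb
    have h3 : x ^ (k + 1) * b * (x ^ (k + 1))⁻¹ * b⁻¹ =
        (x * (x ^ k * b * (x ^ k)⁻¹) * x⁻¹ * (x ^ k * b * (x ^ k)⁻¹)⁻¹) *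
          (x ^ k * b * (x ^ k)⁻¹ * b⁻¹) := by
      rw [pow_succ']; group
    rw [h3]
    exact R.mul_mem h1 h2

theorem mem_commutator_iff_of_abelian_normal {G : Type*} [Group G] [Finite G] (A : Subgroup G)
    [A.Normal] (hA : ∀ a ∈ A, ∀ b ∈ A, a * b = b * a) (x : G) (hx : A ⊔ zpowers x = ⊤)
    (R : Subgroup G) (hR : ∀ a ∈ A, x * a * x⁻¹ * a⁻¹ ∈ R) : commutator G ≤ R := by
  rw [commutator_def, Subgroup.commutator_le]
  intro g₁ _ g₂ _
  have hg₁ : g₁ ∈ A ⊔ zpowers x := by rw [hx]; exact mem_top _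
  have hg₂ : g₂ ∈ A ⊔ zpowers x := by rw [hx]; exact mem_top _
  rw [Subgroup.mem_sup_of_normal_left] at hg₁ hg₂
  obtain ⟨a, ha, y₁, hy₁, rfl⟩ := hg₁
  obtain ⟨b, hb, y₂, hy₂, rfl⟩ := hg₂
  have hfin : IsOfFinOrder x := isOfFinOrder_of_finite x
  rw [← SetLike.mem_coe, ← hfin.powers_eq_zpowers] at hy₁ hy₂
  obtain ⟨i, rfl⟩ := hy₁
  obtain ⟨j, rfl⟩ := hy₂
  -- b₁ = x^i b x^-i, a₁ = x^j a⁻¹ x^-j
  have hb₁ : x ^ i * b * (x ^ i)⁻¹ ∈ A := Normal.conj_mem inferInstance b hb _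
  have ha₁ : x ^ j * a⁻¹ * (x ^ j)⁻¹ ∈ A := Normal.conj_mem inferInstance _ (A.inv_mem ha) _
  have key : ⁅a * x ^ i, b * x ^ j⁆ =
      a * (x ^ i * b * (x ^ i)⁻¹) * (x ^ j * a⁻¹ * (x ^ j)⁻¹) * b⁻¹ := by
    rw [commutatorElement_def]; group
  set b₁ := x ^ i * b * (x ^ i)⁻¹ with hb₁def
  set a₁ := x ^ j * a⁻¹ * (x ^ j)⁻¹ with ha₁def
  have hbinv : b⁻¹ ∈ A := A.inv_mem hb
  have key2 : a * b₁ * a₁ * b⁻¹ = (b₁ * b⁻¹) * (a₁ * a) := by
    calc a * b₁ * a₁ * b⁻¹ = b₁ * a * a₁ * b⁻¹ := by rw [hA a ha b₁ hb₁]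
      _ = b₁ * a * (a₁ * b⁻¹) := by group
      _ = b₁ * a * (b⁻¹ * a₁) := by rw [hA a₁ ha₁ b⁻¹ hbinv]
      _ = b₁ * (a * b⁻¹) * a₁ := by group
      _ = b₁ * (b⁻¹ * a) * a₁ := by rw [hA a ha b⁻¹ hbinv]
      _ = b₁ * b⁻¹ * (a * a₁) := by group
      _ = b₁ * b⁻¹ * (a₁ * a) := by rw [hA a ha a₁ ha₁]
  rw [key, key2]
  refine R.mul_mem (pow_comm_mem_of_abelian A x R hR i b hb) ?_
  have := pow_comm_mem_of_abelian A x R hR j a⁻¹ (A.inv_mem ha)
  rwa [inv_inv] at this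

end Cfsg.Agent.H79
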