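import Mathlib
import Cfsg.Prelude.Def_Blocks
import Cfsg.Agent.H79.Fong
import Cfsg.Agent.H79.ExtFirstMain
import Cfsg.Agent.Lib.ItoConv

/-!
# Height-zero characters with large inertia group (helper79)

* `exists_minimal_inertia`: a `G`-stable block `b` of the normal subgroup `N` contains a character
  of minimal degree valuation (height zero) whose inertia group has index prime to `p`.
* `liftIrr_surjective`, `conjIrr_liftIrr`, `charDegree_liftIrr`: transport of characters of a
  subgroup `K ≤ H` to `K.subgroupOf H`.
-/

set_option autoImplicit false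
set_option linter.unusedSectionVars false
set_option linter.style.haveILetI false

namespace Cfsg.Agent.H79

open Cfsg Cfsg.Agent.H20 Cfsg.Agent.H4 Cfsg.Agent.Clifford
open scoped ComplexConjugate

section Main

variable {G : Type*} [Group G] [Fintype G] {M : Ideal AlgInt} {p : ℕ} [Fact p.Prime]
  (N : Subgroup G) [hN : N.Normal] [Fintype N]

/-- A `G`-stable block of the normal subgroup `N` contains a character whose degree has the least
`p`-part in the block and whose inertia group in `G` has index prime to `p`. -/
theorem exists_minimal_inertia (hM : IsPModular p M) (θ₀ : IrrCharacter N)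
    (hbst : ∀ (g : G) (μ : IrrCharacter N),
      conjIrr N g μ ∈ blockOf M θ₀.1 ↔ μ ∈ blockOf M θ₀.1) :
    ∃ μ ∈ blockOf M θ₀.1,
      (∀ ν ∈ blockOf M θ₀.1, (charDegree μ.1).factorization p
        ≤ (charDegree ν.1).factorization p) ∧
      ¬ p ∣ (Cfsg.Agent.Clifford.inertia N μ.1).index := by
  classical
  have hMp := isPrime_of_isPModular hM
  have hp : p.Prime := hM.1
  obtain ⟨χ₁, hcov, hdef⟩ := exists_covering_defect_ge N hM θ₀ hbst
  -- a member of the block of `χ₁` of least degree valuation
  have hne : ((fun χ : IrrCharacter G => (charDegree (χ : G → ℂ)).factorization p) ''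
      blockOf M χ₁.1).Nonempty := ⟨_, χ₁, Cfsg.Agent.H80.mem_blockOf_self hMp χ₁, rfl⟩
  obtain ⟨η, hη, hηmin⟩ := Nat.sInf_mem hne
  have hηdvd : (charDegree η.1).factorization p ≤ (Nat.card G).factorization p := by
    have hd := Cfsg.Agent.H81.irr_charDegree_dvd η
    exact (Nat.factorization_le_iff_dvd (Cfsg.Agent.H82.charDegree_pos η).ne'
      Nat.card_pos.ne').mpr hd p
  have hB₁ : (charDegree η.1).factorization p + blockDefect p (blockOf M χ₁.1)
      = (Nat.card G).factorization p := by
    unfold blockDefect
    simp only at hηmin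
    rw [← hηmin]
    omega
  -- `η` lies over a member `μ` of the block
  obtain ⟨μ, hμ, hover⟩ := over_closed N hMp θ₀ hbst χ₁ hcov η hη
  obtain ⟨f, hf⟩ := Cfsg.Agent.ItoConv.degree_over N μ η hover
  have hηpos : 0 < charDegree η.1 := Cfsg.Agent.H82.charDegree_pos η
  have hμpos : 0 < charDegree μ.1 := Cfsg.Agent.H82.charDegree_pos μ
  have hI0 : (Cfsg.Agent.Clifford.inertia N μ.1).index ≠ 0 := Subgroup.index_ne_zero_of_finite
  have hf0 : f ≠ 0 := by
    rintro rfl
    rw [mul_zero, zero_mul] at hf
    omega
  have hfac : (charDegree η.1).factorization p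
      = (Cfsg.Agent.Clifford.inertia N μ.1).index.factorization p + f.factorization p
        + (charDegree μ.1).factorization p := by
    rw [hf, Nat.factorization_mul (mul_ne_zero hI0 hf0) hμpos.ne', Nat.factorization_mul hI0 hf0]
    rfl
  -- every member of the block has degree valuation at least `ν(|N|) - d(b)`
  have hlow : ∀ ν ∈ blockOf M θ₀.1, (Nat.card N).factorization p
      ≤ (charDegree ν.1).factorization p + blockDefect p (blockOf M θ₀.1) := by
    intro ν hν
    unfold blockDefect
    have h1 : sInf ((fun ψ : IrrCharacter N => (charDegree (ψ : N → ℂ)).factorization p) ''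
        blockOf M θ₀.1) ≤ (charDegree (ν : N → ℂ)).factorization p :=
      Nat.sInf_le ⟨ν, hν, rfl⟩
    omega
  have hGN : (Nat.card G).factorization p
      = (Nat.card N).factorization p + N.index.factorization p := by
    rw [← Subgroup.card_mul_index N, Nat.factorization_mul Nat.card_pos.ne'
      Subgroup.index_ne_zero_of_finite]
    rfl
  have h1 := hlow μ hμ
  have hIz : (Cfsg.Agent.Clifford.inertia N μ.1).index.factorization p = 0 := by omega
  have hμeq : (Nat.card N).factorization p
      = (charDegree μ.1).factorization p + blockDefect p (blockOf M θ₀.1) := by omega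
  refine ⟨μ, hμ, ?_, ?_⟩
  · intro ν hν
    have h2 := hlow ν hν
    omega
  · intro hdvd
    have := (Nat.factorization_eq_zero_iff _ p).mp hIz
    rcases this with h | h | h
    · exact h hp
    · exact h hdvd
    · exact hI0 h

end Main

section Lift

variable {G : Type*} [Group G] {M : Ideal AlgInt}

/-- Every irreducible character of `K.subgroupOf H` is the lift of one of `K`. -/
theorem liftIrr_surjective (H K : Subgroup G) (hKH : K ≤ H) (μ : IrrCharacter (K.subgroupOf H)) :
    ∃ θ : IrrCharacter K, liftIrr H K hKH θ = μ := by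
  refine ⟨⟨fun k => μ.1 ((Subgroup.subgroupOfEquivOfLe hKH).symm k),
    isIrrCharacter_comp_equiv (Subgroup.subgroupOfEquivOfLe hKH).symm μ.2⟩, ?_⟩
  apply Subtype.ext
  funext k
  show μ.1 ((Subgroup.subgroupOfEquivOfLe hKH).symm (Subgroup.subgroupOfEquivOfLe hKH k)) = μ.1 k
  rw [MulEquiv.symm_apply_apply]

theorem liftIrr_apply (H K : Subgroup G) (hKH : K ≤ H) (θ : IrrCharacter K)
    (k : K.subgroupOf H) :
    (liftIrr H K hKH θ).1 k = θ.1 ⟨((k : H) : G), k.2⟩ := rfl

theorem charDegree_liftIrr (H K : Subgroup G) (hKH : K ≤ H) (θ : IrrCharacter K) :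
    charDegree (liftIrr H K hKH θ).1 = charDegree θ.1 := by
  unfold charDegree
  rw [liftIrr_apply]
  rfl

/-- Conjugation by an element of `H` commutes with lifting. -/
theorem conjIrr_liftIrr (H K : Subgroup G) [hK : K.Normal] (hKH : K ≤ H)
    [hK' : (K.subgroupOf H).Normal] (g : H) (θ : IrrCharacter K) :
    conjIrr (K.subgroupOf H) g (liftIrr H K hKH θ) = liftIrr H K hKH (conjIrr K (g : G) θ) := by
  apply Subtype.ext
  funext k
  rw [conjIrr_apply, liftIrr_apply, liftIrr_apply, conjIrr_apply]
  rfl

end Lift

end Cfsg.Agent.H79
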