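import Mathlib
import Cfsg.Prelude.Def_Blocks
import Cfsg.Agent.S4723
import Cfsg.Agent.S0887
import Cfsg.Agent.H84.BrauerFeit
import Cfsg.Agent.H79.Covering
import Cfsg.Agent.H79.HeightZeroInertia
import Cfsg.Agent.Lib.Clifford
import Cfsg.Agent.H81.Reg

/-!
# Defects of covered blocks (helper79)

For a normal subgroup `K` of `G` and an irreducible character `χ` of `G` lying over the irreducible
character `η` of `K`:

* `exists_height_zero_under`: the block of `η` contains a character of height zero lying under a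
  character of the block of `χ`;
* `blockDefect_le_of_over`: the defect of the block of `η` is at most that of the block of `χ`.
-/

set_option autoImplicit false
set_option linter.unusedSectionVars false
set_option linter.style.haveILetI false

namespace Cfsg.Agent.H79

open Cfsg Cfsg.Agent.H20 Cfsg.Agent.H4 Cfsg.Agent.Clifford Cfsg.Agent.H84
open scoped ComplexConjugate

universe u

section General

/-- Sum over a finite group in terms of a sum over the left cosets of a subgroup, for a function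
that is invariant under right multiplication by the subgroup. -/
theorem sum_eq_card_mul_sum_out_int {T : Type*} [Group T] [Fintype T] (S' : Subgroup T)
    [Fintype (T ⧸ S')] (f : T → ℤ) (hf : ∀ (t : T) (s : S'), f (t * (s : T)) = f t) :
    ∑ t : T, f t = (Nat.card S' : ℤ) * ∑ q : T ⧸ S', f (Quotient.out q) := by
  classical
  letI : Fintype S' := Fintype.ofFinite S'
  let e : (T ⧸ S') × S' → T := fun x => Quotient.out x.1 * (x.2 : T)
  have he : Function.Bijective e := by
    constructor
    · rintro ⟨q, s⟩ ⟨q', s'⟩ h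
      have h' : Quotient.out q * (s : T) = Quotient.out q' * (s' : T) := h
      have hq : q = q' := by
        have h1 : (QuotientGroup.mk (Quotient.out q * (s : T)) : T ⧸ S')
            = QuotientGroup.mk (Quotient.out q' * (s' : T)) := by rw [h']
        rw [QuotientGroup.mk_mul_of_mem _ s.2, QuotientGroup.mk_mul_of_mem _ s'.2,
          QuotientGroup.out_eq', QuotientGroup.out_eq'] at h1
        exact h1
      subst hq
      have hs : (s : T) = (s' : T) := mul_left_cancel h'
      rw [Subtype.ext hs]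
    · intro t
      refine ⟨((QuotientGroup.mk t : T ⧸ S'),
        ⟨(Quotient.out (QuotientGroup.mk t : T ⧸ S'))⁻¹ * t, ?_⟩), ?_⟩
      · rw [← QuotientGroup.eq, QuotientGroup.out_eq']
      · show Quotient.out (QuotientGroup.mk t : T ⧸ S')
          * ((Quotient.out (QuotientGroup.mk t : T ⧸ S'))⁻¹ * t) = t
        rw [mul_inv_cancel_left]
  rw [← he.sum_comp f, Fintype.sum_prod_type, Finset.mul_sum]
  apply Finset.sum_congr rfl
  intro q _
  have : ∀ s : S', f (e (q, s)) = f (Quotient.out q) := fun s => hf _ s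
  rw [Finset.sum_congr rfl (fun s _ => this s), Finset.sum_const, Finset.card_univ, nsmul_eq_mul,
    Nat.card_eq_fintype_card]

variable {H : Type u} [Group H] [Fintype H]

theorem classInner_pRegularPart_comm (p : ℕ) (A B : H → ℂ) :
    classInner (pRegularPart p A) B = classInner A (pRegularPart p B) := by
  classical
  unfold classInner
  congr 1
  apply Finset.sum_congr rfl
  intro g _
  rw [Cfsg.Agent.H81.pRegularPart_apply, Cfsg.Agent.H81.pRegularPart_apply]
  split_ifs <;> simp

/-- Degrees of an irreducible character and of a constituent of its restriction to a normal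
subgroup. -/
theorem factorization_degree_over (N : Subgroup H) [N.Normal] [Fintype N] (χ : IrrCharacter H)
    (ϑ : IrrCharacter N) (hcon : classInner (fun n : N => χ.1 n) ϑ.1 ≠ 0) (p : ℕ) :
    (charDegree ϑ.1).factorization p ≤ (charDegree χ.1).factorization p ∧
      (charDegree χ.1).factorization p
        ≤ (charDegree ϑ.1).factorization p + N.index.factorization p := by
  obtain ⟨h1, h2⟩ := Cfsg.Agent.S0887.result N χ.1 χ.2 ϑ.1 ϑ.2 hcon (charDegree χ.1)
    (charDegree ϑ.1) (Cfsg.Agent.H82.irr_one_eq_charDegree χ)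
    (Cfsg.Agent.H82.irr_one_eq_charDegree ϑ)
  have hd0 : charDegree ϑ.1 ≠ 0 := (Cfsg.Agent.H82.charDegree_pos ϑ).ne'
  have hc0 : charDegree χ.1 ≠ 0 := (Cfsg.Agent.H82.charDegree_pos χ).ne'
  obtain ⟨m, hm⟩ := h1
  have hm0 : m ≠ 0 := by
    rintro rfl
    rw [mul_zero] at hm
    exact hc0 hm
  have hdiv : charDegree χ.1 / charDegree ϑ.1 = m := by
    rw [hm]
    exact Nat.mul_div_cancel_left m (Nat.pos_of_ne_zero hd0)
  rw [hdiv] at h2
  have hidx0 : N.index ≠ 0 := Subgroup.index_ne_zero_of_finite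
  have e1 : (charDegree χ.1).factorization p
      = (charDegree ϑ.1).factorization p + m.factorization p := by
    rw [hm, Nat.factorization_mul hd0 hm0]
    rfl
  have e3 : m.factorization p ≤ N.index.factorization p :=
    (Nat.factorization_le_iff_dvd hm0 hidx0).mpr h2 p
  omega

end General

section CoverDefect

variable {G : Type u} [Group G] [Fintype G] {p : ℕ} [Fact p.Prime] {M : Ideal AlgInt}
  (K : Subgroup G) [hK : K.Normal] [Fintype K]

omit [Fintype G] [Fintype K] [Fact p.Prime] in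
theorem pRegularPart_res (F : G → ℂ) :
    pRegularPart p (fun k : K => F k) = fun k : K => pRegularPart p F k := by
  classical
  funext k
  rw [Cfsg.Agent.H81.pRegularPart_apply, Cfsg.Agent.H81.pRegularPart_apply]
  simp only [Subgroup.orderOf_coe]

omit [Fintype G] [Fintype K] [Fact p.Prime] in
theorem pRegularPart_conjChar (φ : K → ℂ) (g : G) :
    pRegularPart p (conjChar K φ g) = conjChar K (pRegularPart p φ) g := by
  classical
  funext n
  rw [conjChar_apply, Cfsg.Agent.H81.pRegularPart_apply, Cfsg.Agent.H81.pRegularPart_apply,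
    conjChar_apply]
  have h : orderOf (⟨g * n * g⁻¹, hK.conj_mem n n.2 g⟩ : K) = orderOf n := by
    rw [← Subgroup.orderOf_coe, ← Subgroup.orderOf_coe]
    exact MulEquiv.orderOf_eq (MulAut.conj g) (n : G)
  rw [h]

omit [Fintype G] [Fact p.Prime] in
theorem mreg_conjIrr (g : G) (a b : IrrCharacter K) :
    mreg p (conjIrr K g a) (conjIrr K g b) = mreg p a b := by
  unfold mreg
  show classInner (pRegularPart p (conjChar K a.1 g)) (conjChar K b.1 g) = _
  rw [pRegularPart_conjChar, classInner_conjChar]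

omit [Fintype G] [Fintype K] [Fact p.Prime] in
theorem charDegree_conjIrr (g : G) (a : IrrCharacter K) :
    charDegree (conjIrr K g a).1 = charDegree a.1 := by
  unfold charDegree
  rw [conjIrr_one_apply]

omit [Fintype G] [Fact p.Prime] in
theorem bexp_conjIrr (g : G) (a : IrrCharacter K) : bexp p (conjIrr K g a) = bexp p a := by
  unfold bexp
  rw [charDegree_conjIrr]

omit [Fintype G] [Fact p.Prime] in
theorem eexp_conjIrr (g : G) (a : IrrCharacter K) : eexp p (conjIrr K g a) = eexp p a := by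
  unfold eexp
  rw [bexp_conjIrr]

omit [Fintype G] [Fact p.Prime] in
theorem upart_conjIrr (g : G) (a : IrrCharacter K) : upart p (conjIrr K g a) = upart p a := by
  unfold upart
  rw [bexp_conjIrr, charDegree_conjIrr]

omit [Fintype G] [Fact p.Prime] in
theorem Aint_conjIrr (g : G) (a b : IrrCharacter K) :
    Aint p (conjIrr K g a) (conjIrr K g b) = Aint p a b := by
  unfold Aint
  rw [eexp_conjIrr, mreg_conjIrr]

omit [Fintype K] [Fintype G] [Fact p.Prime] in
theorem classInner_res_sum [Fintype K] {ι : Type*} (s : Finset ι) (c : ι → ℂ) (F : ι → G → ℂ)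
    (B : K → ℂ) :
    classInner (fun k : K => (∑ i ∈ s, c i • F i) k) B
      = ∑ i ∈ s, c i * classInner (fun k : K => F i k) B := by
  unfold classInner
  simp only [Finset.sum_apply, Pi.smul_apply, smul_eq_mul, Finset.sum_mul, Finset.mul_sum]
  rw [Finset.sum_comm]
  apply Finset.sum_congr rfl
  intro i _
  apply Finset.sum_congr rfl
  intro k _
  ring

omit [Fintype G] [Fintype K] [Fact p.Prime] in
theorem conjIrr_of_mem_self {g : G} (hg : g ∈ K) (θ : IrrCharacter K) : conjIrr K g θ = θ := by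
  apply Subtype.ext
  funext n
  rw [conjIrr_apply]
  exact irr_isClassFunction θ n ⟨g, hg⟩

/-- The stabilizer in `G` of a set of irreducible characters of the normal subgroup `K`. -/
def blockStab (b : Set (IrrCharacter K)) : Subgroup G where
  carrier := {g | ∀ θ : IrrCharacter K, conjIrr K g θ ∈ b ↔ θ ∈ b}
  mul_mem' := by
    intro a c ha hc θ
    rw [← conjIrr_conjIrr]
    exact (hc _).trans (ha θ)
  one_mem' := by
    intro θ
    rw [conjIrr_one]
  inv_mem' := by
    intro a ha θ
    have := ha (conjIrr K a⁻¹ θ)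
    rw [conjIrr_conjIrr, inv_mul_cancel, conjIrr_one] at this
    exact this.symm

omit [Fintype G] [Fintype K] [Fact p.Prime] in
theorem mem_blockStab (b : Set (IrrCharacter K)) (g : G) :
    g ∈ blockStab K b ↔ ∀ θ : IrrCharacter K, conjIrr K g θ ∈ b ↔ θ ∈ b := Iff.rfl

omit [Fintype G] [Fintype K] [Fact p.Prime] in
theorem conj_mem_blockStab (hM : M.IsPrime) (η : IrrCharacter K) (g : G)
    (h : conjIrr K g η ∈ blockOf M η.1) : g ∈ blockStab K (blockOf M η.1) := by
  intro θ
  constructor
  · intro h1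
    have h2 : SameBlock M (conjIrr K g η).1 (conjIrr K g θ).1 :=
      Cfsg.Agent.H80.sameBlock_trans hM (Cfsg.Agent.H80.sameBlock_symm h) h1
    exact (sameBlock_conjIrr K g η θ).mp h2
  · intro h1
    have h2 : SameBlock M (conjIrr K g η).1 (conjIrr K g θ).1 :=
      (sameBlock_conjIrr K g η θ).mpr h1
    exact Cfsg.Agent.H80.sameBlock_trans hM h h2

omit [Fintype G] [Fintype K] [Fact p.Prime] in
theorem blockStab_spec (hM : M.IsPrime) (η : IrrCharacter K) (g : G) :
    g ∈ blockStab K (blockOf M η.1) ↔ ∀ θ ∈ blockOf M η.1, ∀ θ' : IrrCharacter K,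
      (∀ h h' : K, (h' : G) = g * h * g⁻¹ → θ'.1 h' = θ.1 h) → θ' ∈ blockOf M η.1 := by
  constructor
  · intro hg θ hθ θ' hθ'
    have : θ' = conjIrr K g⁻¹ θ := by
      apply Subtype.ext
      funext h'
      rw [conjIrr_apply]
      exact hθ' ⟨g⁻¹ * h' * g⁻¹⁻¹, hK.conj_mem h' h'.2 g⁻¹⟩ h'
        (by show (h' : G) = g * (g⁻¹ * (h' : G) * g⁻¹⁻¹) * g⁻¹; group)
    rw [this]
    exact ((blockStab K _).inv_mem hg θ).mpr hθ
  · intro h
    have hconj : ∀ θ ∈ blockOf M η.1, conjIrr K g⁻¹ θ ∈ blockOf M η.1 := by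
      intro θ hθ
      apply h θ hθ
      intro k k' hk
      rw [conjIrr_apply]
      refine congrArg θ.1 (Subtype.ext ?_)
      show g⁻¹ * (k' : G) * g⁻¹⁻¹ = (k : G)
      rw [hk]
      group
    have hη' := hconj η (Cfsg.Agent.H80.mem_blockOf_self hM η)
    apply conj_mem_blockStab K hM η g
    have h3 : SameBlock M (conjIrr K g η).1 (conjIrr K g (conjIrr K g⁻¹ η)).1 :=
      (sameBlock_conjIrr K g η _).mpr hη'
    rw [conjIrr_conjIrr, inv_mul_cancel, conjIrr_one] at h3
    exact Cfsg.Agent.H80.sameBlock_symm h3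

/-- The key non-vanishing: for a height-zero character `θ₀` whose stabilizer `S` in the block
stabilizer `T` has index prime to `p`, the sum over `T` of the `p`-regular inner products of any
`η` in the block with the conjugates of `θ₀` is non-zero. -/
theorem sum_mreg_conj_ne_zero (hM : IsPModular p M) (θ₀ η : IrrCharacter K)
    (hmin : ∀ ψ ∈ blockOf M θ₀.1, bexp p θ₀ ≤ bexp p ψ) (hη : η ∈ blockOf M θ₀.1)
    (T S : Subgroup G) [Fintype T] (hS : ∀ s ∈ S, conjIrr K s θ₀ = θ₀)
    (hT : ∀ t ∈ T, conjIrr K t θ₀ ∈ blockOf M θ₀.1) (hidx : ¬ p ∣ S.relIndex T) :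
    ∑ t : T, mreg p η (conjIrr K (t : G) θ₀) ≠ 0 := by
  classical
  have hp : p.Prime := Fact.out
  have hMp := isPrime_of_isPModular hM
  letI : Fintype (T ⧸ S.subgroupOf T) := Fintype.ofFinite _
  let f : T → ℤ := fun t => Aint p η (conjIrr K ((t : G)⁻¹) θ₀)
  have hf_inv : ∀ (t : T) (s : S.subgroupOf T), f (t * (s : T)) = f t := by
    intro t s
    show Aint p η (conjIrr K (((t * (s : T) : T) : G))⁻¹ θ₀)
      = Aint p η (conjIrr K ((t : G)⁻¹) θ₀)
    have h1 : (((t * (s : T) : T) : G))⁻¹ = ((s : T) : G)⁻¹ * (t : G)⁻¹ := by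
      rw [Subgroup.coe_mul, mul_inv_rev]
    rw [h1, ← conjIrr_conjIrr, hS _ (S.inv_mem (Subgroup.mem_subgroupOf.mp s.2))]
  have hcong : ∀ t : T,
      (p : ℤ) ∣ (upart p θ₀ : ℤ) * f t - (upart p η : ℤ) * Aint p θ₀ θ₀ := by
    intro t
    have hmem : conjIrr K ((t : G)⁻¹) θ₀ ∈ blockOf M θ₀.1 := hT _ (T.inv_mem t.2)
    have hblk : blockOf M (conjIrr K ((t : G)⁻¹) θ₀).1 = blockOf M θ₀.1 :=
      Cfsg.Agent.H80.blockOf_eq_of_mem hMp hmem
    have h1 := Aint_congr hM (conjIrr K ((t : G)⁻¹) θ₀) η (by rw [hblk]; exact hη)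
    rw [upart_conjIrr, Aint_conjIrr] at h1
    exact h1
  have hsum := sum_eq_card_mul_sum_out_int (S.subgroupOf T) f hf_inv
  have hdvd : (p : ℤ) ∣ (upart p θ₀ : ℤ) * ∑ q : T ⧸ S.subgroupOf T, f (Quotient.out q)
      - (Fintype.card (T ⧸ S.subgroupOf T) : ℤ) * ((upart p η : ℤ) * Aint p θ₀ θ₀) := by
    have : (upart p θ₀ : ℤ) * ∑ q : T ⧸ S.subgroupOf T, f (Quotient.out q)
        - (Fintype.card (T ⧸ S.subgroupOf T) : ℤ) * ((upart p η : ℤ) * Aint p θ₀ θ₀)
        = ∑ q : T ⧸ S.subgroupOf T,
          ((upart p θ₀ : ℤ) * f (Quotient.out q) - (upart p η : ℤ) * Aint p θ₀ θ₀) := by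
      rw [Finset.sum_sub_distrib, Finset.mul_sum, Finset.sum_const, Finset.card_univ,
        nsmul_eq_mul]
    rw [this]
    exact Finset.dvd_sum (fun q _ => hcong _)
  have hcardq : Fintype.card (T ⧸ S.subgroupOf T) = S.relIndex T := by
    unfold Subgroup.relIndex Subgroup.index
    rw [Nat.card_eq_fintype_card]
  have hne : ∑ q : T ⧸ S.subgroupOf T, f (Quotient.out q) ≠ 0 := by
    intro h0
    rw [h0, mul_zero, zero_sub, dvd_neg] at hdvd
    have hpi : Prime (p : ℤ) := Nat.prime_iff_prime_int.mp hp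
    rcases hpi.dvd_mul.mp hdvd with h | h
    · rw [hcardq] at h
      exact hidx (Int.natCast_dvd_natCast.mp h)
    · rcases hpi.dvd_mul.mp h with h | h
      · exact not_dvd_upart η (Int.natCast_dvd_natCast.mp h)
      · exact not_dvd_Aint_self hM θ₀ hmin h
  have hne' : ∑ t : T, f t ≠ 0 := by
    rw [hsum]
    exact mul_ne_zero (Nat.cast_ne_zero.mpr Nat.card_pos.ne') hne
  have hC : ((∑ t : T, f t : ℤ) : ℂ)
      = (p ^ eexp p η : ℂ) * ∑ t : T, mreg p η (conjIrr K ((t : G)⁻¹) θ₀) := by
    rw [Int.cast_sum, Finset.mul_sum]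
    apply Finset.sum_congr rfl
    intro t _
    exact Aint_spec hM η _
  have h1 : ∑ t : T, mreg p η (conjIrr K ((t : G)⁻¹) θ₀) ≠ 0 := by
    intro h0
    rw [h0, mul_zero] at hC
    exact hne' (by exact_mod_cast hC)
  rw [← Equiv.sum_comp (Equiv.inv T)]
  exact h1

/-- Let `χ ∈ Irr(G)` lie over `η ∈ Irr(K)`, `K` normal in `G`.  Then the block of `η` contains a
character of height zero lying under some character in the block of `χ`. -/
theorem exists_height_zero_under (hM : IsPModular p M) (χ : IrrCharacter G) (η : IrrCharacter K)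
    (hover : classInner (fun k : K => χ.1 k) η.1 ≠ 0) :
    ∃ θ ∈ blockOf M η.1,
      (∀ ψ ∈ blockOf M η.1,
        (charDegree θ.1).factorization p ≤ (charDegree ψ.1).factorization p) ∧
      (∀ k : ℕ, K.relIndex (blockStab K (blockOf M η.1)) = p ^ k →
        ∀ x ∈ blockStab K (blockOf M η.1), conjIrr K x θ = θ) ∧
      ∃ χ' ∈ blockOf M χ.1, classInner (fun k : K => χ'.1 k) θ.1 ≠ 0 := by
  classical
  have hp : p.Prime := Fact.out
  have hMp := isPrime_of_isPModular hM
  letI : Fintype (IrrCharacter K) := fintypeIrr K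
  letI : Fintype (IrrCharacter G) := fintypeIrr G
  letI : Fintype (blockStab K (blockOf M η.1)) := Fintype.ofFinite _
  obtain ⟨θ₀, hθ₀b, hht, S, hST, hS, hidx⟩ := Cfsg.Agent.S4723.result p M hM K (blockOf M η.1)
    ⟨η, rfl⟩ (blockStab K (blockOf M η.1)) (blockStab_spec K hMp η)
  have hblk : blockOf M θ₀.1 = blockOf M η.1 := Cfsg.Agent.H80.blockOf_eq_of_mem hMp hθ₀b
  have hmin0 : ∀ ψ ∈ blockOf M η.1,
      (charDegree θ₀.1).factorization p ≤ (charDegree ψ.1).factorization p := by
    intro ψ hψ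
    unfold blockHeight at hht
    have h1 := Nat.sub_eq_zero_iff_le.mp hht
    exact h1.trans (Nat.sInf_le ⟨ψ, hψ, rfl⟩)
  have hmin : ∀ ψ ∈ blockOf M θ₀.1, bexp p θ₀ ≤ bexp p ψ := by
    intro ψ hψ
    rw [hblk] at hψ
    exact hmin0 ψ hψ
  have hη : η ∈ blockOf M θ₀.1 := by
    rw [hblk]
    exact Cfsg.Agent.H80.mem_blockOf_self hMp η
  have hSfix : ∀ s ∈ S, conjIrr K s θ₀ = θ₀ := by
    intro s hs
    apply Subtype.ext
    funext n
    rw [conjIrr_apply]
    exact ((hS s).mp hs).2 n ⟨s * n * s⁻¹, hK.conj_mem n n.2 s⟩ rfl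
  have hTb : ∀ t ∈ blockStab K (blockOf M η.1), conjIrr K t θ₀ ∈ blockOf M θ₀.1 := by
    intro t ht
    rw [hblk]
    exact (ht θ₀).mpr hθ₀b
  have hA := sum_mreg_conj_ne_zero K hM θ₀ η hmin hη (blockStab K (blockOf M η.1)) S hSfix hTb
    hidx
  set Cf : IrrCharacter K → ℂ := fun ξ =>
    ∑ t : blockStab K (blockOf M η.1), mreg p ξ (conjIrr K (t : G) θ₀) with hCf
  have hCf0 : ∀ ξ, ξ ∉ blockOf M η.1 → Cf ξ = 0 := by
    intro ξ hξ
    apply Finset.sum_eq_zero
    intro t _
    apply mreg_eq_zero hM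
    intro h
    apply hξ
    have h1 : conjIrr K (t : G) θ₀ ∈ blockOf M η.1 := (t.2 θ₀).mpr hθ₀b
    exact Cfsg.Agent.H80.sameBlock_trans hMp h1 (Cfsg.Agent.H80.sameBlock_symm h)
  have hCfT : ∀ g ∈ blockStab K (blockOf M η.1), ∀ ξ, Cf (conjIrr K g ξ) = Cf ξ := by
    intro g hg ξ
    show ∑ t : blockStab K (blockOf M η.1), mreg p (conjIrr K g ξ) (conjIrr K (t : G) θ₀)
      = ∑ t : blockStab K (blockOf M η.1), mreg p ξ (conjIrr K (t : G) θ₀)
    rw [← Equiv.sum_comp (Equiv.mulRight (⟨g, hg⟩ : blockStab K (blockOf M η.1)))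
      (fun t : blockStab K (blockOf M η.1) => mreg p (conjIrr K g ξ) (conjIrr K (t : G) θ₀))]
    apply Finset.sum_congr rfl
    intro t _
    show mreg p (conjIrr K g ξ) (conjIrr K ((t : G) * g) θ₀) = _
    rw [← conjIrr_conjIrr, mreg_conjIrr]
  have hχcf : IsClassFunction G χ.1 := irr_isClassFunction χ
  have hresc : IsClassFunction K (fun k : K => χ.1 k) :=
    isClassFunction_of_isCharacter (isCharacter_restrict K (isCharacter_of_isIrrCharacter χ.2))
  set J : IrrCharacter K → ℂ := fun θ' =>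
    classInner (fun k : K => χ.1 k) (pRegularPart p θ'.1) with hJ
  have hJ1 : ∀ θ' : IrrCharacter K, J θ'
      = ∑ ξ : IrrCharacter K, classInner (fun k : K => χ.1 k) ξ.1 * mreg p ξ θ' := by
    intro θ'
    show classInner (fun k : K => χ.1 k) (pRegularPart p θ'.1) = _
    rw [classInner_eq_sum_irr hresc, finsum_eq_sum_of_fintype]
    apply Finset.sum_congr rfl
    intro ξ _
    congr 1
    exact (classInner_pRegularPart_comm p ξ.1 θ'.1).symm
  have hJ2 : ∀ θ' : IrrCharacter K, J θ'
      = ∑ χ' : IrrCharacter G, mreg p χ χ' * classInner (fun k : K => χ'.1 k) θ'.1 := by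
    intro θ'
    show classInner (fun k : K => χ.1 k) (pRegularPart p θ'.1) = _
    rw [← classInner_pRegularPart_comm, pRegularPart_res, pRegularPart_expand p χ,
      finsum_eq_sum_of_fintype, classInner_res_sum]
  have hsumJ : ∑ t : blockStab K (blockOf M η.1), J (conjIrr K (t : G) θ₀)
      = ∑ ξ : IrrCharacter K, classInner (fun k : K => χ.1 k) ξ.1 * Cf ξ := by
    have h0 : ∀ t : blockStab K (blockOf M η.1), J (conjIrr K (t : G) θ₀)
        = ∑ ξ : IrrCharacter K, classInner (fun k : K => χ.1 k) ξ.1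
          * mreg p ξ (conjIrr K (t : G) θ₀) := fun t => hJ1 _
    rw [Finset.sum_congr rfl (fun t _ => h0 t), Finset.sum_comm]
    apply Finset.sum_congr rfl
    intro ξ _
    rw [Finset.mul_sum]
  have hne : ∑ ξ : IrrCharacter K, classInner (fun k : K => χ.1 k) ξ.1 * Cf ξ ≠ 0 := by
    set w := classInner (fun k : K => χ.1 k) η.1 * Cf η with hw
    have hw0 : w ≠ 0 := mul_ne_zero hover hA
    have hterm : ∀ ξ : IrrCharacter K, classInner (fun k : K => χ.1 k) ξ.1 * Cf ξ
        = if classInner (fun k : K => χ.1 k) ξ.1 * Cf ξ ≠ 0 then w else 0 := by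
      intro ξ
      split_ifs with h
      · have h1 : classInner (fun k : K => χ.1 k) ξ.1 ≠ 0 := left_ne_zero_of_mul h
        have h2 : Cf ξ ≠ 0 := right_ne_zero_of_mul h
        have hξb : ξ ∈ blockOf M η.1 := by
          by_contra hn
          exact h2 (hCf0 ξ hn)
        obtain ⟨g, hg⟩ := clifford_conj (N := K) χ.2 η.2 ξ.2 hover h1
        have hξ : ξ = conjIrr K g η := Subtype.ext hg
        have hgT : g ∈ blockStab K (blockOf M η.1) := by
          rw [hξ] at hξb
          exact conj_mem_blockStab K hMp η g hξb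
        rw [hξ, hCfT g hgT η]
        show classInner (fun k : K => χ.1 k) (conjChar K η.1 g) * Cf η = w
        rw [classInner_res_conjChar K hχcf η.1 g]
      · push Not at h
        exact h
    rw [Finset.sum_congr rfl (fun ξ _ => hterm ξ), Finset.sum_ite, Finset.sum_const_zero,
      add_zero, Finset.sum_const, nsmul_eq_mul]
    refine mul_ne_zero ?_ hw0
    rw [Nat.cast_ne_zero]
    apply Finset.card_ne_zero_of_mem (a := η)
    rw [Finset.mem_filter]
    exact ⟨Finset.mem_univ _, hw0⟩
  rw [← hsumJ] at hne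
  obtain ⟨t, -, ht⟩ := Finset.exists_ne_zero_of_sum_ne_zero hne
  rw [hJ2] at ht
  obtain ⟨χ', -, hχ'⟩ := Finset.exists_ne_zero_of_sum_ne_zero ht
  refine ⟨conjIrr K (t : G) θ₀, (t.2 θ₀).mpr hθ₀b, ?_, ?_, χ', ?_, right_ne_zero_of_mul hχ'⟩
  · intro ψ hψ
    rw [charDegree_conjIrr]
    exact hmin0 ψ hψ
  · intro k hk x hx
    have hKS : K ≤ S := by
      intro g hg
      rw [hS]
      refine ⟨?_, ?_⟩
      · intro θ
        rw [conjIrr_of_mem_self K hg θ]
      · intro h h' hh'
        have : h' = (⟨g, hg⟩ : K) * h * (⟨g, hg⟩ : K)⁻¹ := Subtype.ext hh'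
        rw [this]
        exact irr_isClassFunction θ₀ h ⟨g, hg⟩
    have h1 : S.relIndex (blockStab K (blockOf M η.1)) ∣ p ^ k := by
      rw [← hk]
      exact Subgroup.relIndex_dvd_of_le_left _ hKS
    obtain ⟨j, hj, hj'⟩ := (Nat.dvd_prime_pow hp).mp h1
    have hj0 : j = 0 := by
      by_contra hne
      apply hidx
      rw [hj']
      exact dvd_pow_self p hne
    rw [hj0, pow_zero] at hj'
    have hTS : blockStab K (blockOf M η.1) ≤ S := Subgroup.relIndex_eq_one.mp hj'
    rw [conjIrr_conjIrr, hSfix _ (hTS ((blockStab K _).mul_mem t.2 hx)), hSfix _ (hTS t.2)]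
  · by_contra hn
    exact left_ne_zero_of_mul hχ' (mreg_eq_zero hM χ χ' hn)

/-- **Defects of covered blocks**: if `χ ∈ Irr(G)` lies over `η ∈ Irr(K)` with `K` normal in `G`,
the defect of the block of `η` is at most the defect of the block of `χ`. -/
theorem blockDefect_le_of_over (hM : IsPModular p M) (χ : IrrCharacter G) (η : IrrCharacter K)
    (hover : classInner (fun k : K => χ.1 k) η.1 ≠ 0) :
    blockDefect p (blockOf M η.1) ≤ blockDefect p (blockOf M χ.1) := by
  have hp : p.Prime := Fact.out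
  obtain ⟨θ, hθb, hθmin, -, χ', hχ', hover'⟩ := exists_height_zero_under K hM χ η hover
  obtain ⟨-, h2⟩ := factorization_degree_over K χ' θ hover' p
  have e2 : (Nat.card G).factorization p
      = (Nat.card K).factorization p + K.index.factorization p := by
    rw [← Subgroup.card_mul_index K,
      Nat.factorization_mul Nat.card_pos.ne' Subgroup.index_ne_zero_of_finite]
    rfl
  have e4 : (charDegree θ.1).factorization p ≤ (Nat.card K).factorization p :=
    (Nat.factorization_le_iff_dvd (Cfsg.Agent.H82.charDegree_pos θ).ne' Nat.card_pos.ne').mpr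
      (Cfsg.Agent.H81.irr_charDegree_dvd θ) p
  have hinfb : sInf ((fun χ : IrrCharacter K => (charDegree χ.1).factorization p) ''
      blockOf M η.1) = (charDegree θ.1).factorization p := by
    have hne : ((fun χ : IrrCharacter K => (charDegree χ.1).factorization p) ''
        blockOf M η.1).Nonempty := ⟨_, θ, hθb, rfl⟩
    apply le_antisymm
    · exact Nat.sInf_le ⟨θ, hθb, rfl⟩
    · apply le_csInf hne
      rintro _ ⟨ψ, hψ, rfl⟩
      exact hθmin ψ hψ
  have hinfB : sInf ((fun χ : IrrCharacter G => (charDegree χ.1).factorization p) ''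
      blockOf M χ.1) ≤ (charDegree χ'.1).factorization p := Nat.sInf_le ⟨χ', hχ', rfl⟩
  unfold blockDefect
  rw [hinfb]
  omega

end CoverDefect

end Cfsg.Agent.H79
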