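import Mathlib
import Cfsg.Prelude.Def_Blocks
import Cfsg.Prelude.Def_BlockLocal
import Cfsg.Agent.H79.CoverDefect
import Cfsg.Agent.H79.BrauerSupport
import Cfsg.Agent.H79.ExtFirstMain
import Cfsg.Agent.H82.IndDeg
import Cfsg.Agent.H20.HeightZero
import Cfsg.Agent.H20.DefectOrder
import Cfsg.Agent.S0906

/-!
# Stabilizers of covered blocks (helper79)

* `exists_between`: restriction in stages.
* `blockDefect_conjIrr`, `blockDefect_liftIrr`: invariance of the defect.
* `blockDefect_le_of_defectGroup_le`: if `B` covers `b` and a defect group of `B` lies in the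
  normal subgroup, then `d(B) ≤ d(b)`.
* `card_le_of_indFun_irr`: if `θ^X` is irreducible then the stabilizer of `θ` is `N`.
* `stab_inf_eq`: statement S4673.
-/

set_option autoImplicit false
set_option linter.unusedSectionVars false
set_option linter.style.haveILetI false

namespace Cfsg.Agent.H79

open Cfsg Cfsg.Agent.H20 Cfsg.Agent.H4 Cfsg.Agent.Clifford Cfsg.Agent.H84
open scoped ComplexConjugate

universe u

section Stab

variable {G : Type u} [Group G] [Fintype G] {p : ℕ} [Fact p.Prime] {M : Ideal AlgInt}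

omit [Fact p.Prime] in
/-- Restriction in stages: a constituent `θ` of `χ_N` lies under a constituent `ζ` of `χ_L`. -/
theorem exists_between (L N : Subgroup G) (hNL : N ≤ L) [Fintype L] [Fintype N]
    [Fintype (N.subgroupOf L)] (χ : IrrCharacter G) (θ : IrrCharacter N)
    (h : classInner (fun n : N => χ.1 n) θ.1 ≠ 0) :
    ∃ ζ : IrrCharacter L, classInner (fun l : L => χ.1 l) ζ.1 ≠ 0 ∧
      classInner (fun k : N.subgroupOf L => ζ.1 k) (liftIrr L N hNL θ).1 ≠ 0 := by
  classical
  have hresL : IsClassFunction L (fun l : L => χ.1 l) :=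
    isClassFunction_of_isCharacter (isCharacter_restrict L (isCharacter_of_isIrrCharacter χ.2))
  have h1 := classInner_eq_sum_irr hresL (indFun (N.subgroupOf L) (liftIrr L N hNL θ).1)
  have h2 : classInner (fun l : L => χ.1 l) (indFun (N.subgroupOf L) (liftIrr L N hNL θ).1)
      = classInner (fun n : N => χ.1 n) θ.1 := by
    rw [← classInner_conj_symm, frobenius_reciprocity _ _ _ hresL, classInner_conj_symm,
      ← classInner_comp_equiv (Subgroup.subgroupOfEquivOfLe hNL) (fun n : N => χ.1 n) θ.1]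
    rfl
  rw [h2] at h1
  rw [h1] at h
  have : ∃ ζ : IrrCharacter L, classInner (fun l : L => χ.1 l) ζ.1
      * classInner ζ.1 (indFun (N.subgroupOf L) (liftIrr L N hNL θ).1) ≠ 0 := by
    by_contra hne
    push Not at hne
    apply h
    rw [finsum_congr hne]
    exact finsum_zero
  obtain ⟨ζ, hζ⟩ := this
  refine ⟨ζ, left_ne_zero_of_mul hζ, ?_⟩
  have h3 := right_ne_zero_of_mul hζ
  rw [← classInner_conj_symm, frobenius_reciprocity _ _ _ (irr_isClassFunction ζ),
    classInner_conj_symm] at h3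
  exact h3

omit [Fintype G] [Fact p.Prime] in
theorem blockDefect_conjIrr (K : Subgroup G) [hK : K.Normal] (g : G) (η : IrrCharacter K) :
    blockDefect p (blockOf M (conjIrr K g η).1) = blockDefect p (blockOf M η.1) := by
  have hset : (fun χ : IrrCharacter K => (charDegree χ.1).factorization p) ''
      blockOf M (conjIrr K g η).1
      = (fun χ : IrrCharacter K => (charDegree χ.1).factorization p) '' blockOf M η.1 := by
    ext m
    constructor
    · rintro ⟨ψ, hψ, rfl⟩
      refine ⟨conjIrr K g⁻¹ ψ, ?_, ?_⟩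
      · have h1 : SameBlock M (conjIrr K g⁻¹ (conjIrr K g η)).1 (conjIrr K g⁻¹ ψ).1 :=
          (sameBlock_conjIrr K g⁻¹ _ _).mpr hψ
        rw [conjIrr_conjIrr, mul_inv_cancel, conjIrr_one] at h1
        exact h1
      · show (charDegree (conjIrr K g⁻¹ ψ).1).factorization p = _
        rw [charDegree_conjIrr]
    · rintro ⟨ψ, hψ, rfl⟩
      refine ⟨conjIrr K g ψ, (sameBlock_conjIrr K g η ψ).mpr hψ, ?_⟩
      show (charDegree (conjIrr K g ψ).1).factorization p = _
      rw [charDegree_conjIrr]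
  unfold blockDefect
  rw [hset]

omit [Fintype G] [Fact p.Prime] in
theorem blockDefect_liftIrr (H K : Subgroup G) (hKH : K ≤ H) (θ : IrrCharacter K) :
    blockDefect p (blockOf M (liftIrr H K hKH θ).1) = blockDefect p (blockOf M θ.1) := by
  have hset : (fun χ : IrrCharacter (K.subgroupOf H) => (charDegree χ.1).factorization p) ''
      blockOf M (liftIrr H K hKH θ).1
      = (fun χ : IrrCharacter K => (charDegree χ.1).factorization p) '' blockOf M θ.1 := by
    ext m
    constructor
    · rintro ⟨ψ', hψ', rfl⟩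
      obtain ⟨ψ, rfl⟩ := liftIrr_surjective H K hKH ψ'
      refine ⟨ψ, (sameBlock_liftIrr H K hKH θ ψ).mp hψ', ?_⟩
      show _ = (charDegree (liftIrr H K hKH ψ).1).factorization p
      rw [charDegree_liftIrr]
    · rintro ⟨ψ, hψ, rfl⟩
      refine ⟨liftIrr H K hKH ψ, (sameBlock_liftIrr H K hKH θ ψ).mpr hψ, ?_⟩
      show (charDegree (liftIrr H K hKH ψ).1).factorization p = _
      rw [charDegree_liftIrr]
  unfold blockDefect
  rw [hset, Nat.card_congr (Subgroup.subgroupOfEquivOfLe hKH).toEquiv]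

/-- If the block of `χ` covers the block of `η` (a block of the normal subgroup `K`) and has a
defect group inside `K`, then its defect is at most that of the block of `η`. -/
theorem blockDefect_le_of_defectGroup_le (K : Subgroup G) [hK : K.Normal] [Fintype K]
    (hM : IsPModular p M) (χ : IrrCharacter G) (η : IrrCharacter K)
    (hover : classInner (fun k : K => χ.1 k) η.1 ≠ 0) (D : Subgroup G)
    (hD : IsDefectGroup p M (blockOf M χ.1) D) (hDK : D ≤ K) :
    blockDefect p (blockOf M χ.1) ≤ blockDefect p (blockOf M η.1) := by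
  classical
  have hp : p.Prime := Fact.out
  have hMp := isPrime_of_isPModular hM
  have hDp : IsPGroup p D := isPGroup_of_isDefectGroup hD
  have hD' := hD
  obtain ⟨g, hg, P, hPD⟩ := hD'
  have hDg : D ≤ Subgroup.centralizer ({g} : Set G) := by
    rw [hPD]
    exact sylow_map_le_centralizer g P
  have hcov : ∀ χ' ∈ blockOf M χ.1, ∃ μ ∈ orbitSet K (blockOf M η.1),
      classInner (fun n : K => χ'.1 n) μ.1 ≠ 0 := by
    intro χ' hχ'
    obtain ⟨ψ, hψ⟩ := exists_constituent_res K χ'
    exact ⟨ψ, mem_orbitSet_of_sameBlock_over hMp K χ χ' hχ' η ψ hover hψ, hψ⟩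
  obtain ⟨n, hn, hnD⟩ := exists_coeff_centralizing K hM (orbitSet K (blockOf M η.1))
    (orbitSet_stable K _)
    (fun n => blockCoeff_memLocalRing_of_closed hMp _ (orbitSet_closed K hMp η) n) χ hcov g
    hg.2.1 D hDp hDg
  obtain ⟨μ, hμA, hμ⟩ := exists_blockOf_coeff_not_mem hMp (orbitSet K (blockOf M η.1))
    (orbitSet_closed K hMp η) n hn
  obtain ⟨g', hg'⟩ := hμA
  obtain ⟨y, hy⟩ := Cfsg.Agent.S0906.result p M hM (blockOf M μ.1) ⟨μ, rfl⟩
  obtain ⟨S⟩ := (inferInstance : Nonempty (Sylow p (Subgroup.centralizer ({y} : Set K))))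
  have hD₁ : IsDefectGroup p M (blockOf M μ.1)
      ((S : Subgroup (Subgroup.centralizer ({y} : Set K))).map
        (Subgroup.centralizer ({y} : Set K)).subtype) := ⟨y, hy, S, rfl⟩
  have hQp : IsPGroup p (D.subgroupOf K) := hDp.comap_of_injective K.subtype K.subtype_injective
  have hQn : D.subgroupOf K ≤ Subgroup.centralizer ({n} : Set K) := by
    intro x hx
    rw [Subgroup.mem_centralizer_singleton_iff]
    apply Subtype.ext
    exact Subgroup.mem_centralizer_iff.mp hnD (x : G) (Subgroup.mem_subgroupOf.mp hx)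
  obtain ⟨x, hx⟩ := exists_conj_le_defectGroup hM μ _ hD₁ n hμ (D.subgroupOf K) hQp hQn
  have hcard1 : Nat.card (D.subgroupOf K) ≤ Nat.card
      ((S : Subgroup (Subgroup.centralizer ({y} : Set K))).map
        (Subgroup.centralizer ({y} : Set K)).subtype) := by
    rw [← Subgroup.card_map_of_injective (K := D.subgroupOf K)
      (f := (MulAut.conj x).toMonoidHom) (MulAut.conj x).injective]
    exact Subgroup.card_le_of_le hx
  have hcardD : Nat.card (D.subgroupOf K) = Nat.card D :=
    Nat.card_congr (Subgroup.subgroupOfEquivOfLe hDK).toEquiv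
  rw [hcardD, card_defectGroup hM χ D hD, card_defectGroup hM μ _ hD₁] at hcard1
  have h1 : blockDefect p (blockOf M χ.1) ≤ blockDefect p (blockOf M μ.1) :=
    (Nat.pow_le_pow_iff_right hp.one_lt).mp hcard1
  have h2 : blockDefect p (blockOf M μ.1) = blockDefect p (blockOf M η.1) := by
    rw [← blockDefect_conjIrr K g' μ, Cfsg.Agent.H80.blockOf_eq_of_mem hMp hg']
  rw [← h2]
  exact h1

omit [Fact p.Prime] in
/-- If the induced character `θ^X` is irreducible, then every subgroup fixing `θ` has order at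
most `|N|`. -/
theorem card_le_of_indFun_irr (N : Subgroup G) [hN : N.Normal] [Fintype N] (θ : IrrCharacter N)
    (ζ : IrrCharacter G) (hind : indFun N θ.1 = ζ.1) (T₁ : Subgroup G)
    (hT₁ : ∀ x ∈ T₁, conjChar N θ.1 x = θ.1) : Nat.card T₁ ≤ Nat.card N := by
  classical
  have h1 : classInner (indFun N θ.1) (indFun N θ.1) = 1 := by
    rw [hind, classInner_irr_irr ζ.2 ζ.2, if_pos rfl]
  rw [frobenius_reciprocity N θ.1 (indFun N θ.1) (indFun_isClassFunction N θ.1), indFun_res]
    at h1
  have h2 : classInner θ.1 ((Nat.card N : ℂ)⁻¹ • ∑ x : G, conjChar N θ.1 x)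
      = (Nat.card N : ℂ)⁻¹ * ∑ x : G, classInner θ.1 (conjChar N θ.1 x) := by
    unfold classInner
    simp only [Pi.smul_apply, Finset.sum_apply, smul_eq_mul, map_mul, map_sum, map_inv₀,
      Complex.conj_natCast, Finset.mul_sum]
    rw [Finset.sum_comm]
    apply Finset.sum_congr rfl
    intro x _
    apply Finset.sum_congr rfl
    intro n _
    ring
  rw [h2] at h1
  have h3 : ∀ x : G, classInner θ.1 (conjChar N θ.1 x)
      = if conjChar N θ.1 x = θ.1 then 1 else 0 := by
    intro x
    rw [classInner_irr_irr θ.2 (isIrrCharacter_conjChar N θ.2 x)]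
    by_cases h : conjChar N θ.1 x = θ.1
    · rw [if_pos h, if_pos h.symm]
    · rw [if_neg h, if_neg (fun h' => h h'.symm)]
  rw [Finset.sum_congr rfl (fun x _ => h3 x), Finset.sum_boole] at h1
  have hN0 : (Nat.card N : ℂ) ≠ 0 := Nat.cast_ne_zero.mpr Nat.card_pos.ne'
  have h4 : ((Finset.univ.filter (fun x : G => conjChar N θ.1 x = θ.1)).card : ℂ)
      = (Nat.card N : ℂ) := by
    field_simp at h1
    exact h1
  have h5 : (Finset.univ.filter (fun x : G => conjChar N θ.1 x = θ.1)).card = Nat.card N := by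
    exact_mod_cast h4
  rw [← h5, Nat.card_eq_fintype_card, Fintype.card_subtype]
  apply Finset.card_le_card
  intro x hx
  rw [Finset.mem_filter] at hx ⊢
  exact ⟨Finset.mem_univ _, hT₁ x hx.2⟩

/-- Statement S4673: if `N ≤ L` are normal subgroups with `L/N` a `p`-group, the block `B` of `G`
covers the block `c` of `N` and `N` contains a defect group of `B`, then the stabilizer of `c`
meets `L` in `N`. -/
theorem stab_inf_eq (hM : IsPModular p M) (N L : Subgroup G) [hN : N.Normal] [hL : L.Normal]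
    [Fintype N] (hNL : N ≤ L) (hLN : ∃ k : ℕ, (N.subgroupOf L).index = p ^ k)
    (B : Set (IrrCharacter G)) (hB : IsPBlock M B) (c : Set (IrrCharacter N))
    (hc : IsPBlock M c)
    (hcov : ∃ χ ∈ B, ∃ θ ∈ c, classInner (fun n : N => χ.1 n) θ.1 ≠ 0)
    (hD : ∃ D : Subgroup G, IsDefectGroup p M B D ∧ D ≤ N)
    (T : Subgroup G) (hT : ∀ x : G, x ∈ T ↔ StabilizesBlock N c x) : T ⊓ L = N := by
  classical
  have hp : p.Prime := Fact.out
  have hMp := isPrime_of_isPModular hM
  obtain ⟨χ, hχB, η, hηc, hover⟩ := hcov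
  obtain ⟨D, hD, hDN⟩ := hD
  obtain ⟨χ₀, rfl⟩ := hB
  obtain ⟨η₀, rfl⟩ := hc
  have hBχ : blockOf M χ.1 = blockOf M χ₀.1 := Cfsg.Agent.H80.blockOf_eq_of_mem hMp hχB
  have hcη : blockOf M η.1 = blockOf M η₀.1 := Cfsg.Agent.H80.blockOf_eq_of_mem hMp hηc
  rw [← hBχ] at hD
  rw [← hcη] at hT
  letI : Fintype L := Fintype.ofFinite L
  letI : Fintype (N.subgroupOf L) := Fintype.ofFinite _
  haveI hN'n : (N.subgroupOf L).Normal := inferInstance
  have hβ : blockDefect p (blockOf M χ.1) ≤ blockDefect p (blockOf M η.1) :=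
    blockDefect_le_of_defectGroup_le N hM χ η hover D hD hDN
  obtain ⟨ζ₀, hζ₀1, hζ₀2⟩ := exists_between L N hNL χ η hover
  have hineq : blockDefect p (blockOf M ζ₀.1) ≤ blockDefect p (blockOf M χ.1) :=
    blockDefect_le_of_over L hM χ ζ₀ hζ₀1
  obtain ⟨θ'', hθ''b, hθ''min, hθ''inv, ζ, hζb, hζover⟩ :=
    exists_height_zero_under (N.subgroupOf L) hM ζ₀ (liftIrr L N hNL η) hζ₀2
  obtain ⟨k, hk⟩ := hLN
  have hN'T₁ : N.subgroupOf L
      ≤ blockStab (N.subgroupOf L) (blockOf M (liftIrr L N hNL η).1) := by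
    intro x hx θ
    rw [conjIrr_of_mem_self (N.subgroupOf L) hx θ]
  obtain ⟨j, hj⟩ : ∃ j, (N.subgroupOf L).relIndex
      (blockStab (N.subgroupOf L) (blockOf M (liftIrr L N hNL η).1)) = p ^ j := by
    have h1 : (N.subgroupOf L).relIndex
        (blockStab (N.subgroupOf L) (blockOf M (liftIrr L N hNL η).1)) ∣ p ^ k := by
      rw [← hk]
      exact Subgroup.relIndex_dvd_index_of_le hN'T₁
    obtain ⟨j, -, hj⟩ := (Nat.dvd_prime_pow hp).mp h1
    exact ⟨j, hj⟩
  have hinv := hθ''inv j hj
  have hdegζ := factorization_card_le_add_blockDefect (p := p) (blockOf M ζ₀.1) ζ hζb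
  have hdc : blockDefect p (blockOf M (liftIrr L N hNL η).1) = blockDefect p (blockOf M η.1) :=
    blockDefect_liftIrr L N hNL η
  have hdθ : (charDegree θ''.1).factorization p
      + blockDefect p (blockOf M (liftIrr L N hNL η).1)
      = (Nat.card (N.subgroupOf L)).factorization p := by
    have hinf : sInf ((fun χ : IrrCharacter (N.subgroupOf L) =>
        (charDegree χ.1).factorization p) '' blockOf M (liftIrr L N hNL η).1)
        = (charDegree θ''.1).factorization p := by
      have hne : ((fun χ : IrrCharacter (N.subgroupOf L) =>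
          (charDegree χ.1).factorization p) '' blockOf M (liftIrr L N hNL η).1).Nonempty :=
        ⟨_, θ'', hθ''b, rfl⟩
      apply le_antisymm
      · exact Nat.sInf_le ⟨θ'', hθ''b, rfl⟩
      · apply le_csInf hne
        rintro _ ⟨ψ, hψ, rfl⟩
        exact hθ''min ψ hψ
    have hle : (charDegree θ''.1).factorization p
        ≤ (Nat.card (N.subgroupOf L)).factorization p :=
      (Nat.factorization_le_iff_dvd (Cfsg.Agent.H82.charDegree_pos θ'').ne'
        Nat.card_pos.ne').mpr (Cfsg.Agent.H81.irr_charDegree_dvd θ'') p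
    unfold blockDefect
    rw [hinf]
    omega
  have hcardL : (Nat.card L).factorization p
      = (Nat.card (N.subgroupOf L)).factorization p + k := by
    rw [← Subgroup.card_mul_index (N.subgroupOf L), hk,
      Nat.factorization_mul Nat.card_pos.ne' (pow_pos hp.pos k).ne', hp.factorization_pow]
    simp
  have hlow : k + (charDegree θ''.1).factorization p ≤ (charDegree ζ.1).factorization p := by
    omega
  obtain ⟨h1, h2⟩ := Cfsg.Agent.S0887.result (N.subgroupOf L) ζ.1 ζ.2 θ''.1 θ''.2 hζover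
    (charDegree ζ.1) (charDegree θ''.1) (Cfsg.Agent.H82.irr_one_eq_charDegree ζ)
    (Cfsg.Agent.H82.irr_one_eq_charDegree θ'')
  obtain ⟨m, hm⟩ := h1
  have hd0 : charDegree θ''.1 ≠ 0 := (Cfsg.Agent.H82.charDegree_pos θ'').ne'
  have hc0 : charDegree ζ.1 ≠ 0 := (Cfsg.Agent.H82.charDegree_pos ζ).ne'
  have hm0 : m ≠ 0 := by
    rintro rfl
    rw [mul_zero] at hm
    exact hc0 hm
  have hdiv : charDegree ζ.1 / charDegree θ''.1 = m := by
    rw [hm]
    exact Nat.mul_div_cancel_left m (Nat.pos_of_ne_zero hd0)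
  rw [hdiv, hk] at h2
  obtain ⟨j', hj'k, hj'⟩ := (Nat.dvd_prime_pow hp).mp h2
  have hfac : (charDegree ζ.1).factorization p = (charDegree θ''.1).factorization p + j' := by
    rw [hm, Nat.factorization_mul hd0 hm0, hj', hp.factorization_pow]
    simp
  have hj'eq : j' = k := by omega
  have hζdeg : charDegree ζ.1 = charDegree θ''.1 * p ^ k := by
    rw [hm, hj', hj'eq]
  have hindchar : IsCharacter L (indFun (N.subgroupOf L) θ''.1) :=
    isCharacter_indFun _ _ (isCharacter_of_isIrrCharacter θ''.2)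
  have hindζ : classInner (indFun (N.subgroupOf L) θ''.1) ζ.1 ≠ 0 := by
    rw [frobenius_reciprocity _ _ _ (irr_isClassFunction ζ), ← classInner_conj_symm]
    intro h0
    apply hζover
    rw [map_eq_zero] at h0
    exact h0
  obtain ⟨r, hr1, hr2⟩ := Cfsg.Agent.H82.constituent_degree hindchar ζ hindζ
  have hr0 : r = 0 := by
    rw [Cfsg.Agent.H82.indFun_one, hk, Cfsg.Agent.H82.irr_one_eq_charDegree,
      Cfsg.Agent.H82.irr_one_eq_charDegree, hζdeg] at hr1
    have h5 : p ^ k * charDegree θ''.1 = charDegree θ''.1 * p ^ k + r := by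
      exact_mod_cast hr1
    rw [Nat.mul_comm] at h5
    omega
  have hind := hr2 hr0
  have hcard := card_le_of_indFun_irr (N.subgroupOf L) θ'' ζ hind
    (blockStab (N.subgroupOf L) (blockOf M (liftIrr L N hNL η).1))
    (fun x hx => congrArg Subtype.val (hinv x hx))
  have hT₁eq : N.subgroupOf L
      = blockStab (N.subgroupOf L) (blockOf M (liftIrr L N hNL η).1) :=
    Subgroup.eq_of_le_of_card_ge hN'T₁ hcard
  apply le_antisymm
  · intro x hx
    obtain ⟨hxT, hxL⟩ := Subgroup.mem_inf.mp hx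
    have hx₁ : (⟨x, hxL⟩ : L)
        ∈ blockStab (N.subgroupOf L) (blockOf M (liftIrr L N hNL η).1) := by
      apply conj_mem_blockStab (N.subgroupOf L) hMp (liftIrr L N hNL η)
      rw [conjIrr_liftIrr]
      show SameBlock M (liftIrr L N hNL η).1 (liftIrr L N hNL (conjIrr N x η)).1
      rw [sameBlock_liftIrr]
      obtain ⟨-, hst⟩ := (hT x⁻¹).mp (T.inv_mem hxT)
      obtain ⟨χ', hχ', hconj⟩ := hst η (Cfsg.Agent.H80.mem_blockOf_self hMp η)
      have : χ' = conjIrr N x η := by
        apply Subtype.ext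
        funext k'
        rw [conjIrr_apply]
        apply hconj ⟨x * k' * x⁻¹, hN.conj_mem k' k'.2 x⟩ k'
        show (k' : G) = x⁻¹ * (x * (k' : G) * x⁻¹) * x⁻¹⁻¹
        group
      rw [← this]
      exact hχ'
    rw [← hT₁eq] at hx₁
    exact Subgroup.mem_subgroupOf.mp hx₁
  · intro n hn
    refine Subgroup.mem_inf.mpr ⟨?_, hNL hn⟩
    rw [hT]
    refine ⟨Subgroup.le_normalizer hn, ?_⟩
    intro μ hμ
    refine ⟨μ, hμ, ?_⟩
    intro k k' hk
    have : k' = (⟨n, hn⟩ : N) * k * (⟨n, hn⟩ : N)⁻¹ := Subtype.ext hk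
    rw [this]
    exact irr_isClassFunction μ k ⟨n, hn⟩

end Stab

end Cfsg.Agent.H79
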