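import Mathlib
import Cfsg.Prelude.Def_Blocks
import Cfsg.Prelude.Def_BlockLocal
import Cfsg.Agent.H79.CoverStab
import Cfsg.Agent.H80.AutIrr
import Cfsg.Agent.H80.Subpair
import Cfsg.Agent.H80.StabBlock
import Cfsg.Agent.H80.OsimaOn

/-!
# A block fixed by a `p`-subgroup (helper79)

* `blockCoeff_eq_sum_blocks`: the idempotent coefficient of a union of blocks is the sum of the
  coefficients of the blocks.
* `exists_stable_block_coeff`: let `A` be a union of blocks of the normal subgroup `N`, stable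
  under the `p`-subgroup `P`, and `n ∈ C_N(P)` with `a_A(n) ∉ J`.  Then some `P`-stable block
  `f ⊆ A` has `a_f(n) ∉ J`.
-/

set_option autoImplicit false
set_option linter.unusedSectionVars false
set_option linter.style.haveILetI false

namespace Cfsg.Agent.H79

open Cfsg Cfsg.Agent.H20 Cfsg.Agent.H4 Cfsg.Agent.Clifford Cfsg.Agent.H84
open scoped ComplexConjugate

universe u

section PF

variable {G : Type u} [Group G] [Fintype G] {p : ℕ} {M : Ideal AlgInt}

open scoped Classical in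
/-- The idempotent coefficient of a union of blocks is the sum of the coefficients of the
blocks. -/
theorem blockCoeff_eq_sum_blocks (hM : M.IsPrime) (O : Set (IrrCharacter G))
    (hO : ∀ θ ∈ O, blockOf M θ.1 ⊆ O) (g : G) :
    blockCoeff O g = ∑ f ∈ (Cfsg.Agent.H80.blocksFinset M G).filter (fun f => f ⊆ O),
      blockCoeff f g := by
  have key : blockElt O
      = ∑ f ∈ (Cfsg.Agent.H80.blocksFinset M G).filter (fun f => f ⊆ O), blockElt f := by
    symm
    have hcf : (∑ f ∈ (Cfsg.Agent.H80.blocksFinset M G).filter (fun f => f ⊆ O), blockElt f)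
        ∈ cfSubring G (localRing M hM) := by
      apply Subring.sum_mem
      intro f hf
      obtain ⟨χ, rfl⟩ := Cfsg.Agent.H80.mem_blocksFinset.mp (Finset.mem_filter.mp hf).1
      exact blockElt_mem hM χ
    apply Cfsg.Agent.H80.eq_blockElt_of_omega hcf.1
    intro θ
    rw [omega_sum]
    by_cases hθ : θ ∈ O
    · rw [if_pos hθ, Finset.sum_eq_single (blockOf M θ.1)]
      · rw [omega_blockElt, if_pos (Cfsg.Agent.H80.mem_blockOf_self hM θ)]
      · intro f hf hne
        rw [omega_blockElt, if_neg]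
        intro hθf
        obtain ⟨χ, rfl⟩ := Cfsg.Agent.H80.mem_blocksFinset.mp (Finset.mem_filter.mp hf).1
        exact hne (Cfsg.Agent.H80.blockOf_eq_of_mem hM hθf).symm
      · intro h
        exact absurd (Finset.mem_filter.mpr
          ⟨Cfsg.Agent.H80.mem_blocksFinset.mpr ⟨θ, rfl⟩, hO θ hθ⟩) h
    · rw [if_neg hθ]
      apply Finset.sum_eq_zero
      intro f hf
      rw [omega_blockElt, if_neg]
      exact fun hθf => hθ ((Finset.mem_filter.mp hf).2 hθf)
  rw [← coeff_blockElt, key, MonoidAlgebra.coeff_sum, Finsupp.finsetSum_apply]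
  apply Finset.sum_congr rfl
  intro f _
  exact coeff_blockElt f g

variable (N : Subgroup G) [hN : N.Normal] [Fintype N]

/-- The automorphism action by conjugation, in terms of `conjIrr`. -/
theorem autIrr_conjAut_eq (x : G) (hx : x ∈ Subgroup.normalizer (N : Set G))
    (μ : IrrCharacter N) :
    Cfsg.Agent.H80.autIrr (Cfsg.Agent.H80.conjAut N x hx) μ = conjIrr N x⁻¹ μ := by
  apply Subtype.ext
  funext k
  rw [Cfsg.Agent.H80.autIrr_apply, conjIrr_apply]
  congr 1

/-- **A block fixed by a `p`-subgroup.**  Let `A` be a union of blocks of the normal subgroup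
`N`, stable under the `p`-subgroup `P`, and `n ∈ C_N(P)` with `a_A(n) ∉ J`.  Then some
`P`-stable block `f ⊆ A` has `a_f(n) ∉ J`. -/
theorem exists_stable_block_coeff [Fact p.Prime] (hM : IsPModular p M) (P : Subgroup G)
    (hP : IsPGroup p P) (A : Set (IrrCharacter N))
    (hAc : ∀ μ ∈ A, ∀ ν : IrrCharacter N, SameBlock M μ.1 ν.1 → ν ∈ A)
    (hAst : ∀ x ∈ P, ∀ μ : IrrCharacter N, conjIrr N x μ ∈ A ↔ μ ∈ A)
    (n : N) (hn : (n : G) ∈ Subgroup.centralizer (P : Set G))
    (hne : ¬ MemLocalIdeal M (blockCoeff A n)) :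
    ∃ θ ∈ A, (∀ x ∈ P, ∀ μ : IrrCharacter N,
        conjIrr N x μ ∈ blockOf M θ.1 ↔ μ ∈ blockOf M θ.1) ∧
      ¬ MemLocalIdeal M (blockCoeff (blockOf M θ.1) n) := by
  classical
  have hMp := isPrime_of_isPModular hM
  have hPN : P ≤ Subgroup.normalizer (N : Set G) := by
    rw [Subgroup.normalizer_eq_top]; exact le_top
  obtain ⟨φ, hφ⟩ : ∃ φ : P →* MulAut N,
      φ = N.normalizerMonoidHom.comp (Subgroup.inclusion hPN) := ⟨_, rfl⟩
  have hφx : ∀ u : P, φ u = Cfsg.Agent.H80.conjAut N (u : G) (hPN u.2) := fun u => by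
    rw [hφ]; rfl
  have hcoeff := blockCoeff_eq_sum_blocks hMp A (fun θ hθ ν hν => hAc θ hθ ν hν) n
  obtain ⟨w, hw⟩ : ∃ w : Set (IrrCharacter N) → ℂ,
      w = fun f => if f ⊆ A then blockCoeff f n else 0 := ⟨_, rfl⟩
  have hwinv : ∀ (f : Set (IrrCharacter N)) (u : P),
      w (Cfsg.Agent.H80.autIrr (φ u) '' f) = w f := by
    intro f u
    have h1 : (Cfsg.Agent.H80.autIrr (φ u) '' f ⊆ A) ↔ (f ⊆ A) := by
      rw [hφx]
      constructor
      · intro h μ hμ
        have h2 : Cfsg.Agent.H80.autIrr (Cfsg.Agent.H80.conjAut N (u : G) (hPN u.2)) μ ∈ A :=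
          h ⟨μ, hμ, rfl⟩
        rw [autIrr_conjAut_eq] at h2
        exact (hAst _ (P.inv_mem u.2) μ).mp h2
      · rintro h _ ⟨μ, hμ, rfl⟩
        rw [autIrr_conjAut_eq]
        exact (hAst _ (P.inv_mem u.2) μ).mpr (h hμ)
    have h2 : blockCoeff (Cfsg.Agent.H80.autIrr (φ u) '' f) n = blockCoeff f n := by
      rw [Cfsg.Agent.H80.blockCoeff_autIrr_image, hφx]
      congr 1
      apply Subtype.ext
      rw [Cfsg.Agent.H80.conjAut_symm_apply]
      have hc := Subgroup.mem_centralizer_iff.mp hn (u : G) u.2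
      calc (u : G)⁻¹ * (n : G) * (u : G) = (u : G)⁻¹ * ((n : G) * (u : G)) := by group
        _ = (u : G)⁻¹ * ((u : G) * (n : G)) := by rw [hc]
        _ = (n : G) := by group
    rw [hw]
    show (if Cfsg.Agent.H80.autIrr (φ u) '' f ⊆ A
      then blockCoeff (Cfsg.Agent.H80.autIrr (φ u) '' f) n else 0)
      = if f ⊆ A then blockCoeff f n else 0
    rw [h2]
    by_cases hfA : f ⊆ A
    · rw [if_pos hfA, if_pos (h1.mpr hfA)]
    · rw [if_neg hfA, if_neg (fun h => hfA (h1.mp h))]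
  have hwR : ∀ f ∈ Cfsg.Agent.H80.blocksFinset M N, MemLocalRing M (w f) := by
    intro f hf
    obtain ⟨χ, rfl⟩ := Cfsg.Agent.H80.mem_blocksFinset.mp hf
    rw [hw]
    show MemLocalRing M (if blockOf M χ.1 ⊆ A then blockCoeff (blockOf M χ.1) n else 0)
    split_ifs
    · exact blockCoeff_memLocalRing hMp χ n
    · exact memLocalRing_zero hMp
  have hnon := Cfsg.Agent.H80.sum_nonfixed_blocks_mem p hP φ hMp w hwinv
    (fun f hf => memLocalIdeal_mul_right hMp (memLocalIdeal_natCast_self hM) (hwR f hf))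
  have htot : blockCoeff A n = ∑ f ∈ Cfsg.Agent.H80.blocksFinset M N, w f := by
    rw [hcoeff, hw, Finset.sum_filter]
  rw [← Finset.sum_filter_add_sum_filter_not (Cfsg.Agent.H80.blocksFinset M N)
    (fun f => ∀ u : P, Cfsg.Agent.H80.autIrr (φ u) '' f = f)] at htot
  have hfix : ¬ MemLocalIdeal M (∑ f ∈ (Cfsg.Agent.H80.blocksFinset M N).filter
      (fun f => ∀ u : P, Cfsg.Agent.H80.autIrr (φ u) '' f = f), w f) := by
    intro h
    apply hne
    rw [htot]
    refine memLocalIdeal_add hMp h ?_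
    convert hnon
  have hex : ∃ f ∈ (Cfsg.Agent.H80.blocksFinset M N).filter
      (fun f => ∀ u : P, Cfsg.Agent.H80.autIrr (φ u) '' f = f), ¬ MemLocalIdeal M (w f) := by
    by_contra hcon
    push Not at hcon
    exact hfix (memLocalIdeal_sum hMp _ _ hcon)
  obtain ⟨f, hf, hfn⟩ := hex
  rw [Finset.mem_filter, Cfsg.Agent.H80.mem_blocksFinset] at hf
  obtain ⟨⟨θ, rfl⟩, hfixf⟩ := hf
  have hsub : blockOf M θ.1 ⊆ A := by
    by_contra hns
    apply hfn
    rw [hw]
    show MemLocalIdeal M (if blockOf M θ.1 ⊆ A then blockCoeff (blockOf M θ.1) n else 0)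
    rw [if_neg hns]
    exact memLocalIdeal_zero hMp
  have hval : w (blockOf M θ.1) = blockCoeff (blockOf M θ.1) n := by
    rw [hw]; exact if_pos hsub
  rw [hval] at hfn
  refine ⟨θ, hsub (Cfsg.Agent.H80.mem_blockOf_self hMp θ), ?_, hfn⟩
  intro x hx μ
  constructor
  · intro h
    have h1 := hfixf ⟨x, hx⟩
    rw [hφx] at h1
    have h2 : Cfsg.Agent.H80.autIrr (Cfsg.Agent.H80.conjAut N x (hPN hx)) (conjIrr N x μ)
        ∈ blockOf M θ.1 := by
      rw [← h1]; exact ⟨_, h, rfl⟩
    rw [autIrr_conjAut_eq, conjIrr_conjIrr, mul_inv_cancel, conjIrr_one] at h2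
    exact h2
  · intro h
    have h1 := hfixf ⟨x⁻¹, P.inv_mem hx⟩
    rw [hφx] at h1
    have h2 : Cfsg.Agent.H80.autIrr (Cfsg.Agent.H80.conjAut N x⁻¹ (hPN (P.inv_mem hx))) μ
        ∈ blockOf M θ.1 := by
      rw [← h1]; exact ⟨_, h, rfl⟩
    rw [autIrr_conjAut_eq, inv_inv] at h2
    exact h2

end PF

end Cfsg.Agent.H79
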