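import Mathlib
import Cfsg.Prelude.Def_Blocks
import Cfsg.Prelude.Def_BlockLocal
import Cfsg.Agent.H79.KnorrPF
import Cfsg.Agent.H79.Fong
import Cfsg.Agent.H81.QuotDefect
import Cfsg.Agent.S0906

/-!
# Knörr's theorem, local case (helper79)

`knorr_local`: let `N ◁ G`, `B` a block of `G` with defect group `P` such that `NP ◁ G`.  Then
there is a `P`-stable block `b` of `N` covered by `B` with defect group `P ∩ N`.
-/

set_option autoImplicit false
set_option linter.unusedSectionVars false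
set_option linter.style.haveILetI false

namespace Cfsg.Agent.H79

open Cfsg Cfsg.Agent.H20 Cfsg.Agent.H4 Cfsg.Agent.Clifford Cfsg.Agent.H84
open scoped ComplexConjugate

universe u

section Local

variable {G : Type u} [Group G] [Fintype G] {p : ℕ} [Fact p.Prime] {M : Ideal AlgInt}
  (N : Subgroup G) [hN : N.Normal] [Fintype N]

/-- **Knörr's theorem, local case.** -/
theorem knorr_local (hM : IsPModular p M) (P : Subgroup G) (hNP : (N ⊔ P).Normal)
    (χ₀ : IrrCharacter G) (hP : IsDefectGroup p M (blockOf M χ₀.1) P) :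
    ∃ θ : IrrCharacter N,
      (∀ x ∈ P, ∀ μ : IrrCharacter N, conjIrr N x μ ∈ blockOf M θ.1 ↔ μ ∈ blockOf M θ.1) ∧
      (∃ μ ∈ blockOf M θ.1, classInner (fun n : N => χ₀.1 n) μ.1 ≠ 0) ∧
      IsDefectGroup p M (blockOf M θ.1) ((P ⊓ N).subgroupOf N) := by
  classical
  have hp : p.Prime := Fact.out
  have hMp := isPrime_of_isPModular hM
  have hPp : IsPGroup p P := isPGroup_of_isDefectGroup hP
  have hP' := hP
  obtain ⟨g, hg, S, hPS⟩ := hP'
  have hPg : P ≤ Subgroup.centralizer ({g} : Set G) := by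
    rw [hPS]; exact sylow_map_le_centralizer g S
  -- (i) a `P`-stable covered block with a non-vanishing coefficient on `C_N(P)`
  obtain ⟨η, hη⟩ := exists_constituent_res N χ₀
  have hcov : ∀ χ ∈ blockOf M χ₀.1, ∃ μ ∈ orbitSet N (blockOf M η.1),
      classInner (fun n : N => χ.1 n) μ.1 ≠ 0 := by
    intro χ hχ
    obtain ⟨ψ, hψ⟩ := exists_constituent_res N χ
    exact ⟨ψ, mem_orbitSet_of_sameBlock_over hMp N χ₀ χ hχ η ψ hη hψ, hψ⟩
  obtain ⟨n, hn, hnP⟩ := exists_coeff_centralizing N hM (orbitSet N (blockOf M η.1))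
    (orbitSet_stable N _)
    (fun n => blockCoeff_memLocalRing_of_closed hMp _ (orbitSet_closed N hMp η) n)
    χ₀ hcov g hg.2.1 P hPp hPg
  obtain ⟨θ, hθA, hθst, hθn⟩ := exists_stable_block_coeff N hM P hPp
    (orbitSet N (blockOf M η.1)) (orbitSet_closed N hMp η)
    (fun x _ μ => orbitSet_stable N _ x μ) n hnP hn
  obtain ⟨g', hg'⟩ := hθA
  have hχ₀c : IsClassFunction G χ₀.1 := irr_isClassFunction χ₀
  obtain ⟨μ, hμdef⟩ : ∃ μ : IrrCharacter N, μ = conjIrr N g'⁻¹ η := ⟨_, rfl⟩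
  have hμθ : μ ∈ blockOf M θ.1 := by
    have h1 : SameBlock M (conjIrr N g'⁻¹ η).1 (conjIrr N g'⁻¹ (conjIrr N g' θ)).1 :=
      (sameBlock_conjIrr N g'⁻¹ _ _).mpr hg'
    rw [conjIrr_conjIrr, mul_inv_cancel, conjIrr_one] at h1
    rw [hμdef]
    exact Cfsg.Agent.H80.sameBlock_symm h1
  have hμover : classInner (fun n : N => χ₀.1 n) μ.1 ≠ 0 := by
    rw [hμdef]
    show classInner (fun n : N => χ₀.1 n) (conjChar N η.1 g'⁻¹) ≠ 0
    rw [classInner_res_conjChar N hχ₀c]
    exact hη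
  have hbl : blockOf M μ.1 = blockOf M θ.1 := Cfsg.Agent.H80.blockOf_eq_of_mem hMp hμθ
  -- (ii) the upper bound for the defect
  obtain ⟨K, hKdef⟩ : ∃ K : Subgroup G, K = N ⊔ P := ⟨_, rfl⟩
  haveI hKn : K.Normal := by rw [hKdef]; exact hNP
  have hNK : N ≤ K := by rw [hKdef]; exact le_sup_left
  have hPK : P ≤ K := by rw [hKdef]; exact le_sup_right
  letI : Fintype K := Fintype.ofFinite K
  letI : Fintype (N.subgroupOf K) := Fintype.ofFinite _
  obtain ⟨ζ, hζ₁, hζ₂⟩ := exists_between K N hNK χ₀ μ hμover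
  have hineq := blockDefect_le_of_over K hM χ₀ ζ hζ₁
  haveI hN'n : (N.subgroupOf K).Normal := hN.subgroupOf K
  have hstK : ∀ x ∈ K, ∀ ν : IrrCharacter N,
      conjIrr N x ν ∈ blockOf M θ.1 ↔ ν ∈ blockOf M θ.1 := by
    have hle : K ≤ blockStab N (blockOf M θ.1) := by
      rw [hKdef]
      apply sup_le
      · intro x hx
        rw [mem_blockStab]
        intro ν
        rw [conjIrr_of_mem_self N hx ν]
      · intro x hx
        rw [mem_blockStab]
        exact hθst x hx
    intro x hx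
    exact (mem_blockStab N _ x).mp (hle hx)
  have hbst : ∀ (k : K) (ν' : IrrCharacter (N.subgroupOf K)),
      conjIrr (N.subgroupOf K) k ν' ∈ blockOf M (liftIrr K N hNK μ).1
        ↔ ν' ∈ blockOf M (liftIrr K N hNK μ).1 := by
    intro k ν'
    obtain ⟨ν, rfl⟩ := liftIrr_surjective K N hNK ν'
    rw [conjIrr_liftIrr]
    show SameBlock M (liftIrr K N hNK μ).1 (liftIrr K N hNK (conjIrr N (k : G) ν)).1
      ↔ SameBlock M (liftIrr K N hNK μ).1 (liftIrr K N hNK ν).1
    rw [sameBlock_liftIrr, sameBlock_liftIrr]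
    have h1 := hstK (k : G) k.2 ν
    rw [← hbl] at h1
    exact h1
  obtain ⟨χ₂, ⟨μ', hμ', hχ₂⟩, hge⟩ :=
    exists_covering_defect_ge (N.subgroupOf K) hM (liftIrr K N hNK μ) hbst
  have hrel : (N.subgroupOf K).index = (N.subgroupOf P).index := by
    show N.relIndex K = N.relIndex P
    rw [hKdef, Subgroup.relIndex_sup_left]
  obtain ⟨k, hk⟩ : ∃ k : ℕ, (N.subgroupOf P).index = p ^ k := hPp.index (N.subgroupOf P)
  have hsame : SameBlock M χ₂.1 ζ.1 :=
    sameBlock_of_over_sameBlock_of_index_pow (N.subgroupOf K) hM ⟨k, hrel.trans hk⟩ χ₂ ζ μ'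
      (liftIrr K N hNK μ) hχ₂ hζ₂ (Cfsg.Agent.H80.sameBlock_symm hμ')
  rw [← Cfsg.Agent.H80.blockOf_eq_of_sameBlock hMp hsame, blockDefect_liftIrr, hbl, hrel, hk,
    hp.factorization_pow, Finsupp.single_eq_same] at hge
  -- cardinalities
  have hcardP := card_defectGroup hM χ₀ P hP
  have hcQ : Nat.card ((P ⊓ N).subgroupOf N) = Nat.card (P ⊓ N : Subgroup G) :=
    Nat.card_congr (Subgroup.subgroupOfEquivOfLe inf_le_right).toEquiv
  have hcQ' : Nat.card (N.subgroupOf P) = Nat.card (P ⊓ N : Subgroup G) := by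
    rw [← Subgroup.inf_subgroupOf_left N P]
    exact Nat.card_congr (Subgroup.subgroupOfEquivOfLe inf_le_left).toEquiv
  have hQk : Nat.card ((P ⊓ N).subgroupOf N) * p ^ k
      = p ^ blockDefect p (blockOf M χ₀.1) := by
    rw [hcQ, ← hcQ', ← hk, Subgroup.card_mul_index, hcardP]
  -- (iii) the defect group
  obtain ⟨y, hy⟩ := Cfsg.Agent.S0906.result p M hM (blockOf M θ.1) ⟨θ, rfl⟩
  obtain ⟨S'⟩ := (inferInstance : Nonempty (Sylow p (Subgroup.centralizer ({y} : Set N))))
  obtain ⟨D, hDdef⟩ : ∃ D : Subgroup N,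
      D = (S' : Subgroup (Subgroup.centralizer ({y} : Set N))).map
        (Subgroup.centralizer ({y} : Set N)).subtype := ⟨_, rfl⟩
  have hD₁ : IsDefectGroup p M (blockOf M θ.1) D := ⟨y, hy, S', hDdef⟩
  have hQp : IsPGroup p ((P ⊓ N).subgroupOf N) :=
    (hPp.to_le inf_le_left).comap_of_injective N.subtype N.subtype_injective
  have hQn : (P ⊓ N).subgroupOf N ≤ Subgroup.centralizer ({n} : Set N) := by
    intro x hx
    rw [Subgroup.mem_centralizer_singleton_iff]
    apply Subtype.ext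
    exact Subgroup.mem_centralizer_iff.mp hnP (x : G) (Subgroup.mem_subgroupOf.mp hx).1
  obtain ⟨x, hx⟩ := exists_conj_le_defectGroup hM θ D hD₁ n hθn ((P ⊓ N).subgroupOf N) hQp hQn
  have hcardD := card_defectGroup hM θ D hD₁
  have hle : Nat.card D ≤ Nat.card ((P ⊓ N).subgroupOf N) := by
    have hpk : 0 < p ^ k := pow_pos hp.pos k
    apply Nat.le_of_mul_le_mul_right _ hpk
    rw [hcardD, ← pow_add, hQk]
    exact Nat.pow_le_pow_right hp.pos (le_trans hge hineq)
  have heq : ((P ⊓ N).subgroupOf N).map (MulAut.conj x).toMonoidHom = D := by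
    apply Subgroup.eq_of_le_of_card_ge hx
    rw [Subgroup.card_map_of_injective (K := (P ⊓ N).subgroupOf N)
      (f := (MulAut.conj x).toMonoidHom) (MulAut.conj x).injective]
    exact hle
  have hfin : IsDefectGroup p M (blockOf M θ.1) ((P ⊓ N).subgroupOf N) := by
    have h1 := Cfsg.Agent.H81.isDefectGroup_map_conj hD₁ x⁻¹
    rw [← heq, Subgroup.map_map] at h1
    have h2 : ((MulAut.conj x⁻¹).toMonoidHom.comp (MulAut.conj x).toMonoidHom)
        = MonoidHom.id N := by
      ext y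
      simp [MulAut.conj_apply, mul_assoc]
    rw [h2, Subgroup.map_id] at h1
    exact h1
  exact ⟨θ, hθst, ⟨μ, hμθ, hμover⟩, hfin⟩

end Local

end Cfsg.Agent.H79
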