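import Mathlib
import Cfsg.Prelude.Def_Blocks
import Cfsg.Prelude.Def_BlockLocal
import Cfsg.Agent.H79.KnorrLocal
import Cfsg.Agent.H20.BrauerOver
import Cfsg.Agent.H80.Brauer

/-!
# Knörr's theorem (helper79)

* `cover_transfer`: let `N ◁ G`, `C_G(P) ≤ H`, `N ≤ H`, and let the blocks `B` of `G` and `B₁` of
  `H` have idempotents that agree on `C_G(P)` modulo the local ideal, the idempotent of `B` not
  vanishing there.  If `B` covers the `G`-stable union of blocks `A` of `N`, then `B₁` covers a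
  member of `A`.
* `knorr`: for a block `B` of `G` with defect group `P` and `N ◁ G` there is a `P`-stable block
  of `N` covered by `B` with defect group `P ∩ N`.
-/

set_option autoImplicit false
set_option linter.unusedSectionVars false
set_option linter.style.haveILetI false

namespace Cfsg.Agent.H79

open Cfsg Cfsg.Agent.H20 Cfsg.Agent.H4 Cfsg.Agent.Clifford Cfsg.Agent.H84
open scoped ComplexConjugate

universe u

section Lift

variable {G : Type u} [Group G] {M : Ideal AlgInt}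

theorem liftIrr_eq_eqvIrr (H K : Subgroup G) (hKH : K ≤ H) (θ : IrrCharacter K) :
    liftIrr H K hKH θ
      = Cfsg.Agent.H80.eqvIrr (Subgroup.subgroupOfEquivOfLe hKH).symm θ := by
  apply Subtype.ext
  funext k
  rw [Cfsg.Agent.H80.eqvIrr_apply]
  rfl

theorem liftIrr_injective (H K : Subgroup G) (hKH : K ≤ H) :
    Function.Injective (liftIrr H K hKH) := by
  intro a b h
  rw [liftIrr_eq_eqvIrr, liftIrr_eq_eqvIrr] at h
  exact Cfsg.Agent.H80.eqvIrr_injective _ h

theorem blockCoeff_liftIrr_image (H K : Subgroup G) (hKH : K ≤ H) (A : Set (IrrCharacter K))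
    (k : K.subgroupOf H) :
    blockCoeff (liftIrr H K hKH '' A) k = blockCoeff A ⟨((k : H) : G), k.2⟩ := by
  have h1 : liftIrr H K hKH '' A
      = Cfsg.Agent.H80.eqvIrr (Subgroup.subgroupOfEquivOfLe hKH).symm '' A := by
    apply Set.image_congr
    intro θ _
    exact liftIrr_eq_eqvIrr H K hKH θ
  rw [h1, Cfsg.Agent.H80.blockCoeff_eqvIrr_image]
  rfl

end Lift

section Cov

variable {G : Type u} [Group G] [Fintype G] {p : ℕ} [Fact p.Prime] {M : Ideal AlgInt}
  (N : Subgroup G) [hN : N.Normal] [Fintype N]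

/-- **Transfer of covering.** -/
theorem cover_transfer (hM : IsPModular p M) (H P : Subgroup G) [Fintype H]
    [Fintype (N.subgroupOf H)] (hNH : N ≤ H)
    (hPp : IsPGroup p P) (hPH : P ≤ H) (hCH : Subgroup.centralizer (P : Set G) ≤ H)
    (χ₀ : IrrCharacter G) (ψ₀ : IrrCharacter H)
    (hcong : ∀ (x : G) (hx : x ∈ H), x ∈ Subgroup.centralizer (P : Set G) →
      MemLocalIdeal M (blockCoeff (blockOf M χ₀.1) x - blockCoeff (blockOf M ψ₀.1) ⟨x, hx⟩))
    (c₀ : G) (hc₀ : c₀ ∈ Subgroup.centralizer (P : Set G))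
    (hc₀n : ¬ MemLocalIdeal M (blockCoeff (blockOf M χ₀.1) c₀))
    (A : Set (IrrCharacter N))
    (hAst : ∀ (g : G) (μ : IrrCharacter N), conjIrr N g μ ∈ A ↔ μ ∈ A)
    (hAc : ∀ μ ∈ A, ∀ ν : IrrCharacter N, SameBlock M μ.1 ν.1 → ν ∈ A)
    (hcov : ∀ χ ∈ blockOf M χ₀.1, ∃ μ ∈ A, classInner (fun n : N => χ.1 n) μ.1 ≠ 0) :
    ∃ ψ ∈ blockOf M ψ₀.1, ∃ μ ∈ A,
      classInner (fun k : N.subgroupOf H => ψ.1 k) (liftIrr H N hNH μ).1 ≠ 0 := by
  classical
  have hMp := isPrime_of_isPModular hM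
  haveI hN' : (N.subgroupOf H).Normal := hN.subgroupOf H
  by_contra hcon
  push Not at hcon
  apply hc₀n
  have hc₀H : c₀ ∈ H := hCH hc₀
  obtain ⟨E, hEdef⟩ : ∃ E : G → ℂ, E = extendByZero N (blockCoeff A) := ⟨_, rfl⟩
  have hER : ∀ y : G, MemLocalRing M (E y) := by
    intro y
    rw [hEdef]
    by_cases hy : y ∈ N
    · rw [extendByZero_of_mem N _ hy]
      exact blockCoeff_memLocalRing_of_closed hMp A hAc _
    · rw [extendByZero_of_not_mem N _ hy]
      exact memLocalRing_zero hMp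
  have hEconj : ∀ g x : G, E (x * g * x⁻¹) = E g := by
    intro g x
    rw [hEdef]
    exact extendByZero_blockCoeff_conj N A hAst g x
  -- the side of `G`
  obtain ⟨C, hCdef⟩ : ∃ C : Set (IrrCharacter G),
      C = {χ : IrrCharacter G | ∃ μ ∈ A, classInner (fun n : N => χ.1 n) μ.1 ≠ 0} := ⟨_, rfl⟩
  have hBC : blockOf M χ₀.1 ⊆ C := by
    intro χ hχ; rw [hCdef]; exact hcov χ hχ
  have hCcoeff : ∀ y, blockCoeff C y = E y := by
    intro y; rw [hCdef, hEdef]; exact blockCoeff_over_eq N A hAst y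
  have hG : blockCoeff (blockOf M χ₀.1) c₀
      = ∑ x : G, blockCoeff (blockOf M χ₀.1) x * E (x⁻¹ * c₀) := by
    rw [blockCoeff_eq_sum_mul_of_subset _ C hBC c₀]
    simp only [hCcoeff]
  -- the side of `H`
  obtain ⟨A', hA'def⟩ : ∃ A' : Set (IrrCharacter (N.subgroupOf H)),
      A' = liftIrr H N hNH '' A := ⟨_, rfl⟩
  have hA'st : ∀ (h : H) (μ' : IrrCharacter (N.subgroupOf H)),
      conjIrr (N.subgroupOf H) h μ' ∈ A' ↔ μ' ∈ A' := by
    intro h μ'
    obtain ⟨μ, rfl⟩ := liftIrr_surjective H N hNH μ'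
    rw [conjIrr_liftIrr, hA'def, (liftIrr_injective H N hNH).mem_set_image,
      (liftIrr_injective H N hNH).mem_set_image]
    exact hAst (h : G) μ
  obtain ⟨C', hC'def⟩ : ∃ C' : Set (IrrCharacter H),
      C' = {ψ : IrrCharacter H | ∃ μ' ∈ A',
        classInner (fun n : N.subgroupOf H => ψ.1 n) μ'.1 ≠ 0} := ⟨_, rfl⟩
  have hC'coeff : ∀ y : H, blockCoeff C' y = E (y : G) := by
    intro y
    rw [hC'def, blockCoeff_over_eq (N.subgroupOf H) A' hA'st y, hEdef]
    by_cases hy : (y : G) ∈ N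
    · have hy' : y ∈ N.subgroupOf H := Subgroup.mem_subgroupOf.mpr hy
      rw [extendByZero_of_mem _ _ hy', extendByZero_of_mem N _ hy, hA'def,
        blockCoeff_liftIrr_image]
    · have hy' : y ∉ N.subgroupOf H := fun h => hy (Subgroup.mem_subgroupOf.mp h)
      rw [extendByZero_of_not_mem _ _ hy', extendByZero_of_not_mem N _ hy]
  have hdisj : blockOf M ψ₀.1 ∩ C' = ∅ := by
    ext ψ
    simp only [Set.mem_inter_iff, Set.mem_empty_iff_false, iff_false, not_and]
    intro hψ hψC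
    rw [hC'def] at hψC
    obtain ⟨μ', hμ', hne⟩ := hψC
    rw [hA'def] at hμ'
    obtain ⟨μ, hμ, rfl⟩ := hμ'
    exact hne (hcon ψ hψ μ hμ)
  have hH : ∑ y : H, blockCoeff (blockOf M ψ₀.1) y * E ((y : G)⁻¹ * c₀) = 0 := by
    have h1 := Cfsg.Agent.H80.blockElt_mul_blockElt (blockOf M ψ₀.1) C'
    rw [hdisj, Cfsg.Agent.H80.blockElt_empty] at h1
    have h2 := congrArg (fun z : MonoidAlgebra ℂ H => z.coeff (⟨c₀, hc₀H⟩ : H)) h1
    simp only [coeff_mul_fintype, coeff_blockElt, hC'coeff] at h2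
    simpa using h2
  obtain ⟨b₁, hb₁⟩ : ∃ b₁ : G → ℂ, b₁ = extendByZero H (blockCoeff (blockOf M ψ₀.1)) :=
    ⟨_, rfl⟩
  have hsumb : ∑ x : G, b₁ x * E (x⁻¹ * c₀) = 0 := by
    rw [hb₁, ← hH]
    have h1 := sum_extendByZero H (blockCoeff (blockOf M ψ₀.1)) (fun x => E (x⁻¹ * c₀))
    calc ∑ x : G, extendByZero H (blockCoeff (blockOf M ψ₀.1)) x * E (x⁻¹ * c₀)
        = ∑ x : G, E (x⁻¹ * c₀) * extendByZero H (blockCoeff (blockOf M ψ₀.1)) x := by
          apply Finset.sum_congr rfl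
          intro x _
          ring
      _ = ∑ h : H, E ((h : G)⁻¹ * c₀) * blockCoeff (blockOf M ψ₀.1) h := h1
      _ = ∑ y : H, blockCoeff (blockOf M ψ₀.1) y * E ((y : G)⁻¹ * c₀) := by
          apply Finset.sum_congr rfl
          intro x _
          ring
  have hb₁R : ∀ x : G, MemLocalRing M (b₁ x) := by
    intro x
    rw [hb₁]
    by_cases hx : x ∈ H
    · rw [extendByZero_of_mem H _ hx]
      exact blockCoeff_memLocalRing hMp ψ₀ _
    · rw [extendByZero_of_not_mem H _ hx]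
      exact memLocalRing_zero hMp
  have hb₁conj : ∀ (x u : G), u ∈ H → b₁ (u * x * u⁻¹) = b₁ x := by
    intro x u hu
    rw [hb₁]
    by_cases hx : x ∈ H
    · have hx' : u * x * u⁻¹ ∈ H := H.mul_mem (H.mul_mem hu hx) (H.inv_mem hu)
      rw [extendByZero_of_mem H _ hx', extendByZero_of_mem H _ hx]
      exact blockCoeff_conj_invariant (blockOf M ψ₀.1) (⟨x, hx⟩ : H) (⟨u, hu⟩ : H)
    · have hx' : u * x * u⁻¹ ∉ H := by
        intro h
        apply hx
        have := H.mul_mem (H.mul_mem (H.inv_mem hu) h) hu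
        simpa [mul_assoc] using this
      rw [extendByZero_of_not_mem H _ hx', extendByZero_of_not_mem H _ hx]
  obtain ⟨D, hDdef⟩ : ∃ D : G → ℂ,
      D = fun x => (blockCoeff (blockOf M χ₀.1) x - b₁ x) * E (x⁻¹ * c₀) := ⟨_, rfl⟩
  have hsumD : blockCoeff (blockOf M χ₀.1) c₀ = ∑ x : G, D x := by
    have h1 : ∀ x : G, D x
        = blockCoeff (blockOf M χ₀.1) x * E (x⁻¹ * c₀) - b₁ x * E (x⁻¹ * c₀) := by
      intro x; rw [hDdef]; ring
    simp only [h1]
    rw [Finset.sum_sub_distrib, hsumb, sub_zero]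
    exact hG
  rw [hsumD]
  have hDR : ∀ x : G, MemLocalRing M (D x) := by
    intro x
    rw [hDdef]
    exact memLocalRing_mul hMp
      (memLocalRing_sub hMp (blockCoeff_memLocalRing hMp χ₀ x) (hb₁R x)) (hER _)
  have hcent : ∀ x : G, x ∈ Subgroup.centralizer (P : Set G) → MemLocalIdeal M (D x) := by
    intro x hx
    rw [hDdef]
    refine memLocalIdeal_mul_right hMp ?_ (hER _)
    have hxH : x ∈ H := hCH hx
    rw [hb₁, extendByZero_of_mem H _ hxH]
    exact hcong x hxH hx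
  have hsplit := (Finset.sum_filter_add_sum_filter_not (Finset.univ : Finset G)
    (fun x => x ∈ Subgroup.centralizer (P : Set G)) D).symm
  rw [hsplit]
  apply memLocalIdeal_add hMp
  · apply memLocalIdeal_sum hMp
    intro x hx
    exact hcent x (Finset.mem_filter.mp hx).2
  · have h2 : ∑ x ∈ Finset.univ.filter (fun x => x ∉ Subgroup.centralizer (P : Set G)), D x
        ∈ localIdeal M hMp := by
      apply Cfsg.Agent.H80.sum_mem_of_conj p P hPp (localIdeal M hMp) D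
      · intro x hx u hu
        rw [Finset.mem_filter] at hx ⊢
        refine ⟨Finset.mem_univ _, fun h => hx.2 ?_⟩
        rw [Subgroup.mem_centralizer_iff] at h ⊢
        intro v hv
        have hv' : u * v * u⁻¹ ∈ (P : Set G) :=
          P.mul_mem (P.mul_mem hu hv) (P.inv_mem hu)
        have h1 := h (u * v * u⁻¹) hv'
        have h2 : u * v * x * u⁻¹ = u * x * v * u⁻¹ := by
          have e1 : u * v * u⁻¹ * (u * x * u⁻¹) = u * v * x * u⁻¹ := by group
          have e2 : u * x * u⁻¹ * (u * v * u⁻¹) = u * x * v * u⁻¹ := by group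
          rw [← e1, ← e2]; exact h1
        have h3 : u * (v * x) * u⁻¹ = u * (x * v) * u⁻¹ := by
          simpa [mul_assoc] using h2
        exact mul_left_cancel (mul_right_cancel h3)
      · intro x hx u hu
        rw [hDdef]
        show (blockCoeff (blockOf M χ₀.1) (u * x * u⁻¹) - b₁ (u * x * u⁻¹))
            * E ((u * x * u⁻¹)⁻¹ * c₀)
          = (blockCoeff (blockOf M χ₀.1) x - b₁ x) * E (x⁻¹ * c₀)
        rw [blockCoeff_conj_invariant, hb₁conj x u (hPH hu)]
        have hug : u * c₀ = c₀ * u := Subgroup.mem_centralizer_iff.mp hc₀ u hu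
        have hug' : u⁻¹ * c₀ = c₀ * u⁻¹ := by
          have : c₀ = u * c₀ * u⁻¹ := by rw [hug]; group
          calc u⁻¹ * c₀ = u⁻¹ * (u * c₀ * u⁻¹) := by rw [← this]
            _ = c₀ * u⁻¹ := by group
        have e : (u * x * u⁻¹)⁻¹ * c₀ = u * (x⁻¹ * c₀) * u⁻¹ := by
          calc (u * x * u⁻¹)⁻¹ * c₀ = u * x⁻¹ * (u⁻¹ * c₀) := by group
            _ = u * x⁻¹ * (c₀ * u⁻¹) := by rw [hug']
            _ = u * (x⁻¹ * c₀) * u⁻¹ := by group
        rw [e, hEconj]
      · intro x hx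
        exact (Finset.mem_filter.mp hx).2
      · intro x _
        rw [mem_localIdeal, nsmul_eq_mul]
        exact memLocalIdeal_mul_right hMp (memLocalIdeal_natCast_self hM) (hDR x)
    exact h2

/-- **Knörr's theorem.**  For a block `B` of `G` with defect group `P` and a normal subgroup
`N` there is a `P`-stable block of `N` covered by `B` with defect group `P ∩ N`. -/
theorem knorr (hM : IsPModular p M) (P : Subgroup G) (χ₀ : IrrCharacter G)
    (hP : IsDefectGroup p M (blockOf M χ₀.1) P) :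
    ∃ θ : IrrCharacter N,
      (∀ x ∈ P, ∀ μ : IrrCharacter N, conjIrr N x μ ∈ blockOf M θ.1 ↔ μ ∈ blockOf M θ.1) ∧
      (∃ μ ∈ blockOf M θ.1, classInner (fun n : N => χ₀.1 n) μ.1 ≠ 0) ∧
      IsDefectGroup p M (blockOf M θ.1) ((P ⊓ N).subgroupOf N) := by
  classical
  have hp : p.Prime := Fact.out
  have hMp := isPrime_of_isPModular hM
  have hPp : IsPGroup p P := isPGroup_of_isDefectGroup hP
  obtain ⟨H, hHdef⟩ : ∃ H : Subgroup G, H = N ⊔ Subgroup.normalizer (P : Set G) := ⟨_, rfl⟩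
  have hNH : N ≤ H := by rw [hHdef]; exact le_sup_left
  have hNPH : Subgroup.normalizer (P : Set G) ≤ H := by rw [hHdef]; exact le_sup_right
  have hPH : P ≤ H := Subgroup.le_normalizer.trans hNPH
  have hCN : Subgroup.centralizer (P : Set G) ≤ Subgroup.normalizer (P : Set G) :=
    Subgroup.centralizer_le_normalizer _
  have hCH : Subgroup.centralizer (P : Set G) ≤ H := hCN.trans hNPH
  letI : Fintype H := Fintype.ofFinite H
  letI : Fintype (N.subgroupOf H) := Fintype.ofFinite _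
  haveI hN' : (N.subgroupOf H).Normal := hN.subgroupOf H
  -- the Brauer correspondent in `H`
  obtain ⟨ξ₀, hdefN, hcongG⟩ := exists_normalizer_block_coeff hM P hPp χ₀ hP
  obtain ⟨ψ₀, hdefH, hcongH⟩ := exists_block_over_of_normalizer_coeff hM P H hPp hNPH ξ₀ hdefN
  have hcong : ∀ (x : G) (hx : x ∈ H), x ∈ Subgroup.centralizer (P : Set G) →
      MemLocalIdeal M (blockCoeff (blockOf M χ₀.1) x - blockCoeff (blockOf M ψ₀.1) ⟨x, hx⟩) := by
    intro x hx hxC
    have h1 := hcongG x (hCN hxC) hxC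
    have h2 := hcongH x (hCN hxC) hxC
    have h3 := memLocalIdeal_sub hMp h1 h2
    have e : blockCoeff (blockOf M χ₀.1) x - blockCoeff (blockOf M ψ₀.1) ⟨x, hx⟩
        = (blockCoeff (blockOf M χ₀.1) x - blockCoeff (blockOf M ξ₀.1) ⟨x, hCN hxC⟩)
          - (blockCoeff (blockOf M ψ₀.1) ⟨x, hNPH (hCN hxC)⟩
            - blockCoeff (blockOf M ξ₀.1) ⟨x, hCN hxC⟩) := by ring
    rw [e]
    exact h3
  obtain ⟨c₀, hc₀, hc₀n⟩ := exists_mem_centralizer_of_isDefectGroup (blockOf M χ₀.1) P hP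
  -- the local case in `H`
  have hnorm' : ((N.subgroupOf H) ⊔ (P.subgroupOf H)).Normal := by
    rw [← Subgroup.subgroupOf_sup hNH hPH]
    apply Subgroup.normal_subgroupOf_of_le_normalizer
    rw [hHdef]
    apply sup_le
    · exact le_sup_left.trans Subgroup.le_normalizer
    · rw [Subgroup.le_normalizer_iff]
      intro h hh k hk
      have hmap : (N ⊔ P).map (MulAut.conj h).toMonoidHom ≤ N ⊔ P := by
        rw [Subgroup.map_sup]
        apply sup_le_sup
        · rintro _ ⟨n, hn, rfl⟩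
          exact hN.conj_mem n hn h
        · rintro _ ⟨u, hu, rfl⟩
          exact (Subgroup.mem_normalizer_iff.mp hh u).mp hu
      exact hmap ⟨k, hk, rfl⟩
  obtain ⟨θ', hθ'st, ⟨μ', hμ'θ', hμ'over⟩, hθ'def⟩ :=
    knorr_local (N.subgroupOf H) hM (P.subgroupOf H) hnorm' ψ₀ hdefH
  obtain ⟨θ, rfl⟩ := liftIrr_surjective H N hNH θ'
  obtain ⟨ν', rfl⟩ := liftIrr_surjective H N hNH μ'
  have hν'θ : ν' ∈ blockOf M θ.1 := (sameBlock_liftIrr H N hNH θ ν').mp hμ'θ'
  -- the blocks of `N` covered by `B`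
  obtain ⟨η, hη⟩ := exists_constituent_res N χ₀
  have hcov : ∀ χ ∈ blockOf M χ₀.1, ∃ μ ∈ orbitSet N (blockOf M η.1),
      classInner (fun n : N => χ.1 n) μ.1 ≠ 0 := by
    intro χ hχ
    obtain ⟨ψ, hψ⟩ := exists_constituent_res N χ
    exact ⟨ψ, mem_orbitSet_of_sameBlock_over hMp N χ₀ χ hχ η ψ hη hψ, hψ⟩
  obtain ⟨ψ, hψ, μ, hμA, hψμ⟩ := cover_transfer N hM H P hNH hPp hPH hCH χ₀ ψ₀ hcong c₀ hc₀
    hc₀n (orbitSet N (blockOf M η.1)) (orbitSet_stable N _) (orbitSet_closed N hMp η) hcov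
  have h1 := mem_orbitSet_of_sameBlock_over hMp (N.subgroupOf H) ψ ψ₀
    (Cfsg.Agent.H80.sameBlock_symm hψ) (liftIrr H N hNH μ) (liftIrr H N hNH ν') hψμ hμ'over
  obtain ⟨h, hh⟩ := h1
  rw [conjIrr_liftIrr] at hh
  have hh' : conjIrr N (h : G) ν' ∈ blockOf M μ.1 := (sameBlock_liftIrr H N hNH μ _).mp hh
  have hν'A : ν' ∈ orbitSet N (blockOf M η.1) := by
    have h2 : conjIrr N (h : G) ν' ∈ orbitSet N (blockOf M η.1) :=
      orbitSet_closed N hMp η μ hμA _ hh'
    exact (orbitSet_stable N _ (h : G) ν').mp h2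
  obtain ⟨g', hg'⟩ := hν'A
  have hχ₀c : IsClassFunction G χ₀.1 := irr_isClassFunction χ₀
  obtain ⟨μ₂, hμ₂def⟩ : ∃ μ₂ : IrrCharacter N, μ₂ = conjIrr N g'⁻¹ η := ⟨_, rfl⟩
  have hμ₂θ : μ₂ ∈ blockOf M θ.1 := by
    have h1 : SameBlock M (conjIrr N g'⁻¹ η).1 (conjIrr N g'⁻¹ (conjIrr N g' ν')).1 :=
      (sameBlock_conjIrr N g'⁻¹ _ _).mpr hg'
    rw [conjIrr_conjIrr, mul_inv_cancel, conjIrr_one] at h1
    rw [hμ₂def]
    exact Cfsg.Agent.H80.sameBlock_trans hMp hν'θ (Cfsg.Agent.H80.sameBlock_symm h1)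
  have hμ₂over : classInner (fun n : N => χ₀.1 n) μ₂.1 ≠ 0 := by
    rw [hμ₂def]
    show classInner (fun n : N => χ₀.1 n) (conjChar N η.1 g'⁻¹) ≠ 0
    rw [classInner_res_conjChar N hχ₀c]
    exact hη
  -- stability
  have hθst : ∀ x ∈ P, ∀ ν : IrrCharacter N,
      conjIrr N x ν ∈ blockOf M θ.1 ↔ ν ∈ blockOf M θ.1 := by
    intro x hx ν
    have h1 := hθ'st (⟨x, hPH hx⟩ : H) (Subgroup.mem_subgroupOf.mpr hx) (liftIrr H N hNH ν)
    rw [conjIrr_liftIrr] at h1
    exact ⟨fun h => (sameBlock_liftIrr H N hNH θ ν).mp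
        (h1.mp ((sameBlock_liftIrr H N hNH θ _).mpr h)),
      fun h => (sameBlock_liftIrr H N hNH θ _).mp
        (h1.mpr ((sameBlock_liftIrr H N hNH θ ν).mpr h))⟩
  -- the defect group
  have hdef : IsDefectGroup p M (blockOf M θ.1) ((P ⊓ N).subgroupOf N) := by
    have h1 := isDefectGroup_eqvIrr_image (Subgroup.subgroupOfEquivOfLe hNH)
      (blockOf M (liftIrr H N hNH θ).1) _ hθ'def
    rw [Cfsg.Agent.H80.eqvIrr_image_blockOf] at h1
    have h2 : Cfsg.Agent.H80.eqvIrr (Subgroup.subgroupOfEquivOfLe hNH) (liftIrr H N hNH θ)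
        = θ := by
      apply Subtype.ext
      funext k
      rw [Cfsg.Agent.H80.eqvIrr_apply, liftIrr_apply]
      rfl
    rw [h2] at h1
    have h3 : (((P.subgroupOf H) ⊓ (N.subgroupOf H)).subgroupOf (N.subgroupOf H)).map
        (Subgroup.subgroupOfEquivOfLe hNH).toMonoidHom = (P ⊓ N).subgroupOf N := by
      ext n
      constructor
      · rintro ⟨d, hd, rfl⟩
        have hd' := Subgroup.mem_inf.mp (Subgroup.mem_subgroupOf.mp hd)
        exact Subgroup.mem_subgroupOf.mpr (Subgroup.mem_inf.mpr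
          ⟨Subgroup.mem_subgroupOf.mp hd'.1, Subgroup.mem_subgroupOf.mp hd'.2⟩)
      · intro hn
        have hn' := Subgroup.mem_inf.mp (Subgroup.mem_subgroupOf.mp hn)
        refine ⟨(Subgroup.subgroupOfEquivOfLe hNH).symm n, ?_, ?_⟩
        · apply Subgroup.mem_subgroupOf.mpr
          exact Subgroup.mem_inf.mpr
            ⟨Subgroup.mem_subgroupOf.mpr hn'.1, Subgroup.mem_subgroupOf.mpr hn'.2⟩
        · exact (Subgroup.subgroupOfEquivOfLe hNH).apply_symm_apply n
    rw [h3] at h1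
    exact h1
  exact ⟨θ, hθst, ⟨μ₂, hμ₂θ, hμ₂over⟩, hdef⟩

end Cov

end Cfsg.Agent.H79
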