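import Mathlib
import Cfsg.Prelude.Def_Blocks
import Cfsg.Prelude.Def_BlockLocal
import Cfsg.Agent.H79.KnorrCover
import Cfsg.Agent.H20.MinMax
import Cfsg.Agent.H81.DefZero
import Cfsg.Agent.S0963

/-!
# Blocks over an invariant character of a normal `p'`-subgroup (helper79)

* `centralChar_mem_of_not_mem_normal`: if a subgroup `Q` of a defect group of `B` has
  `C_G(Q) ≤ N ◁ G`, the central characters of `B` vanish modulo the local ideal outside `N`.
* `sameBlock_of_over_of_outside`: two characters over characters of `N` in the same block, whose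
  central characters vanish modulo the local ideal outside `N`, lie in the same block.
* `fong_block`: `K ≤ L` normal in `G`, `K` a `p'`-group, `L/K` a `p`-group, the centralizers of the
  Sylow `p`-subgroups of `L` contained in `L`, `θ ∈ Irr(K)` invariant in `G`: the characters of `G`
  over `θ` form one block, of full defect.
-/

set_option autoImplicit false
set_option linter.unusedSectionVars false
set_option linter.style.haveILetI false

namespace Cfsg.Agent.H79

open Cfsg Cfsg.Agent.H20 Cfsg.Agent.H4 Cfsg.Agent.Clifford Cfsg.Agent.H84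
open scoped ComplexConjugate

universe u

section FongBlock

variable {G : Type u} [Group G] [Fintype G] {p : ℕ} [Fact p.Prime] {M : Ideal AlgInt}

/-- If a subgroup `Q` of a defect group of `B` has `C_G(Q) ≤ N ◁ G`, then the central characters
of `B` vanish modulo the local ideal outside `N`. -/
theorem centralChar_mem_of_not_mem_normal (hM : IsPModular p M) (N : Subgroup G)
    [hN : N.Normal] (χ₀ : IrrCharacter G) (P : Subgroup G)
    (hP : IsDefectGroup p M (blockOf M χ₀.1) P) (Q : Subgroup G) (hQP : Q ≤ P)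
    (hC : Subgroup.centralizer (Q : Set G) ≤ N) (χ : IrrCharacter G)
    (hχ : χ ∈ blockOf M χ₀.1) (g : G) (hg : g ∉ N) :
    MemLocalIdeal M (centralChar χ.1 g) := by
  classical
  have hMp := isPrime_of_isPModular hM
  have hPp := isPGroup_of_isDefectGroup hP
  obtain ⟨y, hy, S, hPS⟩ := hP
  have hPy : P ≤ Subgroup.centralizer ({y} : Set G) := by
    rw [hPS]; exact sylow_map_le_centralizer y S
  by_contra hk
  have hbl : blockOf M χ.1 = blockOf M χ₀.1 := Cfsg.Agent.H80.blockOf_eq_of_mem hMp hχ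
  have hy' : ¬ MemLocalIdeal M (blockCoeff (blockOf M χ.1) y) := by
    rw [hbl]; exact hy.2.1
  obtain ⟨x, hconj, hPx⟩ := exists_conj_centralized_of_block hM χ g y hk hy' P hPp hPy
  have hxC : x ∈ Subgroup.centralizer (Q : Set G) := by
    rw [Subgroup.mem_centralizer_iff]
    intro u hu
    have h1 := hPx (hQP hu)
    rw [Subgroup.mem_centralizer_singleton_iff] at h1
    exact h1
  have hxN : x ∈ N := hC hxC
  obtain ⟨c, hc⟩ := isConj_iff.mp hconj
  apply hg
  have e : g = c⁻¹ * x * c⁻¹⁻¹ := by rw [← hc]; group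
  rw [e]
  exact hN.conj_mem x hxN c⁻¹

omit [Fact p.Prime] in
/-- Two characters over characters of `N` in the same block, whose central characters vanish
modulo the local ideal outside `N`, lie in the same block. -/
theorem sameBlock_of_over_of_outside (hM : M.IsPrime) (N : Subgroup G) [hN : N.Normal]
    [Fintype N] (χ χ' : IrrCharacter G) (ζ ζ' : IrrCharacter N)
    (hχ : classInner (fun n : N => χ.1 n) ζ.1 ≠ 0)
    (hχ' : classInner (fun n : N => χ'.1 n) ζ'.1 ≠ 0) (hζ : SameBlock M ζ.1 ζ'.1)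
    (hout : ∀ g : G, g ∉ N → MemLocalIdeal M (centralChar χ.1 g))
    (hout' : ∀ g : G, g ∉ N → MemLocalIdeal M (centralChar χ'.1 g)) :
    SameBlock M χ.1 χ'.1 := by
  intro g
  by_cases hg : g ∈ N
  · have h1 : centralChar χ.1 g = inducedCentralChar N ζ.1 g :=
      (Cfsg.Agent.S0963.result N χ ζ).mp hχ ⟨g, hg⟩
    have h2 : centralChar χ'.1 g = inducedCentralChar N ζ'.1 g :=
      (Cfsg.Agent.S0963.result N χ' ζ').mp hχ' ⟨g, hg⟩
    rw [h1, h2]
    exact inducedCentralChar_sub_mem_of_sameBlock_gen hM N ζ.1 ζ'.1 (irr_isClassFunction ζ)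
      (irr_isClassFunction ζ') hζ g
  · exact memLocalIdeal_sub hM (hout g hg) (hout' g hg)

/-- **Fong's theorem on the characters over an invariant character of a normal `p'`-subgroup.** -/
theorem fong_block (hM : IsPModular p M) (K L : Subgroup G) [hK : K.Normal] [hL : L.Normal]
    [Fintype K] (hKL : K ≤ L) (hKp : ¬ p ∣ Nat.card K) (hidx : ∃ a : ℕ, K.relIndex L = p ^ a)
    (hcon : ∀ S : Sylow p L,
      Subgroup.centralizer (((S : Subgroup L).map L.subtype : Subgroup G) : Set G) ≤ L)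
    (θ : IrrCharacter K) (hinv : ∀ g : G, conjIrr K g θ = θ) :
    ∃ χ₁ : IrrCharacter G,
      (∀ χ : IrrCharacter G,
        χ ∈ blockOf M χ₁.1 ↔ classInner (fun n : K => χ.1 n) θ.1 ≠ 0) ∧
      blockDefect p (blockOf M χ₁.1) = (Nat.card G).factorization p := by
  classical
  have hp : p.Prime := Fact.out
  have hMp := isPrime_of_isPModular hM
  letI : Fintype L := Fintype.ofFinite L
  letI : Fintype (K.subgroupOf L) := Fintype.ofFinite _
  haveI hK' : (K.subgroupOf L).Normal := hK.subgroupOf L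
  have hsing : blockOf M θ.1 = {θ} := by
    apply Cfsg.Agent.H81.blockOf_eq_singleton_of_defect_zero hM θ
    intro hdvd
    exact hKp (hdvd.trans (Nat.div_dvd_of_dvd (Cfsg.Agent.H81.irr_charDegree_dvd θ)))
  have hθst : ∀ (g : G) (μ : IrrCharacter K),
      conjIrr K g μ ∈ blockOf M θ.1 ↔ μ ∈ blockOf M θ.1 := by
    intro g μ
    have h1 := sameBlock_conjIrr (M := M) K g θ μ
    rw [hinv g] at h1
    exact h1
  obtain ⟨χ₁, ⟨μ₁, hμ₁, hχ₁⟩, hge⟩ := exists_covering_defect_ge K hM θ hθst
  have hμ₁θ : μ₁ = θ := by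
    rw [hsing] at hμ₁
    exact hμ₁
  rw [hμ₁θ] at hχ₁
  have hdef : blockDefect p (blockOf M χ₁.1) = (Nat.card G).factorization p := by
    apply le_antisymm
    · unfold blockDefect
      exact Nat.sub_le _ _
    · have h1 : K.index.factorization p = (Nat.card G).factorization p := by
        have h2 : Nat.card K * K.index = Nat.card G := K.card_mul_index
        rw [← h2, Nat.factorization_mul (Nat.card_pos.ne') K.index_ne_zero_of_finite,
          Finsupp.add_apply, Nat.factorization_eq_zero_of_not_dvd hKp, zero_add]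
      rw [← h1]
      exact le_trans (Nat.le_add_left _ _) hge
  have hbst' : ∀ (l : L) (ν' : IrrCharacter (K.subgroupOf L)),
      conjIrr (K.subgroupOf L) l ν' ∈ blockOf M (liftIrr L K hKL θ).1
        ↔ ν' ∈ blockOf M (liftIrr L K hKL θ).1 := by
    intro l ν'
    obtain ⟨ν, rfl⟩ := liftIrr_surjective L K hKL ν'
    rw [conjIrr_liftIrr]
    show SameBlock M (liftIrr L K hKL θ).1 (liftIrr L K hKL (conjIrr K (l : G) ν)).1
      ↔ SameBlock M (liftIrr L K hKL θ).1 (liftIrr L K hKL ν).1
    rw [sameBlock_liftIrr, sameBlock_liftIrr]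
    exact hθst (l : G) ν
  have hidx' : ∃ k : ℕ, (K.subgroupOf L).index = p ^ k := hidx
  have hkey : ∀ χ : IrrCharacter G, classInner (fun n : K => χ.1 n) θ.1 ≠ 0 →
      ∃ ζ : IrrCharacter L, classInner (fun l : L => χ.1 l) ζ.1 ≠ 0 ∧
        classInner (fun k : K.subgroupOf L => ζ.1 k) (liftIrr L K hKL θ).1 ≠ 0 ∧
        ∀ g : G, g ∉ L → MemLocalIdeal M (centralChar χ.1 g) := by
    intro χ hχ
    obtain ⟨ζ₀, hζ₀, hζ₀θ⟩ := exists_between L K hKL χ θ hχ
    refine ⟨ζ₀, hζ₀, hζ₀θ, ?_⟩
    obtain ⟨y, hy⟩ := Cfsg.Agent.S0906.result p M hM (blockOf M χ.1) ⟨χ, rfl⟩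
    obtain ⟨S⟩ := (inferInstance : Nonempty (Sylow p (Subgroup.centralizer ({y} : Set G))))
    obtain ⟨P, hPdef⟩ : ∃ P : Subgroup G,
        P = (S : Subgroup (Subgroup.centralizer ({y} : Set G))).map
          (Subgroup.centralizer ({y} : Set G)).subtype := ⟨_, rfl⟩
    have hP : IsDefectGroup p M (blockOf M χ.1) P := ⟨y, hy, S, hPdef⟩
    have hPp := isPGroup_of_isDefectGroup hP
    obtain ⟨ζ, hζst, ⟨μ, hμζ, hμover⟩, hζdef⟩ := knorr L hM P χ hP
    obtain ⟨g, hg⟩ := clifford_conj (N := L) χ.2 ζ₀.2 μ.2 hζ₀ hμover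
    have hμeq : μ = conjIrr L g ζ₀ := Subtype.ext hg
    have hd1 : blockDefect p (blockOf M ζ.1) = blockDefect p (blockOf M ζ₀.1) := by
      rw [← Cfsg.Agent.H80.blockOf_eq_of_mem hMp hμζ, hμeq, blockDefect_conjIrr]
    have hd2 : (Nat.card L).factorization p ≤ blockDefect p (blockOf M ζ₀.1) := by
      obtain ⟨ζ₁, ⟨μ', hμ', hζ₁⟩, hge'⟩ :=
        exists_covering_defect_ge (K.subgroupOf L) hM (liftIrr L K hKL θ) hbst'
      have hsame : SameBlock M ζ₁.1 ζ₀.1 :=
        sameBlock_of_over_sameBlock_of_index_pow (K.subgroupOf L) hM hidx' ζ₁ ζ₀ μ'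
          (liftIrr L K hKL θ) hζ₁ hζ₀θ (Cfsg.Agent.H80.sameBlock_symm hμ')
      rw [← Cfsg.Agent.H80.blockOf_eq_of_sameBlock hMp hsame] at hge'
      have h1 : (K.subgroupOf L).index.factorization p = (Nat.card L).factorization p := by
        have h2 : Nat.card (K.subgroupOf L) * (K.subgroupOf L).index = Nat.card L :=
          (K.subgroupOf L).card_mul_index
        have h3 : Nat.card (K.subgroupOf L) = Nat.card K :=
          Nat.card_congr (Subgroup.subgroupOfEquivOfLe hKL).toEquiv
        rw [← h2, Nat.factorization_mul (Nat.card_pos.ne')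
          (K.subgroupOf L).index_ne_zero_of_finite, Finsupp.add_apply, h3,
          Nat.factorization_eq_zero_of_not_dvd hKp, zero_add]
      rw [← h1]
      exact le_trans (Nat.le_add_left _ _) hge'
    have hcard : Nat.card ((P ⊓ L).subgroupOf L) = p ^ (Nat.card L).factorization p := by
      have h1 := card_defectGroup hM ζ _ hζdef
      rw [hd1] at h1
      have h2 : p ^ blockDefect p (blockOf M ζ₀.1) ∣ Nat.card L := by
        rw [← h1]; exact Subgroup.card_subgroup_dvd_card _
      have h3 : blockDefect p (blockOf M ζ₀.1) ≤ (Nat.card L).factorization p :=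
        (hp.pow_dvd_iff_le_factorization (Nat.card_pos.ne')).mp h2
      rw [h1, le_antisymm h3 hd2]
    obtain ⟨S₂, hS₂⟩ : ∃ S₂ : Sylow p L, (S₂ : Subgroup L) = (P ⊓ L).subgroupOf L :=
      ⟨Sylow.ofCard _ hcard, Sylow.coe_ofCard _ hcard⟩
    have hC : Subgroup.centralizer ((P ⊓ L : Subgroup G) : Set G) ≤ L := by
      have h1 := hcon S₂
      rw [hS₂, Subgroup.map_subgroupOf_eq_of_le inf_le_right] at h1
      exact h1
    intro g' hg'
    exact centralChar_mem_of_not_mem_normal hM L χ P hP (P ⊓ L) inf_le_left hC χ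
      (Cfsg.Agent.H80.mem_blockOf_self hMp χ) g' hg'
  have huniq : ∀ χ χ' : IrrCharacter G, classInner (fun n : K => χ.1 n) θ.1 ≠ 0 →
      classInner (fun n : K => χ'.1 n) θ.1 ≠ 0 → SameBlock M χ.1 χ'.1 := by
    intro χ χ' hχ hχ'
    obtain ⟨ζ, hζ, hζθ, hout⟩ := hkey χ hχ
    obtain ⟨ζ', hζ', hζ'θ, hout'⟩ := hkey χ' hχ'
    have hsame : SameBlock M ζ.1 ζ'.1 :=
      sameBlock_of_over_sameBlock_of_index_pow (K.subgroupOf L) hM hidx' ζ ζ' _ _ hζθ hζ'θ
        (Cfsg.Agent.H80.sameBlock_refl hMp _)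
    exact sameBlock_of_over_of_outside hMp L χ χ' ζ ζ' hζ hζ' hsame hout hout'
  refine ⟨χ₁, ?_, hdef⟩
  intro χ
  constructor
  · intro hχ
    obtain ⟨μ, hμ, hne⟩ := over_closed K hMp θ hθst χ₁
      ⟨θ, Cfsg.Agent.H80.mem_blockOf_self hMp θ, hχ₁⟩ χ hχ
    rw [hsing, Set.mem_singleton_iff] at hμ
    rw [hμ] at hne
    exact hne
  · intro hχ
    exact huniq χ₁ χ hχ₁ hχ

end FongBlock

end Cfsg.Agent.H79
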