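import Mathlib
import Cfsg.Agent.H59.Fx2Defs

/-!
# FX-CFG (helper79, for helper59, S3390): existence of the configuration `Cfg S α β`.
-/

set_option autoImplicit false

namespace Cfsg.Agent.H79.Fx2

open Cfsg.Agent.H59.Fx2 MulAction

universe u v

theorem cfg : StCfg.{u, v} := by
  intro G _ _ Ω _ _ hfix α S hpg hnt hnle
  have : Fact (Nat.Prime 2) := ⟨Nat.prime_two⟩
  have hnil : Group.IsNilpotent ↥S := hpg.isNilpotent
  have hNC := Group.normalizerCondition_of_isNilpotent (G := ↥S)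
  have hTlt : (S ⊓ stabilizer G α).subgroupOf S < ⊤ := by
    rw [lt_top_iff_ne_top]
    intro htop
    apply hnle
    intro s hs
    have h1 : (⟨s, hs⟩ : ↥S) ∈ (S ⊓ stabilizer G α).subgroupOf S := htop ▸ Subgroup.mem_top _
    rw [Subgroup.mem_subgroupOf] at h1
    exact h1.2
  have hlt := hNC _ hTlt
  obtain ⟨n, hnN, hnT⟩ := SetLike.exists_of_lt hlt
  have hnα : (n : G) • α ≠ α := by
    intro h1
    apply hnT
    rw [Subgroup.mem_subgroupOf]
    exact ⟨n.2, h1⟩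
  -- the normalizer property in terms of `G`
  have hnorm : ∀ t ∈ S, t • α = α ↔ ((n : G) * t * (n : G)⁻¹) • α = α := by
    intro t ht
    have h1 := (Subgroup.mem_normalizer_iff.mp hnN) ⟨t, ht⟩
    rw [Subgroup.mem_subgroupOf, Subgroup.mem_subgroupOf] at h1
    constructor
    · intro h2
      exact (h1.mp ⟨ht, h2⟩).2
    · intro h2
      have h3 : ((n * ⟨t, ht⟩ * n⁻¹ : ↥S) : G) ∈ S ⊓ stabilizer G α :=
        ⟨(n * ⟨t, ht⟩ * n⁻¹ : ↥S).2, h2⟩
      exact (h1.mpr h3).2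
  have hstab : S ⊓ stabilizer G ((n : G) • α) = S ⊓ stabilizer G α := by
    ext t
    rw [Subgroup.mem_inf, Subgroup.mem_inf, mem_stabilizer_iff, mem_stabilizer_iff]
    constructor
    · rintro ⟨ht, h2⟩
      refine ⟨ht, ?_⟩
      have ht' : (n : G)⁻¹ * t * (n : G) ∈ S := S.mul_mem (S.mul_mem (S.inv_mem n.2) ht) n.2
      have h3 : ((n : G)⁻¹ * t * (n : G)) • α = α := by
        rw [mul_smul, mul_smul, h2, inv_smul_smul]
      have h4 := (hnorm _ ht').mp h3
      have e : (n : G) * ((n : G)⁻¹ * t * (n : G)) * (n : G)⁻¹ = t := by group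
      rw [e] at h4
      exact h4
    · rintro ⟨ht, h2⟩
      refine ⟨ht, ?_⟩
      have ht' : (n : G)⁻¹ * t * (n : G) ∈ S := S.mul_mem (S.mul_mem (S.inv_mem n.2) ht) n.2
      have e : (n : G) * ((n : G)⁻¹ * t * (n : G)) * (n : G)⁻¹ = t := by group
      have h4 := (hnorm _ ht').mpr (by rw [e]; exact h2)
      rw [mul_smul, mul_smul, inv_smul_eq_iff] at h4
      exact h4
  refine ⟨(n : G) • α, ⟨hfix, hpg, hnα, hnt, hstab, ⟨n, n.2, rfl⟩, ?_⟩⟩
  intro t ht ht1 htα ω hω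
  have htβ : t • ((n : G) • α) = (n : G) • α := by
    have h1 : t ∈ S ⊓ stabilizer G ((n : G) • α) := hstab ▸ ⟨ht, htα⟩
    exact h1.2
  exact fix_three (hfix t ht1) (Ne.symm hnα) htα htβ hω

example : StCfg.{u, v} := cfg

end Cfsg.Agent.H79.Fx2
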