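import Mathlib
import Cfsg.Agent.H59.Fx2Defs

/-!
# FX-IDX (helper79, for helper59, S3390): orbit–stabilizer consequences of `Idx2`.
-/

set_option autoImplicit false

namespace Cfsg.Agent.H79.Fx2

open Cfsg.Agent.H59.Fx2 MulAction

universe u v

theorem idx : StIdx.{u, v} := by
  intro G _ _ Ω _ _ S α β h hI
  have horb : orbit ↥S α = {α, β} := by
    ext ω
    constructor
    · rintro ⟨s, rfl⟩
      rcases hI s.1 s.2 with h1 | h1
      · left; exact h1
      · right; exact h1
    · rintro (rfl | rfl)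
      · exact mem_orbit_self _
      · obtain ⟨s, hs, hsα⟩ := h.swap
        exact ⟨⟨s, hs⟩, hsα⟩
  have horbcard : Nat.card (orbit ↥S α) = 2 := by
    rw [Nat.card_coe_set_eq, horb, Set.ncard_pair h.ne.symm]
  have hstab : (S ⊓ stabilizer G α).subgroupOf S = stabilizer ↥S α := by
    ext s
    rw [Subgroup.mem_subgroupOf, Subgroup.mem_inf, mem_stabilizer_iff, mem_stabilizer_iff]
    constructor
    · rintro ⟨-, h2⟩
      exact h2
    · intro h2
      exact ⟨s.2, h2⟩
  have hcardT : Nat.card ((S ⊓ stabilizer G α).subgroupOf S)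
      = Nat.card ↥(S ⊓ stabilizer G α) :=
    Nat.card_congr (Subgroup.subgroupOfEquivOfLe inf_le_left).toEquiv
  have hidx' : ((S ⊓ stabilizer G α).subgroupOf S).index = 2 := by
    rw [hstab, index_stabilizer, ← Nat.card_coe_set_eq, horbcard]
  have hidx : (S ⊓ stabilizer G α).relIndex S = 2 := hidx'
  have hmul : Nat.card ↥S = 2 * Nat.card ↥(S ⊓ stabilizer G α) := by
    have h1 := ((S ⊓ stabilizer G α).subgroupOf S).index_mul_card
    rw [hidx', hcardT] at h1
    exact h1.symm
  have hT : 1 < Nat.card ↥(S ⊓ stabilizer G α) := (Subgroup.one_lt_card_iff_ne_bot _).mpr h.nt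
  refine ⟨hidx, by omega, hmul, horbcard, ?_⟩
  intro hF ω' hω'
  have hωα : ω' ≠ α := fun e => hω' (e ▸ mem_orbit_self _)
  have hωβ : ω' ≠ β := by
    intro e
    apply hω'
    rw [horb, e]
    exact Set.mem_insert_of_mem _ rfl
  have hstab' : stabilizer ↥S ω' = ⊥ := by
    rw [eq_bot_iff]
    intro y hy
    rw [Subgroup.mem_bot]
    apply Subtype.ext
    exact hF ω' hωα hωβ y.1 y.2 (mem_stabilizer_iff.mp hy)
  have h1 := index_stabilizer (G := ↥S) (x := ω')
  rw [hstab', Subgroup.index_bot] at h1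
  rw [Nat.card_coe_set_eq, ← h1]

example : StIdx.{u, v} := idx

end Cfsg.Agent.H79.Fx2
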