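import Cfsg.Agent.H23.IcDefs

set_option autoImplicit false
set_option maxRecDepth 100000

/-!
# IC-LOWC (piece of S5751): `Q (k+1) ≤ n_3 (Q k) n_3⁻¹`
-/

namespace Cfsg.Agent.H79.Ic

open Cfsg.Lie Cfsg.Agent.H23 Cfsg.Agent.H23.Ic

/-- Table fact: the reflection at the branch node keeps positivity on the positive roots of level
at least `2`, and lowers the level by at most `1`. -/
theorem lowC_tab : ∀ r < 240, chevE8.IsPosRoot r → 2 ≤ wN levC r →
    chevE8.IsPosRoot (chevE8.reflectRoot 3 r) ∧ wN levC r - 1 ≤ wN levC (chevE8.reflectRoot 3 r) := by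
  decide +kernel

theorem lowC : StLowC := by
  intro k hk
  unfold Q
  apply rootGen_le hS
  rintro r ⟨hpos, hlev⟩ t
  have hr : r < 240 := hpos.1
  have hk' : (1 : ℤ) ≤ (k : ℤ) := by exact_mod_cast hk
  obtain ⟨h1, h2⟩ := lowC_tab r hr hpos (by push_cast at hlev; omega)
  rw [Subgroup.mem_map]
  refine ⟨(nn 3)⁻¹ * xU hS r t * nn 3, ?_, ?_⟩
  · unfold nn
    rw [nU_conj' hS hPk.semN hPk.tab 3 (by decide) r hpos.1 t]
    exact xU_mem_rootGen hS _ _ ⟨h1, by push_cast at hlev; omega⟩ _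
  · simp only [MulEquiv.coe_toMonoidHom, MulAut.conj_apply]
    group

example : Cfsg.Agent.H23.Ic.StLowC := lowC

end Cfsg.Agent.H79.Ic

#print axioms Cfsg.Agent.H79.Ic.lowC
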