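import Cfsg.Agent.H23.IcDefs

set_option autoImplicit false
set_option maxRecDepth 100000

/-!
# IC-NOTIN (piece of S5751): `n_3 ∉ P_J`
-/

namespace Cfsg.Agent.H79.Ic

open Cfsg.Lie Cfsg.Agent.H23 Cfsg.Agent.H23.Ic

theorem notin_pos : chevE8.IsPosRoot (chevE8.simple 3) := by decide +kernel

theorem notin_neg : chevE8.IsNegRoot (chevE8.neg (chevE8.simple 3)) := by decide +kernel

theorem notin_refl : chevE8.reflectRoot 3 (chevE8.simple 3) = chevE8.neg (chevE8.simple 3) := by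
  decide +kernel

theorem notin_coef : (chevE8.coroot.getD (chevE8.simple 3) #[]).getD 3 0 ≠ 0 := by decide +kernel

theorem notin : StNotin := by
  intro h
  have hV : SemV chevE8 (ZMod 2) := trin_E8.semV chk_E8.tblOK (ZMod 2)
  have hnorm := (levi_all (F := ZMod 2) chevE8 (by simp) JJ).1
  have hn : nn 3 ∈ Subgroup.normalizer (chevE8.unipotentRadical (ZMod 2) JJ : Set GLE) := hnorm h
  have hout : ¬ chevE8.InRootSub JJ (chevE8.simple 3) := by
    intro hh
    exact notin_coef (hh.2 3 (by decide) (by simp [JJ]))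
  have hx : xU hS (chevE8.simple 3) 1 ∈ chevE8.unipotentRadical (ZMod 2) JJ := by
    rw [unipotentRadical_eq]
    exact xU_mem_rootGen hS _ _ ⟨notin_pos, hout⟩ 1
  have hx2 := (Subgroup.mem_normalizer_iff.mp hn _).mp hx
  unfold nn at hx2
  rw [nU_conj hS hPk.semN 3 (by decide) _ notin_pos.1 1, notin_refl] at hx2
  have hUJ : chevE8.unipotentRadical (ZMod 2) JJ ≤ chevE8.posUnipotent (ZMod 2) := by
    rw [unipotentRadical_eq, posUnipotent_eq]
    exact rootGen_mono hS _ _ (fun r hr => hr.1)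
  have h1 := hUJ hx2
  have h2 : xU hS (chevE8.neg (chevE8.simple 3))
      ((((fun i s => etaBit (etaE8.getD i 0) s) 3 (chevE8.simple 3) : ℤ) : ZMod 2) * 1) ∈
      chevE8.posUnipotent (ZMod 2) ⊓ chevE8.negUnipotent (ZMod 2) :=
    ⟨h1, by rw [negUnipotent_eq]; exact xU_mem_rootGen hS _ _ notin_neg _⟩
  rw [pos_inf_neg hS hV, Subgroup.mem_bot] at h2
  have h3 := xU_eq_one_imp hS hPk.tab hPk.tab2 _ notin_neg.1 _ h2
  have h4 := eta_mul_self (F := ZMod 2) hPk.semN 3 (chevE8.simple 3)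
  rw [mul_one] at h3
  rw [h3, mul_zero] at h4
  exact zero_ne_one h4

example : Cfsg.Agent.H23.Ic.StNotin := notin

end Cfsg.Agent.H79.Ic

#print axioms Cfsg.Agent.H79.Ic.notin
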