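import Mathlib
import Cfsg.Prelude.Def_Blocks
import Cfsg.Agent.H79.CentralProduct
import Cfsg.Agent.H81.DefZero
import Cfsg.Agent.H81.RankDef
import Cfsg.Agent.H81.Reg
import Cfsg.Agent.H4.IrrCount

/-!
# Blocks of `G = P C_G(P)` with defect group `P` (helper79)

Let `P` be a `p`-subgroup with `G = P C_G(P)` and `B` a block with defect group `P`.

* `regular_mem_centralizer`: `p`-regular elements lie in `C_G(P)`.
* `degree_of_ker`: a member of `B` with `P` in its kernel has degree with the `p`-part of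
  `|G : P|`, and its deflation to `G ⧸ P` has defect zero.
* `canonical_unique`: `B` has at most one member with `P` in its kernel.
* `component_unique`: a member of `B` is determined by its `P`-component.
* `exists_component`: every irreducible character of `P` is the `P`-component of a member of `B`.
-/

set_option autoImplicit false
set_option linter.unusedSectionVars false

namespace Cfsg.Agent.H79

open Cfsg Cfsg.Agent.H20 Cfsg.Agent.H4
open scoped ComplexConjugate

universe u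

section

variable {G : Type u} [Group G]

/-- A `p`-regular element is a power of its `p ^ k`-th power. -/
theorem pow_pow_totient_eq {p : ℕ} (hp : p.Prime) (g : G) (hreg : ¬ p ∣ orderOf g)
    (hpos : 0 < orderOf g) (k : ℕ) :
    (g ^ (p ^ k)) ^ ((p ^ k) ^ (Nat.totient (orderOf g) - 1)) = g := by
  have hcop : Nat.Coprime (p ^ k) (orderOf g) :=
    Nat.Coprime.pow_left k ((Nat.Prime.coprime_iff_not_dvd hp).mpr hreg)
  have hφ : 0 < Nat.totient (orderOf g) := Nat.totient_pos.mpr hpos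
  have h4 : g ^ ((p ^ k) ^ Nat.totient (orderOf g)) = g := by
    have h5 : (p ^ k) ^ Nat.totient (orderOf g) ≡ 1 [MOD orderOf g] := Nat.ModEq.pow_totient hcop
    have h6 := pow_eq_pow_iff_modEq.mpr h5
    rw [h6, pow_one]
  rw [← pow_mul, ← pow_succ']
  have : Nat.totient (orderOf g) - 1 + 1 = Nat.totient (orderOf g) := by omega
  rw [this]
  exact h4

/-- In `G = P C_G(P)` with `P` a `p`-group, the `p`-regular elements lie in `C_G(P)`. -/
theorem regular_mem_centralizer [Finite G] {p : ℕ} (hp : p.Prime) (P : Subgroup G)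
    (hP : IsPGroup p P) (hG : P ⊔ Subgroup.centralizer (P : Set G) = ⊤) (g : G)
    (hreg : ¬ p ∣ orderOf g) : g ∈ Subgroup.centralizer (P : Set G) := by
  obtain ⟨y, x, hg⟩ := exists_mul_of_sup_eq_top P hG g
  obtain ⟨k, hk⟩ := hP y
  have hk' : (y : G) ^ (p ^ k) = 1 := by
    have := congrArg Subtype.val hk
    simpa using this
  have hcomm : Commute (y : G) (x : G) := Subgroup.mem_centralizer_iff.mp x.2 y y.2
  have h1 : g ^ (p ^ k) = (x : G) ^ (p ^ k) := by
    rw [hg, hcomm.mul_pow, hk', one_mul]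
  rw [← pow_pow_totient_eq hp g hreg (orderOf_pos g) k, h1]
  exact Subgroup.pow_mem _ (Subgroup.pow_mem _ x.2 _) _

/-- A character with the normal subgroup `P` in its kernel whose degree is divisible by the
`p`-part of `|G : P|` has degree with exactly that `p`-part, and its deflation has defect zero. -/
theorem degree_of_ker [Finite G] {p : ℕ} (hp : p.Prime) (P : Subgroup G) [P.Normal]
    (θ : IrrCharacter (G ⧸ P))
    (hge : P.index.factorization p ≤ (charDegree (θ : G ⧸ P → ℂ)).factorization p) :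
    (charDegree (θ : G ⧸ P → ℂ)).factorization p = P.index.factorization p ∧
      ¬ p ∣ Nat.card (G ⧸ P) / charDegree (θ : G ⧸ P → ℂ) := by
  have hdvd : charDegree (θ : G ⧸ P → ℂ) ∣ P.index := Cfsg.Agent.H81.irr_charDegree_dvd θ
  have hIne : P.index ≠ 0 := Subgroup.index_ne_zero_of_finite
  refine ⟨le_antisymm ?_ hge, ?_⟩
  · exact (hp.pow_dvd_iff_le_factorization hIne).mp ((Nat.ordProj_dvd _ _).trans hdvd)
  · exact (Cfsg.Agent.H81.factorization_le_iff_not_dvd_div hp θ).mp hge

/-- In `G = P C_G(P)`, a block has at most one member with `P` in its kernel and degree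
divisible by the `p`-part of `|G : P|`. -/
theorem canonical_unique [Finite G] {M : Ideal AlgInt} {p : ℕ} (hM : IsPModular p M)
    (P : Subgroup G) (hP : IsPGroup p P) (hG : P ⊔ Subgroup.centralizer (P : Set G) = ⊤)
    (θ θ' : IrrCharacter G) (hsame : SameBlock M (θ : G → ℂ) (θ' : G → ℂ))
    (hker : ∀ x ∈ P, (θ : G → ℂ) x = (θ : G → ℂ) 1)
    (hker' : ∀ x ∈ P, (θ' : G → ℂ) x = (θ' : G → ℂ) 1)
    (hge : P.index.factorization p ≤ (charDegree (θ : G → ℂ)).factorization p) : θ' = θ := by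
  have hp : p.Prime := hM.1
  have hPn : P.Normal := normal_of_sup_centralizer_eq_top P hG
  obtain ⟨θb, hθb⟩ := Cfsg.Agent.H82.exists_deflate P θ hker
  obtain ⟨θb', hθb'⟩ := Cfsg.Agent.H82.exists_deflate P θ' hker'
  have hge' : P.index.factorization p ≤ (charDegree (θb : G ⧸ P → ℂ)).factorization p := by
    rw [← Cfsg.Agent.H82.charDegree_inflate P θb, hθb]
    exact hge
  obtain ⟨-, hnd⟩ := degree_of_ker hp P θb hge'
  have hreg : ∀ q : G ⧸ P, ¬ p ∣ orderOf q →
      (∃ g : G, (g : G ⧸ P) = q ∧ ¬ p ∣ orderOf g ∧ g ∈ Subgroup.centralizer (P : Set G)) ∨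
      (∀ θ : IrrCharacter (G ⧸ P), MemLocalIdeal M (centralChar (θ : G ⧸ P → ℂ) q)) := by
    intro q hq
    left
    obtain ⟨g, hgq, hgreg⟩ := Cfsg.Agent.H84.exists_regular_lift hp P q hq
    exact ⟨g, hgq, hgreg, regular_mem_centralizer hp P hP hG g hgreg⟩
  have hsame' : SameBlock M ((θb : G ⧸ P → ℂ) ∘ (QuotientGroup.mk : G → G ⧸ P))
      ((θb' : G ⧸ P → ℂ) ∘ (QuotientGroup.mk : G → G ⧸ P)) := by
    have e1 : (θb : G ⧸ P → ℂ) ∘ (QuotientGroup.mk : G → G ⧸ P) = (θ : G → ℂ) := by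
      rw [← hθb]; rfl
    have e2 : (θb' : G ⧸ P → ℂ) ∘ (QuotientGroup.mk : G → G ⧸ P) = (θ' : G → ℂ) := by
      rw [← hθb']; rfl
    rw [e1, e2]
    exact hsame
  have h1 := Cfsg.Agent.H84.sameBlock_of_comp_mk hM P hP hreg θb θb' hsame'
  have h2 : θb' ∈ blockOf M (θb : G ⧸ P → ℂ) := h1
  rw [Cfsg.Agent.H81.blockOf_eq_singleton_of_defect_zero hM θb hnd] at h2
  rw [← hθb, ← hθb', Set.mem_singleton_iff.mp h2]

end

section Components

variable {G : Type u} [Group G]

/-- `P ∩ C_G(P)` is central in `C_G(P)`. -/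
theorem subgroupOf_centralizer_le_center (P : Subgroup G) :
    P.subgroupOf (Subgroup.centralizer (P : Set G))
      ≤ Subgroup.center (Subgroup.centralizer (P : Set G)) := by
  intro z hz
  rw [Subgroup.mem_center_iff]
  intro c
  apply Subtype.ext
  exact (Subgroup.mem_centralizer_iff.mp c.2 (z : G) (Subgroup.mem_subgroupOf.mp hz)).symm

/-- The index of `P ∩ C_G(P)` in `C_G(P)` is the index of `P` in `G = P C_G(P)`. -/
theorem index_subgroupOf_centralizer (P : Subgroup G)
    (hG : P ⊔ Subgroup.centralizer (P : Set G) = ⊤) :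
    (P.subgroupOf (Subgroup.centralizer (P : Set G))).index = P.index := by
  haveI hPn : P.Normal := normal_of_sup_centralizer_eq_top P hG
  have h1 : P.relIndex (Subgroup.centralizer (P : Set G) ⊔ P)
      = P.relIndex (Subgroup.centralizer (P : Set G)) :=
    Subgroup.relIndex_sup_right (Subgroup.centralizer (P : Set G)) P
  rw [sup_comm, hG, Subgroup.relIndex_top_right] at h1
  exact h1.symm

/-- The components of a character with `P` in its kernel: the `P`-component is trivial and the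
`C_G(P)`-component is the restriction. -/
theorem component_of_ker [Finite G] (P : Subgroup G) (θ : IrrCharacter G) (ζ : IrrCharacter P)
    (ψ : IrrCharacter (Subgroup.centralizer (P : Set G)))
    (h : ∀ (y : P) (x : Subgroup.centralizer (P : Set G)),
      (θ : G → ℂ) ((y : G) * (x : G)) = (ζ : P → ℂ) y * ψ.1 x)
    (hker : ∀ x ∈ P, (θ : G → ℂ) x = (θ : G → ℂ) 1) :
    (ζ : P → ℂ) 1 = 1 ∧ ∀ x : Subgroup.centralizer (P : Set G), ψ.1 x = (θ : G → ℂ) (x : G) := by
  classical
  have hfP : Fintype P := Fintype.ofFinite P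
  have hψ1 : ψ.1 1 ≠ 0 := Cfsg.Agent.H4.irr_one_ne_zero ψ
  have hPne : (Nat.card P : ℂ) ≠ 0 := by exact_mod_cast (Nat.card_pos (α := P)).ne'
  have e1 : (θ : G → ℂ) 1 = (ζ : P → ℂ) 1 * ψ.1 1 := by
    have := h 1 1
    rwa [Subgroup.coe_one, Subgroup.coe_one, one_mul] at this
  have hconst : ∀ y : P, (ζ : P → ℂ) y = (ζ : P → ℂ) 1 := by
    intro y
    have e2 := h y 1
    rw [Subgroup.coe_one, mul_one, hker y y.2, e1] at e2
    exact (mul_right_cancel₀ hψ1 e2).symm
  have hone : (ζ : P → ℂ) 1 = 1 := by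
    have e3 := irr_inner_self ζ
    unfold classInner at e3
    rw [inv_mul_eq_iff_eq_mul₀ hPne, mul_one] at e3
    have e4 : ∑ y : P, (ζ : P → ℂ) y * conj ((ζ : P → ℂ) y)
        = (Nat.card P : ℂ) * ((ζ : P → ℂ) 1 * conj ((ζ : P → ℂ) 1)) := by
      rw [Finset.sum_congr rfl (fun y _ => by rw [hconst y]), Finset.sum_const, nsmul_eq_mul,
        Finset.card_univ, Nat.card_eq_fintype_card]
    rw [e4] at e3
    have e5 : (ζ : P → ℂ) 1 * conj ((ζ : P → ℂ) 1) = 1 := by
      have e6 : (Nat.card P : ℂ) * ((ζ : P → ℂ) 1 * conj ((ζ : P → ℂ) 1))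
          = (Nat.card P : ℂ) * 1 := by rw [e3, mul_one]
      exact mul_left_cancel₀ hPne e6
    rw [Cfsg.Agent.H82.irr_one_eq_charDegree ζ, Complex.conj_natCast] at e5
    have e7 : charDegree (ζ : P → ℂ) * charDegree (ζ : P → ℂ) = 1 * 1 := by exact_mod_cast e5
    rw [Cfsg.Agent.H82.irr_one_eq_charDegree ζ, Nat.mul_self_inj.mp e7, Nat.cast_one]
  refine ⟨hone, ?_⟩
  intro x
  have e8 := h 1 x
  rw [Subgroup.coe_one, one_mul, hone, one_mul] at e8
  exact e8.symm

/-- The `C_G(P)`-component of a character lies over the normalized `P`-component on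
`P ∩ C_G(P)`. -/
theorem component_over (P : Subgroup G) (χ : IrrCharacter G) (ζ : IrrCharacter P)
    (ψ : IrrCharacter (Subgroup.centralizer (P : Set G)))
    (h : ∀ (y : P) (x : Subgroup.centralizer (P : Set G)),
      (χ : G → ℂ) ((y : G) * (x : G)) = (ζ : P → ℂ) y * ψ.1 x)
    (z : P.subgroupOf (Subgroup.centralizer (P : Set G)))
    (x : Subgroup.centralizer (P : Set G)) :
    ψ.1 ((z : Subgroup.centralizer (P : Set G)) * x) * (ζ : P → ℂ) 1
      = (ζ : P → ℂ) ⟨((z : Subgroup.centralizer (P : Set G)) : G), Subgroup.mem_subgroupOf.mp z.2⟩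
        * ψ.1 x := by
  have e1 := h ⟨((z : Subgroup.centralizer (P : Set G)) : G), Subgroup.mem_subgroupOf.mp z.2⟩ x
  have e2 := h 1 ((z : Subgroup.centralizer (P : Set G)) * x)
  rw [Subgroup.coe_one, one_mul] at e2
  have e3 : (((z : Subgroup.centralizer (P : Set G)) * x : Subgroup.centralizer (P : Set G)) : G)
      = ((z : Subgroup.centralizer (P : Set G)) : G) * (x : G) := rfl
  rw [e3] at e2
  rw [← e1, e2, mul_comm]

/-- In `G = P C_G(P)`, a member of the block of a canonical character `θ` (with `P` in its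
kernel and of height zero) is determined by its `P`-component. -/
theorem component_unique [Finite G] {M : Ideal AlgInt} {p : ℕ} (hM : IsPModular p M)
    (P : Subgroup G) (hP : IsPGroup p P) (hG : P ⊔ Subgroup.centralizer (P : Set G) = ⊤)
    (θ χ χ' : IrrCharacter G) (hθker : ∀ x ∈ P, (θ : G → ℂ) x = (θ : G → ℂ) 1)
    (hθdeg : (charDegree (θ : G → ℂ)).factorization p = P.index.factorization p)
    (hχ : SameBlock M (θ : G → ℂ) (χ : G → ℂ)) (hχ' : SameBlock M (θ : G → ℂ) (χ' : G → ℂ))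
    (ζ : IrrCharacter P) (ψ ψ' : IrrCharacter (Subgroup.centralizer (P : Set G)))
    (h : ∀ (y : P) (x : Subgroup.centralizer (P : Set G)),
      (χ : G → ℂ) ((y : G) * (x : G)) = (ζ : P → ℂ) y * ψ.1 x)
    (h' : ∀ (y : P) (x : Subgroup.centralizer (P : Set G)),
      (χ' : G → ℂ) ((y : G) * (x : G)) = (ζ : P → ℂ) y * ψ'.1 x) : ψ = ψ' ∧ χ = χ' := by
  classical
  obtain ⟨ζθ, ψθ, hθ⟩ := exists_prod_decomp P hG θ
  obtain ⟨-, hψθ⟩ := component_of_ker P θ ζθ ψθ hθ hθker
  obtain ⟨Z, hZdef⟩ : ∃ Z : Subgroup (Subgroup.centralizer (P : Set G)),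
      Z = P.subgroupOf (Subgroup.centralizer (P : Set G)) := ⟨_, rfl⟩
  have hZp : IsPGroup p Z := by rw [hZdef]; exact hP.comap_subtype
  have hZc : Z ≤ Subgroup.center (Subgroup.centralizer (P : Set G)) := by
    rw [hZdef]; exact subgroupOf_centralizer_le_center P
  have hZidx : Z.index = P.index := by rw [hZdef]; exact index_subgroupOf_centralizer P hG
  have hdeg : (charDegree ψθ.1).factorization p = Z.index.factorization p := by
    have e1 : charDegree ψθ.1 = charDegree (θ : G → ℂ) := by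
      show ⌊(ψθ.1 1).re⌋₊ = ⌊((θ : G → ℂ) 1).re⌋₊
      rw [hψθ 1]
      rfl
    rw [e1, hZidx]
    exact hθdeg
  have hs1 : SameBlock M ψθ.1 ψ.1 := sameBlock_of_decomp P hG θ χ ζθ ζ ψθ ψ hθ h hχ
  have hs2 : SameBlock M ψθ.1 ψ'.1 := sameBlock_of_decomp P hG θ χ' ζθ ζ ψθ ψ' hθ h' hχ'
  have hfZ : Fintype Z := Fintype.ofFinite _
  have hfC : Fintype (Subgroup.centralizer (P : Set G)) := Fintype.ofFinite _
  have hζ1 : (ζ : P → ℂ) 1 ≠ 0 := Cfsg.Agent.H4.irr_one_ne_zero ζ
  have hψ1 : ψ.1 1 ≠ 0 := Cfsg.Agent.H4.irr_one_ne_zero ψ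
  obtain ⟨μ, hμ⟩ := exists_constituent_res Z ψ
  have hover : OverOn Z (μ : Z → ℂ) ψ.1 := by
    rcases sum_twist Z hZc μ ψ with ⟨-, hover, -⟩ | ⟨hzero, -⟩
    · exact hover
    · exact absurd hzero hμ
  -- values of `μ`
  have hmem : ∀ z : Z, ((z : Subgroup.centralizer (P : Set G)) : G) ∈ P := by
    intro z
    have hle : Z ≤ P.subgroupOf (Subgroup.centralizer (P : Set G)) := hZdef.le
    exact Subgroup.mem_subgroupOf.mp (hle z.2)
  have hcomp : ∀ (ψ₁ : IrrCharacter (Subgroup.centralizer (P : Set G))) (χ₁ : IrrCharacter G),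
      (∀ (y : P) (x : Subgroup.centralizer (P : Set G)),
        (χ₁ : G → ℂ) ((y : G) * (x : G)) = (ζ : P → ℂ) y * ψ₁.1 x) →
      ∀ (z : Z) (x : Subgroup.centralizer (P : Set G)),
        ψ₁.1 ((z : Subgroup.centralizer (P : Set G)) * x) * (ζ : P → ℂ) 1
          = (ζ : P → ℂ) ⟨((z : Subgroup.centralizer (P : Set G)) : G), hmem z⟩ * ψ₁.1 x := by
    intro ψ₁ χ₁ h₁ z x
    have e1 := h₁ ⟨((z : Subgroup.centralizer (P : Set G)) : G), hmem z⟩ x
    have e2 := h₁ 1 ((z : Subgroup.centralizer (P : Set G)) * x)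
    rw [Subgroup.coe_one, one_mul] at e2
    have e3 : (((z : Subgroup.centralizer (P : Set G)) * x :
        Subgroup.centralizer (P : Set G)) : G)
        = ((z : Subgroup.centralizer (P : Set G)) : G) * (x : G) := rfl
    rw [e3] at e2
    rw [← e1, e2, mul_comm]
  have hμval : ∀ z : Z, (μ : Z → ℂ) z * (ζ : P → ℂ) 1
      = (ζ : P → ℂ) ⟨((z : Subgroup.centralizer (P : Set G)) : G), hmem z⟩ := by
    intro z
    have e1 := hover z 1
    have e2 := hcomp ψ χ h z 1
    rw [e1] at e2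
    have e3 : ((μ : Z → ℂ) z * (ζ : P → ℂ) 1) * ψ.1 1
        = (ζ : P → ℂ) ⟨((z : Subgroup.centralizer (P : Set G)) : G), hmem z⟩ * ψ.1 1 := by
      rw [← e2]
      ring
    exact mul_right_cancel₀ hψ1 e3
  have hover' : OverOn Z (μ : Z → ℂ) ψ'.1 := by
    intro z x
    have e1 := hcomp ψ' χ' h' z x
    rw [← hμval z] at e1
    have e2 : ψ'.1 ((z : Subgroup.centralizer (P : Set G)) * x) * (ζ : P → ℂ) 1
        = ((μ : Z → ℂ) z * ψ'.1 x) * (ζ : P → ℂ) 1 := by
      rw [e1]
      ring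
    exact mul_right_cancel₀ hζ1 e2
  obtain ⟨ψ₀, -, -, huniq, -⟩ := exists_unique_over hM Z hZp hZc ψθ hdeg μ
  have e1 : ψ = ψ₀ := huniq ψ hs1 hover
  have e2 : ψ' = ψ₀ := huniq ψ' hs2 hover'
  refine ⟨e1.trans e2.symm, ?_⟩
  apply Subtype.ext
  funext g
  obtain ⟨y, x, rfl⟩ := exists_mul_of_sup_eq_top P hG g
  rw [h y x, h' y x, e1, e2]

/-- In `G = P C_G(P)`, every irreducible character of the `p`-group `P` is the `P`-component of
a member of any given block. -/
theorem exists_component [Finite G] {M : Ideal AlgInt} {p : ℕ} (hM : IsPModular p M)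
    (P : Subgroup G) (hP : IsPGroup p P) (χ₀ : IrrCharacter G) (ζ : IrrCharacter P)
    (ζof : IrrCharacter G → IrrCharacter P)
    (ψof : IrrCharacter G → IrrCharacter (Subgroup.centralizer (P : Set G)))
    (hof : ∀ (χ : IrrCharacter G) (y : P) (x : Subgroup.centralizer (P : Set G)),
      (χ : G → ℂ) ((y : G) * (x : G)) = (ζof χ : P → ℂ) y * (ψof χ).1 x) :
    ∃ χ ∈ blockOf M (χ₀ : G → ℂ), ζof χ = ζ := by
  classical
  have hfG : Fintype G := Fintype.ofFinite G
  have hfP : Fintype P := Fintype.ofFinite P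
  let _ : Fintype (IrrCharacter G) := fintypeIrr G
  have hp : p.Prime := hM.1
  haveI hfact : Fact p.Prime := ⟨hp⟩
  have hMp := isPrime_of_isPModular hM
  have hGne : (Nat.card G : ℂ) ≠ 0 := by exact_mod_cast (Nat.card_pos (α := G)).ne'
  by_contra hall
  push Not at hall
  have hS1 : ∑ y : P, (ζ : P → ℂ) y *
      ((Nat.card G : ℂ) * blockCoeff (blockOf M (χ₀ : G → ℂ)) (y : G))
      = (ζ : P → ℂ) 1 * ((Nat.card G : ℂ) * blockCoeff (blockOf M (χ₀ : G → ℂ)) 1) := by
    rw [Finset.sum_eq_single (1 : P)]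
    · rw [Subgroup.coe_one]
    · intro y _ hy
      obtain ⟨k, hk⟩ := (IsPGroup.iff_orderOf.mp hP) y
      have hk0 : k ≠ 0 := by
        rintro rfl
        rw [pow_zero, orderOf_eq_one_iff] at hk
        exact hy hk
      have hsing : p ∣ orderOf (y : G) := by
        rw [Subgroup.orderOf_coe, hk]
        exact dvd_pow_self p hk0
      rw [Cfsg.Agent.H84.blockCoeff_eq_zero_of_singular hM χ₀ _ hsing, mul_zero, mul_zero]
    · intro h; exact absurd (Finset.mem_univ _) h
  have hS2 : ∑ y : P, (ζ : P → ℂ) y *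
      ((Nat.card G : ℂ) * blockCoeff (blockOf M (χ₀ : G → ℂ)) (y : G)) = 0 := by
    have e1 : ∀ y : P, (ζ : P → ℂ) y *
        ((Nat.card G : ℂ) * blockCoeff (blockOf M (χ₀ : G → ℂ)) (y : G))
        = ∑ χ : IrrCharacter G, (if χ ∈ blockOf M (χ₀ : G → ℂ)
            then (χ : G → ℂ) 1 * ((ζ : P → ℂ) y * conj ((χ : G → ℂ) (y : G))) else 0) := by
      intro y
      rw [blockCoeff_eq, ← mul_assoc (Nat.card G : ℂ), mul_inv_cancel₀ hGne, one_mul,
        Finset.mul_sum]
      apply Finset.sum_congr rfl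
      intro χ _
      split_ifs
      · ring
      · rw [mul_zero]
    rw [Finset.sum_congr rfl (fun y _ => e1 y), Finset.sum_comm]
    apply Finset.sum_eq_zero
    intro χ _
    by_cases hχ : χ ∈ blockOf M (χ₀ : G → ℂ)
    · simp only [if_pos hχ]
      rw [← Finset.mul_sum]
      have e2 : ∑ y : P, (ζ : P → ℂ) y * conj ((χ : G → ℂ) (y : G))
          = conj ((ψof χ).1 1) * ∑ y : P, (ζ : P → ℂ) y * conj ((ζof χ : P → ℂ) y) := by
        rw [Finset.mul_sum]
        apply Finset.sum_congr rfl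
        intro y _
        have e3 := hof χ y 1
        rw [Subgroup.coe_one, mul_one] at e3
        rw [e3, map_mul]
        ring
      have e4 : ∑ y : P, (ζ : P → ℂ) y * conj ((ζof χ : P → ℂ) y) = 0 := by
        have e5 := Cfsg.Agent.H4.irr_inner_ne (fun h => hall χ hχ h.symm)
        unfold classInner at e5
        rcases mul_eq_zero.mp e5 with h | h
        · have hPne : (Nat.card P : ℂ) ≠ 0 := by exact_mod_cast (Nat.card_pos (α := P)).ne'
          exact absurd (inv_eq_zero.mp h) hPne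
        · exact h
      rw [e2, e4, mul_zero, mul_zero]
    · simp only [if_neg hχ]
      exact Finset.sum_const_zero
  rw [hS2] at hS1
  have h1 := Cfsg.Agent.H84.blockCoeff_one_ne_zero hMp χ₀
  have h2 : (ζ : P → ℂ) 1 ≠ 0 := Cfsg.Agent.H4.irr_one_ne_zero ζ
  exact mul_ne_zero h2 (mul_ne_zero hGne h1) hS1.symm

/-- In `G = P C_G(P)`, a block with defect group `P` has as many members as `P` has conjugacy
classes. -/
theorem card_block_eq_card_conjClasses [Finite G] {M : Ideal AlgInt} {p : ℕ}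
    (hM : IsPModular p M) (P : Subgroup G) (hP : IsPGroup p P)
    (hG : P ⊔ Subgroup.centralizer (P : Set G) = ⊤) (χ₀ : IrrCharacter G)
    (hD : IsDefectGroup p M (blockOf M (χ₀ : G → ℂ)) P) :
    Nat.card (blockOf M (χ₀ : G → ℂ)) = Nat.card (ConjClasses P) := by
  classical
  have hfG : Fintype G := Fintype.ofFinite G
  have hp : p.Prime := hM.1
  have hMp := isPrime_of_isPModular hM
  have hPn : P.Normal := normal_of_sup_centralizer_eq_top P hG
  obtain ⟨θ, hθB, hθker⟩ := Cfsg.Agent.H84.exists_mem_block_ker hM P hP χ₀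
  obtain ⟨-, hge⟩ := exists_height_zero_of_defectGroup hM χ₀ P hD
  obtain ⟨θb, hθb⟩ := Cfsg.Agent.H82.exists_deflate P θ hθker
  have hθdeg : (charDegree (θ : G → ℂ)).factorization p = P.index.factorization p := by
    have h1 := (degree_of_ker hp P θb (by
      rw [← Cfsg.Agent.H82.charDegree_inflate P θb, hθb]
      exact hge θ hθB)).1
    rw [← Cfsg.Agent.H82.charDegree_inflate P θb, hθb] at h1
    exact h1
  choose ζof ψof hof using exists_prod_decomp P hG
  have hsame : ∀ χ ∈ blockOf M (χ₀ : G → ℂ), SameBlock M (θ : G → ℂ) (χ : G → ℂ) :=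
    fun χ hχ => Cfsg.Agent.H80.sameBlock_trans hMp (Cfsg.Agent.H80.sameBlock_symm hθB) hχ
  have hinj : Function.Injective
      (fun χ : blockOf M (χ₀ : G → ℂ) => ζof (χ : IrrCharacter G)) := by
    intro χ χ' h
    have h1 : ζof (χ : IrrCharacter G) = ζof (χ' : IrrCharacter G) := h
    apply Subtype.ext
    exact (component_unique hM P hP hG θ χ.1 χ'.1 hθker hθdeg (hsame _ χ.2) (hsame _ χ'.2)
      (ζof χ.1) (ψof χ.1) (ψof χ'.1) (hof χ.1) (fun y x => by rw [h1]; exact hof χ'.1 y x)).2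
  have hsurj : Function.Surjective
      (fun χ : blockOf M (χ₀ : G → ℂ) => ζof (χ : IrrCharacter G)) := by
    intro ζ
    obtain ⟨χ, hχ, hζ⟩ := exists_component hM P hP χ₀ ζ ζof ψof hof
    exact ⟨⟨χ, hχ⟩, hζ⟩
  rw [Nat.card_congr (Equiv.ofBijective _ ⟨hinj, hsurj⟩)]
  exact card_irr_eq_card_conjClasses

end Components

end Cfsg.Agent.H79
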