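import Mathlib
import Cfsg.Agent.H83.PCDefs

/-!
# PC-ZC (helper79, for helper83, S3366): `Z(R)` is central in `X`.

Also: `SL(2,3)` is generated by its elements of order dividing `3` (`sl_gen`).
-/

set_option autoImplicit false

namespace Cfsg.Agent.H79.PC

open Cfsg.Agent.H83.PC

universe u

/-- upper unitriangular matrix -/
def uU (x : ZMod 3) : SL23 := ⟨!![1, x; 0, 1], by simp [Matrix.det_fin_two]⟩

/-- lower unitriangular matrix -/
def uL (c : ZMod 3) : SL23 := ⟨!![1, 0; c, 1], by simp [Matrix.det_fin_two]⟩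

theorem uU_pow (x : ZMod 3) : uU x ^ 3 = 1 := by
  apply Subtype.ext
  show (!![1, x; 0, 1] : Matrix (Fin 2) (Fin 2) (ZMod 3)) ^ 3 = 1
  rw [pow_three, Matrix.mul_fin_two, Matrix.mul_fin_two, Matrix.one_fin_two]
  have h3 : x + x + x = 0 := by
    revert x; decide
  simp [h3]

theorem uL_pow (c : ZMod 3) : uL c ^ 3 = 1 := by
  apply Subtype.ext
  show (!![1, 0; c, 1] : Matrix (Fin 2) (Fin 2) (ZMod 3)) ^ 3 = 1
  rw [pow_three, Matrix.mul_fin_two, Matrix.mul_fin_two, Matrix.one_fin_two]
  have h3 : c + (c + c) = 0 := by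
    revert c; decide
  simp [h3]

/-- `SL(2,3)` is generated by the elements `g` with `g ^ 3 = 1`. -/
theorem sl_gen (S : Subgroup SL23) (h : ∀ g : SL23, g ^ 3 = 1 → g ∈ S) : ∀ g : SL23, g ∈ S := by
  have key : ∀ g : SL23, g.1 1 0 ≠ 0 → g ∈ S := by
    intro g hc
    have hc2 : g.1 1 0 * g.1 1 0 = 1 := by
      have : ∀ c : ZMod 3, c ≠ 0 → c * c = 1 := by decide
      exact this _ hc
    have hdet := sl_det g
    have e : g = uU ((g.1 0 0 - 1) * g.1 1 0) * uL (g.1 1 0) * uU ((g.1 1 1 - 1) * g.1 1 0) := by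
      apply Subtype.ext
      show g.1 = (!![1, (g.1 0 0 - 1) * g.1 1 0; 0, 1] : Matrix (Fin 2) (Fin 2) (ZMod 3))
        * !![1, 0; g.1 1 0, 1] * !![1, (g.1 1 1 - 1) * g.1 1 0; 0, 1]
      rw [Matrix.mul_fin_two, Matrix.mul_fin_two]
      ext i j
      fin_cases i <;> fin_cases j
      · simp
        linear_combination (-(g.1 0 0 - 1)) * hc2
      · simp
        linear_combination (-g.1 0 1 - (g.1 0 0 - 1) * (g.1 1 1 - 1) * g.1 1 0) * hc2
          - g.1 1 0 * hdet
      · simp
      · simp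
        linear_combination (-(g.1 1 1 - 1)) * hc2
    rw [e]
    exact mul_mem (mul_mem (h _ (uU_pow _)) (h _ (uL_pow _))) (h _ (uU_pow _))
  intro g
  by_cases hc : g.1 1 0 = 0
  · have hdet := sl_det g
    have ha : g.1 0 0 ≠ 0 := by
      intro h0
      rw [h0, hc] at hdet
      simp at hdet
    have h1 : uL 1 * g ∈ S := by
      apply key
      show ((uL 1).1 * g.1) 1 0 ≠ 0
      simp [uL, Matrix.mul_apply, Fin.sum_univ_two, hc, ha]
    have e : g = (uL 1)⁻¹ * (uL 1 * g) := by group
    rw [e]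
    exact mul_mem (inv_mem (h _ (uL_pow 1))) h1
  · exact key g hc

theorem zc : StZC.{u} := by
  intro X _ _ R f hyp x z hz
  obtain ⟨hRn, hcard, hexp, ⟨a, ha, b, hb, hab⟩, hsurj, hker, -, -, -⟩ := hyp
  by_cases hz1 : z = 1
  · rw [hz1, mul_one, one_mul]
  obtain ⟨hzR, hzc⟩ := hz
  have hz3 : z ^ 3 = 1 := hexp z hzR
  have hzmem : (⟨z, hzR⟩ : R) ∈ Subgroup.center R := by
    rw [Subgroup.mem_center_iff]
    intro g
    exact Subtype.ext (hzc g.1 g.2).symm
  -- the centre of `R` has order 3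
  have hcen : Nat.card (Subgroup.center R) = 3 := by
    have hdvd : Nat.card (Subgroup.center R) ∣ 3 ^ 3 := by
      have := Subgroup.card_subgroup_dvd_card (Subgroup.center R)
      rw [hcard] at this
      exact this
    have hne_top : Subgroup.center R ≠ ⊤ := by
      intro htop
      apply hab
      have h1 : (⟨a, ha⟩ : R) ∈ Subgroup.center R := htop ▸ Subgroup.mem_top _
      have h2 := Subgroup.mem_center_iff.mp h1 ⟨b, hb⟩
      exact (congrArg Subtype.val h2).symm
    obtain ⟨m, hm, hm'⟩ := (Nat.dvd_prime_pow Nat.prime_three).mp hdvd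
    interval_cases m
    · exfalso
      have h1 : Subgroup.center R = ⊥ := Subgroup.eq_bot_of_card_eq _ (by simpa using hm')
      rw [h1, Subgroup.mem_bot] at hzmem
      exact hz1 (congrArg Subtype.val hzmem)
    · simpa using hm'
    · exfalso
      have hidx : (Subgroup.center R).index = 3 := by
        have h1 := (Subgroup.center R).index_mul_card
        rw [hm', hcard] at h1
        omega
      have : Fact (Nat.Prime 3) := ⟨Nat.prime_three⟩
      have : IsCyclic (R ⧸ Subgroup.center R) := isCyclic_of_prime_card (p := 3) hidx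
      apply hab
      have h2 := commutative_of_cyclic_center_quotient (QuotientGroup.mk' (Subgroup.center R))
        (by rw [QuotientGroup.ker_mk']) (⟨a, ha⟩ : R) ⟨b, hb⟩
      exact congrArg Subtype.val h2
    · exfalso
      apply hne_top
      exact Subgroup.eq_top_of_card_eq _ (by rw [hm', hcard]; norm_num)
  have hord : orderOf (⟨z, hzR⟩ : R) = 3 := by
    have : Fact (Nat.Prime 3) := ⟨Nat.prime_three⟩
    apply orderOf_eq_prime
    · exact Subtype.ext hz3
    · intro h
      exact hz1 (congrArg Subtype.val h)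
  have hordz : orderOf z = 3 := by
    have : Fact (Nat.Prime 3) := ⟨Nat.prime_three⟩
    exact orderOf_eq_prime hz3 hz1
  have hpow : ∀ w : R, w ∈ Subgroup.center R → w ∈ Subgroup.zpowers (⟨z, hzR⟩ : R) := by
    have hle : Subgroup.zpowers (⟨z, hzR⟩ : R) ≤ Subgroup.center R := by
      rw [Subgroup.zpowers_le]
      exact hzmem
    have heq : Subgroup.zpowers (⟨z, hzR⟩ : R) = Subgroup.center R :=
      Subgroup.eq_of_le_of_card_ge hle (by rw [hcen, Nat.card_zpowers, hord])
    intro w hw
    rw [heq]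
    exact hw
  -- conjugation maps `z` to `z` or `z⁻¹`
  have hdich : ∀ y : X, y * z * y⁻¹ = z ∨ y * z * y⁻¹ = z⁻¹ := by
    intro y
    have hyR : y * z * y⁻¹ ∈ R := hRn.conj_mem z hzR y
    have hcent : (⟨y * z * y⁻¹, hyR⟩ : R) ∈ Subgroup.center R := by
      rw [Subgroup.mem_center_iff]
      intro g
      apply Subtype.ext
      show g.1 * (y * z * y⁻¹) = y * z * y⁻¹ * g.1
      have hg' : y⁻¹ * g.1 * y ∈ R := by
        have := hRn.conj_mem g.1 g.2 y⁻¹
        simpa using this
      have h1 := hzc _ hg'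
      calc g.1 * (y * z * y⁻¹) = y * ((y⁻¹ * g.1 * y) * z) * y⁻¹ := by group
        _ = y * (z * (y⁻¹ * g.1 * y)) * y⁻¹ := by rw [h1]
        _ = y * z * y⁻¹ * g.1 := by group
    obtain ⟨n, hn⟩ := Subgroup.mem_zpowers_iff.mp (hpow _ hcent)
    have hn' : z ^ n = y * z * y⁻¹ := by
      have := congrArg Subtype.val hn
      simpa using this
    have hn'' : y * z * y⁻¹ = z ^ (n % 3) := by
      rw [← hn']
      have := zpow_mod_orderOf z n
      rw [hordz] at this
      exact this.symm
    have h3 : n % 3 = 0 ∨ n % 3 = 1 ∨ n % 3 = 2 := by omega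
    rcases h3 with h | h | h
    · exfalso
      rw [h, zpow_zero] at hn''
      apply hz1
      have e : z = y⁻¹ * (y * z * y⁻¹) * y := by group
      rw [e, hn'']
      group
    · left
      rw [hn'', h, zpow_one]
    · right
      rw [hn'', h]
      have e : z ^ (2 : ℤ) * z = 1 := by
        have : z ^ (2 : ℤ) * z = z ^ 3 := by group
        rw [this, hz3]
      exact eq_inv_of_mul_eq_one_left e
  -- preimages of elements of order 3 centralize `z`
  have hC : ∀ y : X, f y ^ 3 = 1 → y * z = z * y := by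
    intro y hy
    have hy3 : y ^ 3 ∈ R := by
      rw [← hker, MonoidHom.mem_ker, map_pow, hy]
    have hcomm3 : z * y ^ 3 = y ^ 3 * z := hzc _ hy3
    rcases hdich y with h | h
    · calc y * z = y * z * y⁻¹ * y := by group
        _ = z * y := by rw [h]
    · exfalso
      have e1 : y * z⁻¹ * y⁻¹ = z := by
        have : y * z⁻¹ * y⁻¹ = (y * z * y⁻¹)⁻¹ := by group
        rw [this, h, inv_inv]
      have h2 : y ^ 3 * z * (y ^ 3)⁻¹ = z⁻¹ := by
        calc y ^ 3 * z * (y ^ 3)⁻¹ = y * (y * (y * z * y⁻¹) * y⁻¹) * y⁻¹ := by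
              rw [pow_three' y]
              group
          _ = y * (y * z⁻¹ * y⁻¹) * y⁻¹ := by rw [h]
          _ = y * z * y⁻¹ := by rw [e1]
          _ = z⁻¹ := h
      have h3 : y ^ 3 * z * (y ^ 3)⁻¹ = z := by
        rw [← hcomm3]
        group
      have h4 : z = z⁻¹ := h3.symm.trans h2
      apply hz1
      have h5 : z * z = 1 := by
        nth_rewrite 2 [h4]
        exact mul_inv_cancel z
      calc z = z ^ 3 * (z * z)⁻¹ := by group
        _ = 1 := by rw [hz3, h5, inv_one, mul_one]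
  have hS : ∀ g : SL23, g ∈ (Subgroup.centralizer ({z} : Set X)).map f := by
    apply sl_gen
    intro g hg
    obtain ⟨y, rfl⟩ := hsurj g
    refine ⟨y, ?_, rfl⟩
    rw [SetLike.mem_coe, Subgroup.mem_centralizer_iff]
    intro w hw
    rw [Set.mem_singleton_iff] at hw
    rw [hw]
    exact (hC y hg).symm
  obtain ⟨c, hc, hfc⟩ := hS (f x)
  have hcz : z * c = c * z := by
    rw [SetLike.mem_coe, Subgroup.mem_centralizer_iff] at hc
    exact hc z rfl
  have hr : x * c⁻¹ ∈ R := by
    rw [← hker, MonoidHom.mem_ker, map_mul, map_inv, hfc, mul_inv_cancel]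
  have hrz := hzc _ hr
  calc x * z = (x * c⁻¹) * (c * z) := by group
    _ = (x * c⁻¹) * (z * c) := by rw [hcz]
    _ = (x * c⁻¹ * z) * c := by group
    _ = (z * (x * c⁻¹)) * c := by rw [hrz]
    _ = z * x := by group

example : StZC.{u} := zc

end Cfsg.Agent.H79.PC
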