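import Mathlib

/-!
# Small lemmas on centralizers and chains of subgroups in `p`-groups
-/

set_option autoImplicit false

namespace Cfsg.Agent.H79

open Subgroup
open scoped commutatorElement

/-- The index of a centralizer is at most the order of the commutator subgroup. -/
theorem index_centralizer_le_card_commutator {G : Type*} [Group G] [Finite G] (u : G) :
    (centralizer {u}).index ≤ Nat.card (commutator G) := by
  have hmem : ∀ g : G, ⁅g, u⁆ ∈ commutator G := fun g => by
    rw [commutator_def]; exact Subgroup.commutator_mem_commutator (mem_top _) (mem_top _)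
  let f : G ⧸ centralizer {u} → commutator G :=
    Quotient.lift (fun g : G => (⟨⁅g, u⁆, hmem g⟩ : commutator G)) (by
      intro a b hab
      have hab' : a⁻¹ * b ∈ centralizer {u} := QuotientGroup.leftRel_apply.mp hab
      rw [mem_centralizer_singleton_iff] at hab'
      apply Subtype.ext
      show ⁅a, u⁆ = ⁅b, u⁆
      rw [commutatorElement_def, commutatorElement_def]
      have h2 : b * u * b⁻¹ = a * ((a⁻¹ * b) * u) * (a⁻¹ * b)⁻¹ * a⁻¹ := by group
      rw [h2, hab']
      group)
  have hf : Function.Injective f := by
    intro x y hxy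
    induction x using QuotientGroup.induction_on with | _ a => ?_
    induction y using QuotientGroup.induction_on with | _ b => ?_
    have h1 : ⁅a, u⁆ = ⁅b, u⁆ := congrArg Subtype.val hxy
    apply QuotientGroup.eq.mpr
    rw [mem_centralizer_singleton_iff]
    rw [commutatorElement_def, commutatorElement_def] at h1
    have h2 : a * u * a⁻¹ = b * u * b⁻¹ := by
      have := congrArg (· * u) h1
      simpa using this
    calc a⁻¹ * b * u = a⁻¹ * (b * u * b⁻¹) * b := by group
      _ = a⁻¹ * (a * u * a⁻¹) * b := by rw [h2]
      _ = u * (a⁻¹ * b) := by group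
  exact Nat.card_le_card_of_injective f hf

/-- In a group of order `p ^ n`, a strictly larger subgroup has at least `p` times the order. -/
theorem card_mul_le_of_lt {G : Type*} [Group G] [Finite G] {p n : ℕ} (hp : p.Prime)
    (hG : Nat.card G = p ^ n) {H K : Subgroup G} (h : H < K) : Nat.card H * p ≤ Nat.card K := by
  have hHK : Nat.card H ∣ Nat.card K := Subgroup.card_dvd_of_le h.le
  have hK : Nat.card K ∣ p ^ n := hG ▸ Subgroup.card_subgroup_dvd_card K
  obtain ⟨b, hb, hKb⟩ := (Nat.dvd_prime_pow hp).mp hK
  rw [hKb] at hHK
  obtain ⟨a, ha, hHa⟩ := (Nat.dvd_prime_pow hp).mp hHK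
  have hne : a ≠ b := by
    rintro rfl
    exact h.ne (Subgroup.eq_of_le_of_card_ge h.le (by rw [hKb, hHa]))
  have hlt : a < b := lt_of_le_of_ne ha hne
  rw [hKb, hHa, ← pow_succ]
  exact Nat.pow_le_pow_right hp.pos hlt

/-- The subgroup generated by the centre and one element is abelian. -/
theorem comm_of_mem_center_sup_zpowers {G : Type*} [Group G] (x : G) :
    ∀ a ∈ center G ⊔ zpowers x, ∀ b ∈ center G ⊔ zpowers x, a * b = b * a := by
  have h1 : ∀ a ∈ center G ⊔ zpowers x, a * x = x * a := by
    intro a ha
    have : center G ⊔ zpowers x ≤ centralizer {x} := by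
      apply sup_le (center_le_centralizer _)
      rw [zpowers_le, mem_centralizer_singleton_iff]
    exact mem_centralizer_singleton_iff.mp (this ha)
  intro a ha b hb
  have : center G ⊔ zpowers x ≤ centralizer {a} := by
    apply sup_le (center_le_centralizer _)
    rw [zpowers_le, mem_centralizer_singleton_iff]
    exact (h1 a ha).symm
  exact (mem_centralizer_singleton_iff.mp (this hb)).symm

/-- A subgroup containing the commutator subgroup is normal. -/
theorem normal_of_commutator_le {G : Type*} [Group G] (A : Subgroup G)
    (h : commutator G ≤ A) : A.Normal := by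
  constructor
  intro a ha g
  have h1 : ⁅g, a⁆ ∈ A := h (by
    rw [commutator_def]; exact Subgroup.commutator_mem_commutator (mem_top _) (mem_top _))
  have h2 : g * a * g⁻¹ = ⁅g, a⁆ * a := by rw [commutatorElement_def]; group
  rw [h2]
  exact A.mul_mem h1 ha

/-- In a nilpotent group the lower central series strictly decreases until it reaches `⊥`. -/
theorem lowerCentralSeries_eq_bot_of_succ_eq {G : Type*} [Group G] [Group.IsNilpotent G] (n : ℕ)
    (h : (⊤ : Subgroup G).lowerCentralSeries (n + 1) = (⊤ : Subgroup G).lowerCentralSeries n) :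
    (⊤ : Subgroup G).lowerCentralSeries n = ⊥ := by
  have key : ∀ k : ℕ, (⊤ : Subgroup G).lowerCentralSeries (n + k) =
      (⊤ : Subgroup G).lowerCentralSeries n := by
    intro k
    induction k with
    | zero => rfl
    | succ k ih =>
      rw [← add_assoc, Subgroup.lowerCentralSeries_succ, ih, ← Subgroup.lowerCentralSeries_succ, h]
  have h2 := key (Group.nilpotencyClass G)
  rw [← h2, eq_bot_iff]
  have h3 : (⊤ : Subgroup G).lowerCentralSeries (n + Group.nilpotencyClass G) ≤
      (⊤ : Subgroup G).lowerCentralSeries (Group.nilpotencyClass G) :=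
    Subgroup.lowerCentralSeries_antitone _ (Nat.le_add_left _ _)
  rwa [Subgroup.lowerCentralSeries_nilpotencyClass] at h3

end Cfsg.Agent.H79
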