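import Mathlib
import Cfsg.Agent.H79.ClassCount

/-!
# Special elements modulo a central subgroup

`g` is special modulo the central subgroup `N` when every `x` with `x⁻¹ g⁻¹ x g ∈ N` commutes
with `g`.  We count `∑_{g special} |C_G(g)|` in terms of the special classes of `G ⧸ N`.
-/

set_option autoImplicit false

namespace Cfsg.Agent.H79

open Subgroup

/-- `g` is special modulo `N`. -/
def IsSpecialMod {G : Type*} [Group G] (N : Subgroup G) (g : G) : Prop :=
  ∀ x : G, x⁻¹ * g⁻¹ * x * g ∈ N → x * g = g * x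

theorem isSpecialMod_mul_central {G : Type*} [Group G] (N : Subgroup G)
    (hN : N ≤ center G) {g n : G} (hn : n ∈ N) (hg : IsSpecialMod N g) :
    IsSpecialMod N (g * n) := by
  have hc : ∀ y : G, y * n = n * y := Subgroup.mem_center_iff.mp (hN hn)
  intro x hx
  have h1 : x⁻¹ * (g * n)⁻¹ * x * (g * n) = x⁻¹ * g⁻¹ * x * g := by
    calc x⁻¹ * (g * n)⁻¹ * x * (g * n) = x⁻¹ * n⁻¹ * g⁻¹ * (x * g * n) := by group
      _ = x⁻¹ * n⁻¹ * g⁻¹ * (n * (x * g)) := by rw [hc (x * g)]
      _ = x⁻¹ * n⁻¹ * (g⁻¹ * n) * (x * g) := by group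
      _ = x⁻¹ * n⁻¹ * (n * g⁻¹) * (x * g) := by rw [hc g⁻¹]
      _ = x⁻¹ * g⁻¹ * x * g := by group
  rw [h1] at hx
  have h2 := hg x hx
  calc x * (g * n) = (x * g) * n := by group
    _ = (g * x) * n := by rw [h2]
    _ = g * (x * n) := by group
    _ = g * (n * x) := by rw [hc x]
    _ = g * n * x := by group

theorem isSpecialMod_conj {G : Type*} [Group G] (N : Subgroup G) [N.Normal]
    {g : G} (c : G) (hg : IsSpecialMod N g) : IsSpecialMod N (c * g * c⁻¹) := by
  intro x hx
  have h1 : (c⁻¹ * x * c)⁻¹ * g⁻¹ * (c⁻¹ * x * c) * g =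
      c⁻¹ * (x⁻¹ * (c * g * c⁻¹)⁻¹ * x * (c * g * c⁻¹)) * c⁻¹⁻¹ := by group
  have h2 : (c⁻¹ * x * c)⁻¹ * g⁻¹ * (c⁻¹ * x * c) * g ∈ N := by
    rw [h1]
    exact Normal.conj_mem inferInstance _ hx c⁻¹
  have h3 := hg _ h2
  calc x * (c * g * c⁻¹) = c * (c⁻¹ * x * c * g) * c⁻¹ := by group
    _ = c * (g * (c⁻¹ * x * c)) * c⁻¹ := by rw [h3]
    _ = c * g * c⁻¹ * x := by group

/-- The class of the coset of `g` contains a special coset iff `g` is special. -/
theorem exists_special_iff {G : Type*} [Group G] (N : Subgroup G) [N.Normal]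
    (hN : N ≤ center G) (g : G) :
    (∃ g' : G, ConjClasses.mk (g' : G ⧸ N) = ConjClasses.mk (g : G ⧸ N) ∧ IsSpecialMod N g') ↔
      IsSpecialMod N g := by
  constructor
  · rintro ⟨g', hg', hsp⟩
    rw [ConjClasses.mk_eq_mk_iff_isConj, isConj_iff] at hg'
    obtain ⟨cbar, hc⟩ := hg'
    obtain ⟨c, rfl⟩ := QuotientGroup.mk_surjective cbar
    have h1 : ((c * g' * c⁻¹ : G) : G ⧸ N) = (g : G ⧸ N) := by
      rw [← hc]; simp
    have h2 : (c * g' * c⁻¹)⁻¹ * g ∈ N := QuotientGroup.eq.mp h1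
    have h3 := isSpecialMod_mul_central N hN h2 (isSpecialMod_conj N c hsp)
    have h4 : c * g' * c⁻¹ * ((c * g' * c⁻¹)⁻¹ * g) = g := by group
    rwa [h4] at h3
  · intro h
    exact ⟨g, rfl, h⟩

/-- For special `g`, the centralizer of `g` is the full preimage of the centralizer of its
coset. -/
theorem card_centralizer_of_isSpecialMod {G : Type*} [Group G] (N : Subgroup G) [N.Normal]
    {g : G} (hg : IsSpecialMod N g) :
    Nat.card (centralizer ({g} : Set G)) =
      Nat.card N * Nat.card (centralizer ({(g : G ⧸ N)} : Set (G ⧸ N))) := by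
  have h := QuotientGroup.card_preimage_mk N
    ((centralizer ({(g : G ⧸ N)} : Set (G ⧸ N)) : Subgroup (G ⧸ N)) : Set (G ⧸ N))
  have hset : (QuotientGroup.mk ⁻¹'
      ((centralizer ({(g : G ⧸ N)} : Set (G ⧸ N)) : Subgroup (G ⧸ N)) : Set (G ⧸ N))) =
      ((centralizer ({g} : Set G) : Subgroup G) : Set G) := by
    ext x
    simp only [Set.mem_preimage, SetLike.mem_coe]
    rw [mem_centralizer_singleton_iff, mem_centralizer_singleton_iff]
    constructor
    · intro hx
      have h1 : ((x * g : G) : G ⧸ N) = ((g * x : G) : G ⧸ N) := by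
        rw [QuotientGroup.mk_mul, QuotientGroup.mk_mul]; exact hx
      have h2 : (x * g)⁻¹ * (g * x) ∈ N := QuotientGroup.eq.mp h1
      have h3 : x⁻¹ * g⁻¹ * x * g = ((x * g)⁻¹ * (g * x))⁻¹ := by group
      have h4 : x⁻¹ * g⁻¹ * x * g ∈ N := by rw [h3]; exact N.inv_mem h2
      exact hg x h4
    · intro hx
      rw [← QuotientGroup.mk_mul, ← QuotientGroup.mk_mul, hx]
  rw [hset] at h
  exact h

/-- The sum of the centralizer orders of the special elements. -/
theorem sum_card_centralizer_special {G : Type*} [Group G] [Fintype G] (N : Subgroup G)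
    [N.Normal] (hN : N ≤ center G) [DecidablePred (IsSpecialMod N)] :
    ∑ g : G, (if IsSpecialMod N g then Nat.card (centralizer ({g} : Set G)) else 0) =
      Nat.card N * (Nat.card N * (Nat.card (G ⧸ N) *
        Nat.card {C : ConjClasses (G ⧸ N) //
          ∃ g : G, ConjClasses.mk (g : G ⧸ N) = C ∧ IsSpecialMod N g})) := by
  classical
  let _ : Fintype (G ⧸ N) := Fintype.ofFinite _
  set P : ConjClasses (G ⧸ N) → Prop :=
    fun C => ∃ g : G, ConjClasses.mk (g : G ⧸ N) = C ∧ IsSpecialMod N g with hP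
  set F : G ⧸ N → ℕ := fun q =>
    if P (ConjClasses.mk q) then Nat.card (centralizer ({q} : Set (G ⧸ N))) else 0 with hF
  have h1 : ∀ g : G, (if IsSpecialMod N g then Nat.card (centralizer ({g} : Set G)) else 0) =
      Nat.card N * F (g : G ⧸ N) := by
    intro g
    have hiff : P (ConjClasses.mk (g : G ⧸ N)) ↔ IsSpecialMod N g := exists_special_iff N hN g
    by_cases hg : IsSpecialMod N g
    · rw [if_pos hg, hF]
      simp only
      rw [if_pos (hiff.mpr hg)]
      exact card_centralizer_of_isSpecialMod N hg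
    · rw [if_neg hg, hF]
      simp only
      rw [if_neg (fun h => hg (hiff.mp h)), mul_zero]
  rw [Finset.sum_congr rfl (fun g _ => h1 g), ← Finset.mul_sum, sum_comp_quotient_mk N F,
    smul_eq_mul, hF, sum_card_centralizer_eq P]

end Cfsg.Agent.H79
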