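import Mathlib

/-!
# A transfer computation

If `G = H N` with `N` normal and `ϕ : H →* A` a homomorphism to a commutative group, then for
`u ∈ H` the transfer of `u` is `ϕ u ^ [G : H]` times an element of `ϕ (H ∩ N)`.
-/

set_option autoImplicit false

namespace Cfsg.Agent.H79

open MulAction Subgroup

theorem transfer_eq_pow_mul_of_sup_eq_top {G : Type*} [Group G] {H : Subgroup G}
    [H.FiniteIndex] {A : Type*} [CommGroup A] (ϕ : H →* A) (N : Subgroup G) [N.Normal]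
    (hHN : H ⊔ N = ⊤) (u : H) :
    ∃ c ∈ (N.subgroupOf H).map ϕ, MonoidHom.transfer ϕ (u : G) = ϕ u ^ H.index * c := by
  classical
  let := H.fintypeQuotientOfFiniteIndex
  rw [MonoidHom.transfer_eq_prod_quotient_orbitRel_zpowers_quot]
  have key : ∀ (k : ℕ) (g₀ : G) (hk : g₀⁻¹ * (u : G) ^ k * g₀ ∈ H),
      ∃ c ∈ (N.subgroupOf H).map ϕ, ϕ ⟨g₀⁻¹ * (u : G) ^ k * g₀, hk⟩ = ϕ u ^ k * c := by
    intro k g₀ hk
    have hg₀ : g₀ ∈ H ⊔ N := by rw [hHN]; exact mem_top _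
    rw [sup_comm, Subgroup.mem_sup_of_normal_left] at hg₀
    obtain ⟨n, hn, v, hv, rfl⟩ := hg₀
    -- w = n⁻¹ u^k n ∈ H
    have hw : n⁻¹ * (u : G) ^ k * n ∈ H := by
      have h1 : n⁻¹ * (u : G) ^ k * n = v * ((n * v)⁻¹ * (u : G) ^ k * (n * v)) * v⁻¹ := by
        group
      rw [h1]
      exact H.mul_mem (H.mul_mem hv hk) (H.inv_mem hv)
    -- w u^{-k} ∈ N
    have hwN : n⁻¹ * (u : G) ^ k * n * ((u : G) ^ k)⁻¹ ∈ N := by
      have h1 : n⁻¹ * (u : G) ^ k * n * ((u : G) ^ k)⁻¹ =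
          n⁻¹ * ((u : G) ^ k * n * ((u : G) ^ k)⁻¹) := by group
      rw [h1]
      exact N.mul_mem (N.inv_mem hn) (Normal.conj_mem inferInstance n hn _)
    refine ⟨ϕ (⟨n⁻¹ * (u : G) ^ k * n, hw⟩ * (u ^ k)⁻¹), ?_, ?_⟩
    · refine Subgroup.mem_map_of_mem ϕ ?_
      rw [Subgroup.mem_subgroupOf]
      simpa using hwN
    · have h2 : (⟨(n * v)⁻¹ * (u : G) ^ k * (n * v), hk⟩ : H) =
          (⟨v, hv⟩ : H)⁻¹ * ⟨n⁻¹ * (u : G) ^ k * n, hw⟩ * ⟨v, hv⟩ := by
        apply Subtype.ext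
        simp only [Subgroup.coe_mul, Subgroup.coe_inv]
        group
      rw [h2, map_mul, map_mul, map_mul, map_inv, map_inv, map_pow]
      rw [mul_comm ((ϕ ⟨v, hv⟩)⁻¹), mul_assoc, inv_mul_cancel, mul_one]
      rw [mul_comm (ϕ u ^ k), inv_mul_cancel_right]
  have key' : ∀ q : Quotient (orbitRel (zpowers (u : G)) (G ⧸ H)),
      ∃ c ∈ (N.subgroupOf H).map ϕ,
        ϕ ⟨q.out.out⁻¹ * (u : G) ^ Function.minimalPeriod ((u : G) • ·) q.out * q.out.out,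
            QuotientGroup.out_conj_pow_minimalPeriod_mem H (u : G) q.out⟩ =
          ϕ u ^ Function.minimalPeriod ((u : G) • ·) q.out * c :=
    fun q => key _ _ _
  choose c hc hc' using key'
  refine ⟨∏ q, c q, Subgroup.prod_mem _ fun q _ => hc q, ?_⟩
  rw [Finset.prod_congr rfl fun q _ => hc' q, Finset.prod_mul_distrib,
    Finset.prod_pow_eq_pow_sum, ← Subgroup.index_eq_sum_minimalPeriod H (u : G)]

end Cfsg.Agent.H79
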