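import Mathlib
import Cfsg.Agent.H44.WeilDefs

/-!
# WEIL-NONTRIV (helper79, for helper44's S2347 part B)

A homomorphic choice of intertwiners is not trivial on the odd functions (`n ≥ 2`): for the
transvection `g` along `v = f_0` with parameter `2 a` the multiplication operator by
`ξ ↦ ψ (a ξ_0 ^ 2)` is an invertible intertwiner, so `ω g` is a scalar multiple of it; on the odd
functions `δ_ζ - δ_{-ζ}` with `ζ = e_1` resp. `ζ = e_0` its eigenvalues are `λ` and `λ ψ a`.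
-/

set_option autoImplicit false

namespace Cfsg.Agent.H79.Weil

open Matrix Module Cfsg.Agent.H17 Cfsg.Agent.H44.Weil

universe u

section

variable {F : Type u} [Field F] (n : ℕ)

/-- Multiplication by `ξ ↦ ψ (a * ξ i ^ 2)`. -/
def mulOp (ψ : AddChar F ℂ) (a : F) (i : Fin n) : Module.End ℂ ((Fin n → F) → ℂ) where
  toFun φ := fun ξ => ψ (a * ξ i ^ 2) * φ ξ
  map_add' := by
    intro φ φ'
    funext ξ
    simp only [Pi.add_apply]
    ring
  map_smul' := by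
    intro c φ
    funext ξ
    simp only [Pi.smul_apply, smul_eq_mul, RingHom.id_apply]
    ring

theorem mulOp_apply (ψ : AddChar F ℂ) (a : F) (i : Fin n) (φ : (Fin n → F) → ℂ)
    (ξ : Fin n → F) : mulOp n ψ a i φ ξ = ψ (a * ξ i ^ 2) * φ ξ := rfl

theorem mulOp_mul_neg (ψ : AddChar F ℂ) (a : F) (i : Fin n) :
    mulOp n ψ a i * mulOp n ψ (-a) i = 1 := by
  apply LinearMap.ext
  intro φ
  funext ξ
  show ψ (a * ξ i ^ 2) * (ψ (-a * ξ i ^ 2) * φ ξ) = φ ξ
  rw [← mul_assoc, ← AddChar.map_add_eq_mul, show a * ξ i ^ 2 + -a * ξ i ^ 2 = 0 by ring,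
    AddChar.map_zero_eq_one, one_mul]

theorem mulOp_neg_mul (ψ : AddChar F ℂ) (a : F) (i : Fin n) :
    mulOp n ψ (-a) i * mulOp n ψ a i = 1 := by
  have h := mulOp_mul_neg n ψ (-a) i
  rw [neg_neg] at h
  exact h

theorem sympForm_single_inr (i : Fin n) (w : Fin n ⊕ Fin n → F) :
    Cfsg.sympForm n F w (Pi.single (Sum.inr i) 1) = - w (Sum.inl i) := by
  classical
  rw [sympForm_eq_sum]
  simp [Pi.single_apply]

theorem xpt_transv (i : Fin n) (c : F) (w : Fin n ⊕ Fin n → F) :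
    xpt n (((spTransv n (Pi.single (Sum.inr i) 1) c : Matrix.symplecticGroup (Fin n) F) :
      Matrix (Fin n ⊕ Fin n) (Fin n ⊕ Fin n) F) *ᵥ w) = xpt n w := by
  classical
  funext j
  show (((spTransv n (Pi.single (Sum.inr i) 1) c : Matrix.symplecticGroup (Fin n) F) :
      Matrix (Fin n ⊕ Fin n) (Fin n ⊕ Fin n) F) *ᵥ w) (Sum.inl j) = w (Sum.inl j)
  rw [spTransv_mulVec]
  simp

theorem ypt_transv (i : Fin n) (c : F) (w : Fin n ⊕ Fin n → F) :
    ypt n (((spTransv n (Pi.single (Sum.inr i) 1) c : Matrix.symplecticGroup (Fin n) F) :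
      Matrix (Fin n ⊕ Fin n) (Fin n ⊕ Fin n) F) *ᵥ w)
      = ypt n w + (-(c * w (Sum.inl i))) • (Pi.single i 1 : Fin n → F) := by
  classical
  funext j
  show (((spTransv n (Pi.single (Sum.inr i) 1) c : Matrix.symplecticGroup (Fin n) F) :
      Matrix (Fin n ⊕ Fin n) (Fin n ⊕ Fin n) F) *ᵥ w) (Sum.inr j)
      = w (Sum.inr j) + (-(c * w (Sum.inl i))) * (Pi.single i 1 : Fin n → F) j
  rw [spTransv_mulVec, sympForm_single_inr]
  by_cases hji : j = i
  · simp [hji]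
  · simp [hji]

/-- The multiplication operator intertwines the transvection along `f_i` with parameter `2a`. -/
theorem mulOp_isInt (h2 : (2 : F) ≠ 0) (ψ : AddChar F ℂ) (a : F) (i : Fin n) :
    IsInt n ψ (spTransv n (Pi.single (Sum.inr i) 1) (2 * a)) (mulOp n ψ a i) := by
  intro w
  apply LinearMap.ext
  intro φ
  funext ξ
  rw [LinearMap.comp_apply, LinearMap.comp_apply, mulOp_apply, heis_apply, heis_apply,
    mulOp_apply, xpt_transv, ypt_transv, ← mul_assoc, ← mul_assoc, ← AddChar.map_add_eq_mul,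
    ← AddChar.map_add_eq_mul]
  congr 2
  have hx : xpt n w i = w (Sum.inl i) := rfl
  simp only [add_dotProduct, dotProduct_add, smul_dotProduct, dotProduct_smul,
    single_one_dotProduct, dotProduct_single_one, smul_eq_mul, Pi.add_apply, hx]
  field_simp
  ring

/-- The odd delta function `δ_ζ - δ_{-ζ}`. -/
def dl [DecidableEq F] (ζ : Fin n → F) : (Fin n → F) → ℂ :=
  fun ξ => (if ξ = ζ then (1 : ℂ) else 0) - (if ξ = -ζ then 1 else 0)

theorem dl_mem_odd [DecidableEq F] (ζ : Fin n → F) : dl n ζ ∈ oddSub F n := by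
  intro ξ
  simp only [dl, neg_eq_iff_eq_neg, neg_neg]
  ring

theorem dl_self [DecidableEq F] (ζ : Fin n → F) (hζ : ζ ≠ -ζ) : dl n ζ ζ = 1 := by
  simp [dl, hζ]

theorem mulOp_dl [DecidableEq F] (ψ : AddChar F ℂ) (a : F) (i : Fin n) (ζ : Fin n → F) :
    mulOp n ψ a i (dl n ζ) = ψ (a * ζ i ^ 2) • dl n ζ := by
  funext ξ
  show ψ (a * ξ i ^ 2) * dl n ζ ξ = ψ (a * ζ i ^ 2) * dl n ζ ξ
  by_cases h1 : ξ = ζ
  · subst h1
    rfl
  · by_cases h2 : ξ = -ζ
    · subst h2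
      rw [Pi.neg_apply, neg_sq]
    · have h3 : dl n ζ ξ = 0 := by simp [dl, h1, h2]
      rw [h3, mul_zero, mul_zero]

end

/-- WEIL-NONTRIV. -/
theorem nontriv (hC : StComm.{u}) : StNontriv.{u} := by
  intro F _ _ n hn h2 ψ hψ ω hω
  classical
  obtain ⟨a, ha⟩ : ∃ a : F, ψ a ≠ 1 := by
    have h1 : AddChar.mulShift ψ 1 ≠ 1 := hψ one_ne_zero
    obtain ⟨x, hx⟩ := (AddChar.ne_one_iff).mp h1
    exact ⟨x, by simpa [AddChar.mulShift_apply] using hx⟩
  obtain ⟨i0, hi0⟩ : ∃ i0 : Fin n, i0 = ⟨0, by omega⟩ := ⟨_, rfl⟩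
  obtain ⟨i1, hi1⟩ : ∃ i1 : Fin n, i1 = ⟨1, by omega⟩ := ⟨_, rfl⟩
  have h01 : i0 ≠ i1 := by
    intro h
    rw [hi0, hi1] at h
    have h3 := congrArg Fin.val h
    simp at h3
  obtain ⟨g, hg⟩ : ∃ g : Matrix.symplecticGroup (Fin n) F,
      g = spTransv n (Pi.single (Sum.inr i0) (1 : F)) (2 * a) := ⟨_, rfl⟩
  have hM : IsInt n ψ g (mulOp n ψ a i0) := by
    rw [hg]
    exact mulOp_isInt n h2 ψ a i0
  have hX : ∀ w, (mulOp n ψ (-a) i0 * ω g) ∘ₗ heis n ψ w
      = heis n ψ w ∘ₗ (mulOp n ψ (-a) i0 * ω g) := by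
    intro w
    have h3 : ω g * heis n ψ w
        = heis n ψ ((g : Matrix (Fin n ⊕ Fin n) (Fin n ⊕ Fin n) F) *ᵥ w) * ω g := hω g w
    have h4 : mulOp n ψ a i0 * heis n ψ w
        = heis n ψ ((g : Matrix (Fin n ⊕ Fin n) (Fin n ⊕ Fin n) F) *ᵥ w) * mulOp n ψ a i0 :=
      hM w
    have h5 : mulOp n ψ (-a) i0
          * heis n ψ ((g : Matrix (Fin n ⊕ Fin n) (Fin n ⊕ Fin n) F) *ᵥ w)
        = heis n ψ w * mulOp n ψ (-a) i0 := by
      calc mulOp n ψ (-a) i0
            * heis n ψ ((g : Matrix (Fin n ⊕ Fin n) (Fin n ⊕ Fin n) F) *ᵥ w)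
          = mulOp n ψ (-a) i0
            * (heis n ψ ((g : Matrix (Fin n ⊕ Fin n) (Fin n ⊕ Fin n) F) *ᵥ w)
              * mulOp n ψ a i0) * mulOp n ψ (-a) i0 := by
            rw [mul_assoc, mul_assoc, mulOp_mul_neg, mul_one]
        _ = mulOp n ψ (-a) i0 * (mulOp n ψ a i0 * heis n ψ w) * mulOp n ψ (-a) i0 := by
            rw [h4]
        _ = heis n ψ w * mulOp n ψ (-a) i0 := by
            rw [← mul_assoc, mulOp_neg_mul, one_mul]
    show mulOp n ψ (-a) i0 * ω g * heis n ψ w = heis n ψ w * (mulOp n ψ (-a) i0 * ω g)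
    rw [mul_assoc, h3, ← mul_assoc, h5, mul_assoc]
  obtain ⟨lam, hlam⟩ := hC n ψ hψ _ hX
  have hωg : ω g = lam • mulOp n ψ a i0 := by
    have h3 : ω g = mulOp n ψ a i0 * (mulOp n ψ (-a) i0 * ω g) := by
      rw [← mul_assoc, mulOp_mul_neg, one_mul]
    rw [h3, hlam]
    show mulOp n ψ a i0 * (lam • (1 : Module.End ℂ ((Fin n → F) → ℂ))) = lam • mulOp n ψ a i0
    rw [mul_smul_comm, mul_one]
  by_contra hcon0
  have hcon : ∀ g, ∀ φ ∈ oddSub F n, ω g φ = φ := by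
    intro g φ hφ
    by_contra h
    exact hcon0 ⟨g, φ, hφ, h⟩
  have key : ∀ ζ : Fin n → F, ζ ≠ -ζ → lam * ψ (a * ζ i0 ^ 2) = 1 := by
    intro ζ hζ
    have h1 := hcon g (dl n ζ) (dl_mem_odd n ζ)
    rw [hωg, LinearMap.smul_apply, mulOp_dl] at h1
    have h3 := congrFun h1 ζ
    simp only [Pi.smul_apply, smul_eq_mul, dl_self n ζ hζ, mul_one] at h3
    exact h3
  have hne : ∀ i : Fin n, (Pi.single i (1 : F) : Fin n → F) ≠ -(Pi.single i 1) := by
    intro i h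
    have h3 := congrFun h i
    rw [Pi.neg_apply, Pi.single_eq_same] at h3
    apply h2
    linear_combination h3
  have k1 := key (Pi.single i1 1) (hne i1)
  have k0 := key (Pi.single i0 1) (hne i0)
  rw [Pi.single_eq_of_ne h01, zero_pow (by norm_num), mul_zero, AddChar.map_zero_eq_one,
    mul_one] at k1
  rw [Pi.single_eq_same, one_pow, mul_one, k1, one_mul] at k0
  exact ha k0

example (hC : StComm.{u}) : StNontriv.{u} := nontriv hC

end Cfsg.Agent.H79.Weil
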