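import Mathlib
import Cfsg.Agent.H44.WeilDefs

/-!
# WEIL-REP (helper79, for helper44's S2347 part B)

The Weil representation: a homomorphic choice of intertwiners.  For an invertible intertwiner
`T` (which preserves the even and the odd functions) put
`N(T) = det (T|even) / det (T|odd)`; `N (c • T) = c * N T` because
`dim even = dim odd + 1`, `N` is multiplicative, and the intertwiners of `g` form a line; the
unique intertwiner of `g` with `N = 1` depends multiplicatively on `g`.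
-/

set_option autoImplicit false

namespace Cfsg.Agent.H79.Weil

open Matrix Module Cfsg.Agent.H17 Cfsg.Agent.H44.Weil

universe u

/-- Abstract selection lemma: a projective family of "good" operators with a normalising
function `N` gives a homomorphism. -/
theorem exists_hom_of_good {G : Type*} [Group G] {V : Type*} [AddCommGroup V] [Module ℂ V]
    (Good : G → Module.End ℂ V → Prop) (N : Module.End ℂ V → ℂ)
    (ha : ∀ g, ∃ T, Good g T)
    (hb : Good 1 1)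
    (hc : ∀ g h T T', Good g T → Good h T' → Good (g * h) (T * T'))
    (hd : ∀ g T (c : ℂ), c ≠ 0 → Good g T → Good g (c • T))
    (he : ∀ g T T', Good g T → Good g T' → ∃ c : ℂ, T' = c • T)
    (f1 : ∀ (c : ℂ) T, N (c • T) = c * N T)
    (f2 : ∀ g h T T', Good g T → Good h T' → N (T * T') = N T * N T')
    (f3 : N 1 = 1)
    (f4 : ∀ g T, Good g T → N T ≠ 0) :
    ∃ ω : G →* Module.End ℂ V, ∀ g, Good g (ω g) := by
  classical
  choose T0 hT0 using ha
  have hN0 : ∀ g, N (T0 g) ≠ 0 := fun g => f4 g _ (hT0 g)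
  obtain ⟨W, hWdef⟩ : ∃ W : G → Module.End ℂ V, ∀ g, W g = (N (T0 g))⁻¹ • T0 g :=
    ⟨_, fun g => rfl⟩
  have hW : ∀ g, Good g (W g) := by
    intro g
    rw [hWdef]
    exact hd g _ _ (inv_ne_zero (hN0 g)) (hT0 g)
  have hWN : ∀ g, N (W g) = 1 := by
    intro g
    rw [hWdef, f1, inv_mul_cancel₀ (hN0 g)]
  have huniq : ∀ g T, Good g T → N T = 1 → T = W g := by
    intro g T hT hN
    obtain ⟨c, hc'⟩ := he g (W g) T (hW g) hT
    have h1 : N T = c * N (W g) := by rw [hc', f1]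
    rw [hN, hWN, mul_one] at h1
    rw [hc', ← h1, one_smul]
  refine ⟨{ toFun := W, map_one' := ?_, map_mul' := ?_ }, hW⟩
  · exact (huniq 1 1 hb f3).symm
  · intro g h
    refine (huniq (g * h) (W g * W h) (hc g h _ _ (hW g) (hW h)) ?_).symm
    rw [f2 g h _ _ (hW g) (hW h), hWN, hWN, mul_one]

section Comp

variable {V : Type*} [AddCommGroup V] [Module ℂ V]

/-- Compression of an endomorphism to a complemented submodule. -/
noncomputable def cmp (E O : Submodule ℂ V) (h : IsCompl E O) (T : Module.End ℂ V) :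
    Module.End ℂ E :=
  (Submodule.linearProjOfIsCompl E O h) ∘ₗ T ∘ₗ E.subtype

theorem cmp_apply_of_mem (E O : Submodule ℂ V) (h : IsCompl E O) (T : Module.End ℂ V)
    (hT : ∀ x ∈ E, T x ∈ E) (x : E) : ((cmp E O h T x : E) : V) = T x := by
  have h1 := Submodule.linearProjOfIsCompl_apply_left h ⟨T x, hT x x.2⟩
  exact congrArg Subtype.val h1

theorem cmp_smul (E O : Submodule ℂ V) (h : IsCompl E O) (c : ℂ) (T : Module.End ℂ V) :
    cmp E O h (c • T) = c • cmp E O h T := by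
  unfold cmp
  rw [LinearMap.smul_comp, LinearMap.comp_smul]

theorem cmp_one (E O : Submodule ℂ V) (h : IsCompl E O) : cmp E O h 1 = 1 := by
  apply LinearMap.ext
  intro x
  apply Subtype.ext
  rw [cmp_apply_of_mem E O h 1 (fun x hx => hx)]
  rfl

theorem cmp_mul (E O : Submodule ℂ V) (h : IsCompl E O) (T T' : Module.End ℂ V)
    (hT' : ∀ x ∈ E, T' x ∈ E) : cmp E O h (T * T') = cmp E O h T * cmp E O h T' := by
  apply LinearMap.ext
  intro x
  show Submodule.linearProjOfIsCompl E O h (T (T' x))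
    = Submodule.linearProjOfIsCompl E O h (T ((cmp E O h T' x : E) : V))
  rw [cmp_apply_of_mem E O h T' hT' x]

/-- The normalising function `det (T|E) / det (T|O)`. -/
noncomputable def nrm (E O : Submodule ℂ V) (h : IsCompl E O) (T : Module.End ℂ V) : ℂ :=
  LinearMap.det (cmp E O h T) / LinearMap.det (cmp O E h.symm T)

theorem nrm_smul (E O : Submodule ℂ V) (h : IsCompl E O)
    (hd : finrank ℂ E = finrank ℂ O + 1) (c : ℂ) (T : Module.End ℂ V) :
    nrm E O h (c • T) = c * nrm E O h T := by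
  unfold nrm
  rw [cmp_smul, cmp_smul, LinearMap.det_smul, LinearMap.det_smul, hd]
  by_cases hc : c = 0
  · subst hc
    rw [zero_pow (Nat.succ_ne_zero _), zero_mul, zero_div, zero_mul]
  · rw [pow_succ, mul_assoc, mul_div_mul_left _ _ (pow_ne_zero _ hc), mul_div_assoc]

theorem nrm_mul (E O : Submodule ℂ V) (h : IsCompl E O) (T T' : Module.End ℂ V)
    (hE : ∀ x ∈ E, T' x ∈ E) (hO : ∀ x ∈ O, T' x ∈ O) :
    nrm E O h (T * T') = nrm E O h T * nrm E O h T' := by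
  unfold nrm
  rw [cmp_mul E O h T T' hE, cmp_mul O E h.symm T T' hO, map_mul, map_mul, mul_div_mul_comm]

theorem nrm_one (E O : Submodule ℂ V) (h : IsCompl E O) : nrm E O h 1 = 1 := by
  unfold nrm
  rw [cmp_one, cmp_one, map_one, map_one, div_one]

end Comp

section Concrete

variable {F : Type u} [Field F] (n : ℕ)

theorem pres_even {T : Module.End ℂ ((Fin n → F) → ℂ)}
    (hT : refl F n ∘ₗ T = T ∘ₗ refl F n) : ∀ φ ∈ evenSub F n, T φ ∈ evenSub F n := by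
  intro φ hφ ξ
  have h1 : refl F n φ = φ := by
    funext η
    exact hφ η
  have h2 : refl F n (T φ) = T (refl F n φ) := LinearMap.congr_fun hT φ
  have h3 : refl F n (T φ) = T φ := by rw [h2, h1]
  exact congrFun h3 ξ

theorem pres_odd {T : Module.End ℂ ((Fin n → F) → ℂ)}
    (hT : refl F n ∘ₗ T = T ∘ₗ refl F n) : ∀ φ ∈ oddSub F n, T φ ∈ oddSub F n := by
  intro φ hφ ξ
  have h1 : refl F n φ = -φ := by
    funext η
    exact hφ η
  have h2 : refl F n (T φ) = T (refl F n φ) := LinearMap.congr_fun hT φ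
  have h3 : refl F n (T φ) = -(T φ) := by rw [h2, h1, map_neg]
  exact congrFun h3 ξ

end Concrete

/-- WEIL-REP. -/
theorem weilRep (hA : StAllInt.{u}) (hC : StComm.{u}) (hR : StReflComm.{u}) (hD : StDims.{u}) :
    StWeilRep.{u} := by
  intro F _ _ n h2 ψ hψ
  classical
  obtain ⟨hd1, _, hcompl⟩ := hD (F := F) n h2
  obtain ⟨Good, hGood⟩ : ∃ Good : Matrix.symplecticGroup (Fin n) F →
      Module.End ℂ ((Fin n → F) → ℂ) → Prop, ∀ g T, Good g T ↔ (IsUnit T ∧ IsInt n ψ g T) :=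
    ⟨_, fun g T => Iff.rfl⟩
  have hinv : ∀ (g : Matrix.symplecticGroup (Fin n) F) (u : (Module.End ℂ ((Fin n → F) → ℂ))ˣ)
      (w : Fin n ⊕ Fin n → F), IsInt n ψ g (u : Module.End ℂ ((Fin n → F) → ℂ)) →
      ((u⁻¹ : (Module.End ℂ ((Fin n → F) → ℂ))ˣ) : Module.End ℂ ((Fin n → F) → ℂ))
          * heis n ψ ((g : Matrix (Fin n ⊕ Fin n) (Fin n ⊕ Fin n) F) *ᵥ w)
        = heis n ψ w * ((u⁻¹ : (Module.End ℂ ((Fin n → F) → ℂ))ˣ) :
            Module.End ℂ ((Fin n → F) → ℂ)) := by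
    intro g u w hi
    have h3 : (u : Module.End ℂ ((Fin n → F) → ℂ)) * heis n ψ w
        = heis n ψ ((g : Matrix (Fin n ⊕ Fin n) (Fin n ⊕ Fin n) F) *ᵥ w)
          * (u : Module.End ℂ ((Fin n → F) → ℂ)) := hi w
    calc ((u⁻¹ : (Module.End ℂ ((Fin n → F) → ℂ))ˣ) : Module.End ℂ ((Fin n → F) → ℂ))
          * heis n ψ ((g : Matrix (Fin n ⊕ Fin n) (Fin n ⊕ Fin n) F) *ᵥ w)
        = ((u⁻¹ : (Module.End ℂ ((Fin n → F) → ℂ))ˣ) : Module.End ℂ ((Fin n → F) → ℂ))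
          * (heis n ψ ((g : Matrix (Fin n ⊕ Fin n) (Fin n ⊕ Fin n) F) *ᵥ w)
            * (u : Module.End ℂ ((Fin n → F) → ℂ)))
          * ((u⁻¹ : (Module.End ℂ ((Fin n → F) → ℂ))ˣ) : Module.End ℂ ((Fin n → F) → ℂ)) := by
          rw [mul_assoc, mul_assoc, Units.mul_inv, mul_one]
      _ = ((u⁻¹ : (Module.End ℂ ((Fin n → F) → ℂ))ˣ) : Module.End ℂ ((Fin n → F) → ℂ))
          * ((u : Module.End ℂ ((Fin n → F) → ℂ)) * heis n ψ w)
          * ((u⁻¹ : (Module.End ℂ ((Fin n → F) → ℂ))ˣ) : Module.End ℂ ((Fin n → F) → ℂ)) := by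
          rw [h3]
      _ = heis n ψ w * ((u⁻¹ : (Module.End ℂ ((Fin n → F) → ℂ))ˣ) :
            Module.End ℂ ((Fin n → F) → ℂ)) := by
          rw [← mul_assoc, Units.inv_mul, one_mul]
  have key := exists_hom_of_good Good (nrm (evenSub F n) (oddSub F n) hcompl)
    ?_ ?_ ?_ ?_ ?_ ?_ ?_ ?_ ?_
  · obtain ⟨ω, hω⟩ := key
    exact ⟨ω, fun g => ((hGood _ _).mp (hω g)).2⟩
  · -- ha
    intro g
    obtain ⟨T, hT⟩ := hA n h2 ψ hψ g
    exact ⟨T, (hGood _ _).mpr hT⟩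
  · -- hb
    rw [hGood]
    refine ⟨isUnit_one, fun w => ?_⟩
    show LinearMap.id ∘ₗ heis n ψ w
      = heis n ψ ((1 : Matrix (Fin n ⊕ Fin n) (Fin n ⊕ Fin n) F) *ᵥ w) ∘ₗ LinearMap.id
    rw [Matrix.one_mulVec, LinearMap.id_comp, LinearMap.comp_id]
  · -- hc
    intro g h T T' hT hT'
    rw [hGood] at hT hT' ⊢
    obtain ⟨hu, hi⟩ := hT
    obtain ⟨hu', hi'⟩ := hT'
    refine ⟨hu.mul hu', fun w => ?_⟩
    have e : ((g * h : Matrix.symplecticGroup (Fin n) F) :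
        Matrix (Fin n ⊕ Fin n) (Fin n ⊕ Fin n) F) *ᵥ w
        = (g : Matrix (Fin n ⊕ Fin n) (Fin n ⊕ Fin n) F) *ᵥ
          ((h : Matrix (Fin n ⊕ Fin n) (Fin n ⊕ Fin n) F) *ᵥ w) := sp_mul_mulVec n g h w
    rw [e]
    have h3 : T' * heis n ψ w
        = heis n ψ ((h : Matrix (Fin n ⊕ Fin n) (Fin n ⊕ Fin n) F) *ᵥ w) * T' := hi' w
    have h4 : T * heis n ψ ((h : Matrix (Fin n ⊕ Fin n) (Fin n ⊕ Fin n) F) *ᵥ w)
        = heis n ψ ((g : Matrix (Fin n ⊕ Fin n) (Fin n ⊕ Fin n) F) *ᵥ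
          ((h : Matrix (Fin n ⊕ Fin n) (Fin n ⊕ Fin n) F) *ᵥ w)) * T :=
      hi ((h : Matrix (Fin n ⊕ Fin n) (Fin n ⊕ Fin n) F) *ᵥ w)
    show T * T' * heis n ψ w
      = heis n ψ ((g : Matrix (Fin n ⊕ Fin n) (Fin n ⊕ Fin n) F) *ᵥ
          ((h : Matrix (Fin n ⊕ Fin n) (Fin n ⊕ Fin n) F) *ᵥ w)) * (T * T')
    rw [mul_assoc, h3, ← mul_assoc, h4, mul_assoc]
  · -- hd
    intro g T c hc hT
    rw [hGood] at hT ⊢
    obtain ⟨hu, hi⟩ := hT
    refine ⟨?_, fun w => ?_⟩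
    · obtain ⟨u, rfl⟩ := hu
      refine ⟨⟨c • (u : Module.End ℂ ((Fin n → F) → ℂ)),
        c⁻¹ • ((u⁻¹ : (Module.End ℂ ((Fin n → F) → ℂ))ˣ) : Module.End ℂ ((Fin n → F) → ℂ)),
        ?_, ?_⟩, rfl⟩
      · rw [smul_mul_smul_comm, mul_inv_cancel₀ hc, Units.mul_inv, one_smul]
      · rw [smul_mul_smul_comm, inv_mul_cancel₀ hc, Units.inv_mul, one_smul]
    · rw [LinearMap.smul_comp, LinearMap.comp_smul, hi w]
  · -- he
    intro g T T' hT hT'
    rw [hGood] at hT hT'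
    obtain ⟨hu, hi⟩ := hT
    obtain ⟨hu', hi'⟩ := hT'
    obtain ⟨u, rfl⟩ := hu
    have hX : ∀ w, (((u⁻¹ : (Module.End ℂ ((Fin n → F) → ℂ))ˣ) :
        Module.End ℂ ((Fin n → F) → ℂ)) * T') ∘ₗ heis n ψ w
        = heis n ψ w ∘ₗ (((u⁻¹ : (Module.End ℂ ((Fin n → F) → ℂ))ˣ) :
        Module.End ℂ ((Fin n → F) → ℂ)) * T') := by
      intro w
      have h3 : T' * heis n ψ w
          = heis n ψ ((g : Matrix (Fin n ⊕ Fin n) (Fin n ⊕ Fin n) F) *ᵥ w) * T' := hi' w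
      show ((u⁻¹ : (Module.End ℂ ((Fin n → F) → ℂ))ˣ) : Module.End ℂ ((Fin n → F) → ℂ)) * T'
          * heis n ψ w
        = heis n ψ w * (((u⁻¹ : (Module.End ℂ ((Fin n → F) → ℂ))ˣ) :
            Module.End ℂ ((Fin n → F) → ℂ)) * T')
      rw [mul_assoc, h3, ← mul_assoc, hinv g u w hi, mul_assoc]
    obtain ⟨c, hc⟩ := hC n ψ hψ _ hX
    refine ⟨c, ?_⟩
    have h5 : T' = (u : Module.End ℂ ((Fin n → F) → ℂ))
        * (((u⁻¹ : (Module.End ℂ ((Fin n → F) → ℂ))ˣ) : Module.End ℂ ((Fin n → F) → ℂ)) * T') := by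
      rw [← mul_assoc, Units.mul_inv, one_mul]
    rw [h5, hc]
    show (u : Module.End ℂ ((Fin n → F) → ℂ)) * (c • (1 : Module.End ℂ ((Fin n → F) → ℂ)))
      = c • (u : Module.End ℂ ((Fin n → F) → ℂ))
    rw [mul_smul_comm, mul_one]
  · -- f1
    intro c T
    exact nrm_smul _ _ hcompl hd1 c T
  · -- f2
    intro g h T T' hT hT'
    rw [hGood] at hT'
    have hcomm := hR n h2 ψ hψ h T' hT'.1 hT'.2
    exact nrm_mul _ _ hcompl T T' (pres_even n hcomm) (pres_odd n hcomm)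
  · -- f3
    exact nrm_one _ _ hcompl
  · -- f4
    intro g T hT
    rw [hGood] at hT
    obtain ⟨hu, hi⟩ := hT
    obtain ⟨u, rfl⟩ := hu
    have hcomm : refl F n * (u : Module.End ℂ ((Fin n → F) → ℂ))
        = (u : Module.End ℂ ((Fin n → F) → ℂ)) * refl F n :=
      hR n h2 ψ hψ g (u : Module.End ℂ ((Fin n → F) → ℂ)) u.isUnit hi
    have hcomm' : refl F n ∘ₗ ((u⁻¹ : (Module.End ℂ ((Fin n → F) → ℂ))ˣ) :
        Module.End ℂ ((Fin n → F) → ℂ))
        = ((u⁻¹ : (Module.End ℂ ((Fin n → F) → ℂ))ˣ) : Module.End ℂ ((Fin n → F) → ℂ))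
          ∘ₗ refl F n := by
      show refl F n * ((u⁻¹ : (Module.End ℂ ((Fin n → F) → ℂ))ˣ) :
        Module.End ℂ ((Fin n → F) → ℂ))
        = ((u⁻¹ : (Module.End ℂ ((Fin n → F) → ℂ))ˣ) : Module.End ℂ ((Fin n → F) → ℂ))
          * refl F n
      calc refl F n * ((u⁻¹ : (Module.End ℂ ((Fin n → F) → ℂ))ˣ) :
            Module.End ℂ ((Fin n → F) → ℂ))
          = ((u⁻¹ : (Module.End ℂ ((Fin n → F) → ℂ))ˣ) : Module.End ℂ ((Fin n → F) → ℂ))
            * ((u : Module.End ℂ ((Fin n → F) → ℂ)) * refl F n)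
            * ((u⁻¹ : (Module.End ℂ ((Fin n → F) → ℂ))ˣ) :
              Module.End ℂ ((Fin n → F) → ℂ)) := by
            rw [← mul_assoc, Units.inv_mul, one_mul]
        _ = ((u⁻¹ : (Module.End ℂ ((Fin n → F) → ℂ))ˣ) : Module.End ℂ ((Fin n → F) → ℂ))
            * (refl F n * (u : Module.End ℂ ((Fin n → F) → ℂ)))
            * ((u⁻¹ : (Module.End ℂ ((Fin n → F) → ℂ))ˣ) :
              Module.End ℂ ((Fin n → F) → ℂ)) := by
            rw [hcomm]
        _ = ((u⁻¹ : (Module.End ℂ ((Fin n → F) → ℂ))ˣ) : Module.End ℂ ((Fin n → F) → ℂ))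
            * refl F n := by
            rw [mul_assoc, mul_assoc, Units.mul_inv, mul_one]
    have hm := nrm_mul (evenSub F n) (oddSub F n) hcompl (u : Module.End ℂ ((Fin n → F) → ℂ))
      ((u⁻¹ : (Module.End ℂ ((Fin n → F) → ℂ))ˣ) : Module.End ℂ ((Fin n → F) → ℂ))
      (pres_even n hcomm') (pres_odd n hcomm')
    rw [Units.mul_inv, nrm_one] at hm
    intro h0
    rw [h0, zero_mul] at hm
    exact one_ne_zero hm

example (hA : StAllInt.{u}) (hC : StComm.{u}) (hR : StReflComm.{u}) (hD : StDims.{u}) :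
    StWeilRep.{u} := weilRep hA hC hR hD

end Cfsg.Agent.H79.Weil
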